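import Mathlib
import Cfsg.Agent.Deg.NdC
import Cfsg.Agent.Deg.GraphA

/-! No divisibility among the degrees: the case of a nonabelian nilpotent quotient. -/

set_option autoImplicit false
set_option linter.unusedSectionVars false

namespace Cfsg.Agent.Deg.Nd

open Cfsg Cfsg.Agent.Ch Cfsg.Agent.Deg.Gr Subgroup

variable {G : Type*} [Group G] [Finite G]

theorem caseA_prime (h1 : ¬ commutator G ≤ ⁅commutator G, ⊤⁆) :
    ∃ p : ℕ, p.Prime ∧ ¬ commutator G ≤ ⁅commutator G, ⊤⁆ ⊔ pResidual p G := by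
  set L : Subgroup G := ⁅commutator G, ⊤⁆ with hL
  have hs := QuotientGroup.mk'_surjective L
  have hne : commutator (G ⧸ L) ≠ ⊥ := by
    rwa [deg12_commutator_quotient, Ne, Subgroup.map_eq_bot_iff, QuotientGroup.ker_mk']
  have hc : ⁅commutator (G ⧸ L), (⊤ : Subgroup (G ⧸ L))⁆ = ⊥ := by
    rw [deg12_commutator_quotient, ← Subgroup.map_top_of_surjective _ hs, ← Subgroup.map_commutator,
      Subgroup.map_eq_bot_iff, QuotientGroup.ker_mk']
  have hn : Group.IsNilpotent (G ⧸ L) := Subgroup.nilpotent_iff_lowerCentralSeries.2 ⟨2, hc⟩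
  obtain ⟨p, hp, hd⟩ := Nat.exists_prime_and_dvd (mt Subgroup.card_eq_one.1 hne)
  have := Fact.mk hp
  refine ⟨p, hp, fun h => (GT.Tr.hasNormalPComplement_of_isNilpotent (p := p) hn).not_dvd_card_pResidual
    (hd.trans (card_dvd_of_le ?_))⟩
  rw [deg12_commutator_quotient]
  refine (map_mono h).trans ?_
  rw [Subgroup.map_sup]
  exact sup_le (by rw [(Subgroup.map_eq_bot_iff _).2 (QuotientGroup.ker_mk' L).ge]; exact bot_le)
    (GT.map_pResidual_le _)

/-- A nonabelian nilpotent quotient forces two degrees. -/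
theorem ND.caseA (h : ND G) (h1 : ¬ commutator G ≤ ⁅commutator G, ⊤⁆) :
    ∃ a, ∀ χ, IsIrrCharacter G χ → charDegree χ ≠ 1 → charDegree χ = a := by
  obtain ⟨p, hp, h2⟩ := caseA_prime h1
  obtain ⟨g, hg, hg'⟩ := SetLike.not_le_iff_exists.1 h2
  obtain ⟨θ, h3, h4⟩ := exists_irr_le_charKer_not_mem _ hg'
  have h5 : commutator G ≤ charCenter (θ : G → ℂ) := fun z hz =>
    θ.2.mem_charCenter_iff_commutator.2 fun y =>
      h3 (mem_sup_left (Subgroup.commutator_mem_commutator hz trivial))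
  have h6 : charDegree (θ : G → ℂ) ≠ 1 := fun e =>
    h4 ((Deg.charDegree_eq_one_iff_commutator_le θ.2).1 e hg)
  have h7 : ∀ x ∉ charCenter (θ : G → ℂ), (θ : G → ℂ) x = 0 := fun x hx => by
    obtain ⟨y, hy⟩ := not_forall.1 (mt θ.2.mem_charCenter_iff_commutator.2 hx)
    refine Deg.apply_eq_zero_of_commutator θ.isCharacter (y := y)
      (h5 (Subgroup.commutator_mem_commutator trivial trivial)) fun h => hy ?_
    simpa [mul_assoc] using (charKer _).inv_mem h
  obtain ⟨k, hk⟩ := GT.exists_index_pResidual (G := G) hp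
  obtain ⟨b, -, hb⟩ := (Nat.dvd_prime_pow hp).1
    (hk ▸ charDegree_dvd_index_of_le_charKer θ.2 (le_sup_right.trans h3))
  have := θ.isCharacter.charCenter_normal
  obtain ⟨c, hc⟩ := h.two_of_pRes hp (degT_thompson hp fun χ hχ h8 => by
    by_contra h9
    have h10 := res_irr_dgr (charCenter (θ : G → ℂ)) hχ (by
      rw [← Deg.sq_charDegree_eq_index θ.2 _ le_rfl h7, hb]
      exact ((hp.coprime_iff_not_dvd.2 h9).pow_left b).pow_left 2)
    have h11 := h θ _ θ.2 (deg12_mul_irr_of_vanish θ.2 le_rfl h7 hχ.isCharacter h10) h6 (by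
      rw [θ.isCharacter.charDegree_mul hχ.isCharacter]; exact Dvd.intro _ rfl)
    rw [θ.isCharacter.charDegree_mul hχ.isCharacter] at h11
    exact h8 ((Nat.mul_eq_left θ.2.charDegree_pos.ne').1 h11.symm))
    fun e => h2 (e.trans le_sup_right)
  exact ⟨_, hc⟩

/-- The conclusion from at most three nonlinear degrees. -/
theorem card_le_four {a b c : ℕ}
    (h : ∀ χ, IsIrrCharacter G χ → charDegree χ ≠ 1 → charDegree χ = a ∨ charDegree χ = b ∨ charDegree χ = c) :
    Nat.card (charDegrees G) ≤ 4 := by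
  have h1 : charDegrees G ⊆ {1, a, b, c} := fun d hd => by
    obtain ⟨χ, hχ, rfl⟩ := Deg.mem_charDegrees.1 hd
    by_cases e : charDegree χ = 1
    · exact .inl e
    · exact .inr (h χ hχ e)
  rw [Nat.card_coe_set_eq]
  refine (Set.ncard_le_ncard h1 (Set.toFinite _)).trans ?_
  refine (Set.ncard_insert_le _ _).trans (Nat.succ_le_succ ?_)
  refine (Set.ncard_insert_le _ _).trans (Nat.succ_le_succ ?_)
  refine (Set.ncard_insert_le _ _).trans (Nat.succ_le_succ ?_)
  rw [Set.ncard_singleton]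

/-- The statement in the case of two degrees. -/
theorem fin_of_two {a : ℕ} (h : ∀ χ, IsIrrCharacter G χ → charDegree χ ≠ 1 → charDegree χ = a) :
    Nat.card (charDegrees G) ≤ 4 ∧ derivedSeries G 3 = ⊥ := by
  refine ⟨card_le_four (a := a) (b := a) (c := a) fun χ hχ e => .inl (h χ hχ e), ?_⟩
  have h2 : derivedSeries G 2 = ⊥ := deg12_commutator_comm h
  rw [derivedSeries_succ, h2, Subgroup.commutator_bot_left]

theorem ND.caseA_fin (h : ND G) (h1 : ¬ commutator G ≤ ⁅commutator G, ⊤⁆) :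
    Nat.card (charDegrees G) ≤ 4 ∧ derivedSeries G 3 = ⊥ :=
  (h.caseA h1).elim fun _ => fin_of_two

end Cfsg.Agent.Deg.Nd
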