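import Mathlib
import Cfsg.Agent.ND.CaseA

/-! No divisibility among the degrees: the case of a Frobenius section with nilpotent top. -/

set_option autoImplicit false
set_option linter.unusedSectionVars false

namespace Cfsg.Agent.ND

open Cfsg Cfsg.Agent.Ch Cfsg.Agent.Deg Cfsg.Agent.Deg.Nd Subgroup

variable {G : Type*} [Group G] [Finite G] {N K : Subgroup G} [N.Normal] [K.Normal]

theorem nil_f_ne (hF : FrobSec N K) : N.index ≠ 1 := mt Subgroup.index_eq_one.1 hF.ne_top

/-- No degree is a proper multiple of the index. -/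
theorem nil_eq_of_dvd (hd : ND G) (hF : FrobSec N K) {χ : G → ℂ} (hχ : IsIrrCharacter G χ)
    (h : N.index ∣ charDegree χ) : charDegree χ = N.index := by
  obtain ⟨ξ, hξ, hξ1⟩ := hF.exists_charDegree_eq
  rw [← hd ξ χ hξ hχ (hξ1 ▸ nil_f_ne hF) (hξ1 ▸ h), hξ1]

/-- The nonlinear degrees of `N` are divisible by the primes of the section. -/
theorem nil_a1 (hd : ND G) (hF : FrobSec N K) {p : ℕ} (hp : p.Prime) (hpK : p ∣ K.relIndex N)
    {ψ : N → ℂ} (hψ : IsIrrCharacter N ψ) (h3 : charDegree ψ ≠ 1) : p ∣ charDegree ψ := by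
  rcases hF.exists_or_dvd hψ with ⟨χ, hχ, h4⟩ | h4
  · have h5 := nil_eq_of_dvd hd hF hχ (by rw [h4]; exact Dvd.intro _ rfl)
    rw [h4] at h5
    exact absurd ((Nat.mul_eq_left index_ne_zero_of_finite).1 h5) h3
  · exact hp.dvd_of_dvd_pow (hpK.trans h4)

/-- A nonlinear degree is the index or is divisible by the primes of the section. -/
theorem nil_a2 (hd : ND G) (hF : FrobSec N K) {p : ℕ} (hp : p.Prime) (hpK : p ∣ K.relIndex N)
    {χ : G → ℂ} (hχ : IsIrrCharacter G χ) (h3 : charDegree χ ≠ 1) :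
    charDegree χ = N.index ∨ p ∣ charDegree χ := by
  have := Fintype.ofFinite N
  have := Fintype.ofFinite G
  obtain ⟨ξ, hξ, hξ1⟩ := hF.exists_charDegree_eq
  obtain ⟨ψ, hψ, hne⟩ := exists_irr_under N hχ
  by_cases h4 : charDegree ψ = 1
  · obtain ⟨e, he, h5⟩ := exists_deg_eq hχ hψ hne
    rw [h4, mul_one] at h5
    exact Or.inl (hξ1 ▸ hd χ ξ hχ hξ h3 (by rw [h5, hξ1]; exact he))
  · exact Or.inr ((nil_a1 hd hF hp hpK hψ h4).trans (charDegree_dvd_of_under hχ hψ hne))

theorem nil_sylow [hn : Group.IsNilpotent N] {p : ℕ} [Fact p.Prime] (P : Sylow p G) (hP : (P : Subgroup G) ≤ N) :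
    (P : Subgroup G).Normal ∧ N ≤ (P : Subgroup G) ⊔ centralizer ((P : Subgroup G) : Set G) := by
  have h1 : (P.subtype hP : Subgroup N).Normal := GT.isNilpotent_iff_sylow_normal.1 hn p ‹_› _
  have h2 : N ≤ normalizer ((P : Subgroup G) : Set G) := (normal_subgroupOf_iff_le_normalizer hP).1 h1
  have h3 := Sylow.normalizer_sup_eq_top' (N := N) P hP
  refine ⟨normalizer_eq_top_iff.1 ((sup_of_le_left h2).symm.trans h3), fun n hn' => ?_⟩
  have hc := (GT.Tr.hasNormalPComplement_of_isNilpotent (p := p) hn).isComplement'_pResidual (P.subtype hP)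
  obtain ⟨⟨b, a⟩, h4⟩ := hc.2 ⟨n, hn'⟩
  have h5 : n = b.1.1 * a.1.1 := (congrArg Subtype.val h4).symm
  rw [h5]
  refine mul_mem (mem_sup_right fun x hx => ?_) (mem_sup_left a.2)
  exact congrArg Subtype.val (Subgroup.commute_of_normal_of_disjoint _ _ inferInstance h1 hc.disjoint
    b.1 ⟨x, hP hx⟩ b.2 hx).eq.symm

/-- The reduction to a normal Sylow subgroup with an abelian complement. -/
theorem nil_red (hd : ND G) (hF : FrobSec N K) [Group.IsNilpotent N] :
    (∀ χ, IsIrrCharacter G χ → charDegree χ ≠ 1 → charDegree χ = N.index) ∨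
    ∃ (p : ℕ) (P C : Subgroup G), p.Prime ∧ P.Normal ∧ IsPGroup p P ∧ ¬ p ∣ Nat.card C ∧
      (∀ a ∈ C, ∀ b ∈ C, a * b = b * a) ∧ P ⊔ C = ⊤ := by
  have hk1 : K.relIndex N ≠ 1 := fun h => hF.lt.not_ge (Subgroup.relIndex_eq_one.1 h)
  obtain ⟨p, hp, hpK⟩ := Nat.exists_prime_and_dvd hk1
  have := Fact.mk hp
  obtain ⟨S, hS⟩ := GT.Tr.exists_sylow_le_of_not_dvd_index (H := N) (p := p) fun e =>
    hp.ne_one (Nat.eq_one_of_dvd_coprimes hF.coprime hpK e)
  obtain ⟨hN, hNS⟩ := nil_sylow S hS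
  set P : Subgroup G := (S : Subgroup G)
  have hi : ¬ p ∣ P.index := S.not_dvd_index
  have := Fintype.ofFinite P
  have := Fintype.ofFinite G
  by_cases hab : ∀ a ∈ P, ∀ b ∈ P, a * b = b * a
  · exact .inl fun χ hχ h1 => (nil_a2 hd hF hp hpK hχ h1).resolve_right fun e =>
      hi (e.trans (hχ.charDegree_dvd_index_of_comm P hab))
  have hcop : (Nat.card P).Coprime P.index := S.card_coprime_index
  obtain ⟨θ, hθ, -, hθ1⟩ := exists_nonlinear_le_charKer (G := P) ⊥ fun e => hab fun a ha b hb => by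
    have h1 := e (commutator_mem_commutator (mem_top (⟨a, ha⟩ : P)) (mem_top ⟨b, hb⟩))
    rw [mem_bot, commutatorElement_eq_one_iff_mul_comm] at h1
    exact congrArg Subtype.val h1
  have hMT := le_inertia hθ.isClassFunction
  have hNT : N ≤ inertia P θ := hNS.trans (sup_le hMT fun g hg => mem_inertia.2 fun n =>
    congrArg θ (Subtype.ext (by simp [← hg n n.2])))
  obtain ⟨η, hη, he⟩ := deg12_extends_of_coprime hcop hθ le_rfl hMT
  have key := fun β hβ hk => deg12_exists_of_extends hθ rfl hMT hη.isCharacter he (β := β) hβ hk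
  obtain ⟨χ₁, h2, -, h3⟩ := key _ IsIrrCharacter.one (fun _ _ => IsCharacter.one.mem_charKer.2 rfl)
  rw [charDegree_one, one_mul] at h3
  have hd1 : charDegree χ₁ ≠ 1 := fun e => hθ1 (Nat.eq_one_of_mul_eq_one_left (h3.symm.trans e))
  have h5 : commutator (inertia P θ) ≤ P.subgroupOf _ :=
    deg12_commutator_le_of_forall_linear _ fun β hβ hk => by
      obtain ⟨χ₂, h6, -, h7⟩ := key β hβ hk
      have h8 := hd χ₁ χ₂ h2 h6 hd1 (by rw [h3, h7]; exact ⟨charDegree β, by ring⟩)
      rw [h3, h7] at h8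
      have h9 := Nat.eq_of_mul_eq_mul_left (Nat.pos_of_ne_zero index_ne_zero_of_finite) h8
      exact (Nat.mul_eq_right hθ.charDegree_pos.ne').1 h9.symm
  have hG : commutator G ≤ P := deg12_commutator_le_of_forall_linear _ fun χ hχ hk => by
    by_contra h1
    have h6 := (nil_a2 hd hF hp hpK hχ h1).resolve_right fun e =>
      hi (e.trans (charDegree_dvd_index_of_le_charKer hχ hk))
    have := Fintype.ofFinite (inertia P θ)
    obtain ⟨φ, hφ, hne'⟩ := exists_irr_under (inertia P θ) hχ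
    have h7 : charDegree φ = 1 := (charDegree_eq_one_iff_commutator_le hφ).2 fun x hx =>
      mem_charKer_of_over hχ.isCharacter hφ hne' (hk (h5 hx))
    have h8 := deg_le_of_under hχ hφ hne'
    rw [h7, mul_one, h6] at h8
    have h9 : (inertia P θ).index = N.index := le_antisymm
      (Nat.le_of_dvd (Nat.pos_of_ne_zero index_ne_zero_of_finite) (index_dvd_of_le hNT)) h8
    have h10 := nil_eq_of_dvd hd hF h2 (by rw [h3, h9]; exact Dvd.intro _ rfl)
    rw [h3, h9] at h10
    exact hθ1 ((Nat.mul_eq_left index_ne_zero_of_finite).1 h10)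
  obtain ⟨C, hC⟩ := exists_right_complement'_of_coprime hcop
  refine .inr ⟨p, P, C, hp, hN, S.isPGroup', by rwa [← hC.symm.index_eq_card], fun a ha b hb => ?_, hC.sup_eq_top⟩
  rw [← mul_inv_eq_iff_eq_mul, ← mul_inv_eq_one, ← Subgroup.mem_bot, ← hC.disjoint.eq_bot]
  exact ⟨hG (Subgroup.commutator_mem_commutator trivial trivial),
    C.mul_mem (C.mul_mem (C.mul_mem ha hb) (C.inv_mem ha)) (C.inv_mem hb)⟩

end Cfsg.Agent.ND
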