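import Mathlib
import Cfsg.Agent.ND.Nil

/-! No divisibility among the degrees: the configurations of the non-nilpotent case. -/

set_option autoImplicit false

namespace Cfsg.Agent.ND

open Cfsg Cfsg.Agent.Ch Cfsg.Agent.Deg.Nd Subgroup MulAction

/-- The minimal configuration: `W` is a minimal normal subgroup with complement `Y`. -/
structure Min {G : Type*} [Group G] (N K W Y : Subgroup G) : Prop where
  nd : ND G
  frob : FrobSec N K
  WK : W ≤ K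
  elem : ∃ r : ℕ, r.Prime ∧ ∀ w ∈ W, w ^ r = 1
  comm : ∀ a ∈ W, ∀ b ∈ W, a * b = b * a
  min : ∀ M : Subgroup G, M.Normal → M ≤ K → M ≠ ⊥ → W ≤ M
  compl : W.IsComplement' Y
  nil : Group.IsNilpotent (N.subgroupOf Y)
  nc : ∃ x ∈ N, ∃ w ∈ W, x * w ≠ w * x

/-- The action of `Y` on the linear characters of `W`. -/
@[reducible] def linAct {G : Type*} [Group G] (W Y : Subgroup G) [W.Normal] :
    MulDistribMulAction Y (W →* ℂˣ) where
  smul g f := linConj (g : G)⁻¹ f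
  one_smul f := by
    change linConj ((1 : Y) : G)⁻¹ f = f
    rw [OneMemClass.coe_one, inv_one, linConj_one]
  mul_smul g h f := by
    change linConj ((g * h : Y) : G)⁻¹ f = linConj (g : G)⁻¹ (linConj (h : G)⁻¹ f)
    rw [Subgroup.coe_mul, mul_inv_rev, linConj_mul]
  smul_mul g a b := map_mul (linConj (g : G)⁻¹) a b
  smul_one g := map_one (linConj (g : G)⁻¹)

/-- The stabiliser in `Y` of a linear character of `W`. -/
def linStab {G : Type*} [Group G] (W Y : Subgroup G) [W.Normal] (f : W →* ℂˣ) : Subgroup Y :=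
  @stabilizer Y (W →* ℂˣ) _ (linAct W Y).toMulAction f

theorem mem_linStab {G : Type*} [Group G] {W Y : Subgroup G} [W.Normal] {f : W →* ℂˣ} {g : Y} :
    g ∈ linStab W Y f ↔ linConj (g : G)⁻¹ f = f := Iff.rfl

/-- The group `Y` acting on `V`. -/
structure Hyp (V : Type*) [CommGroup V] {Y : Type*} [Group Y] [MulDistribMulAction Y V]
    (F K : Subgroup Y) : Prop where
  nd : ND Y
  frob : FrobSec F K
  nil : Group.IsNilpotent F
  ntr : Nontrivial V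
  elem : ∃ r : ℕ, r.Prime ∧ ∀ v : V, v ^ r = 1
  fix : ∀ Z : Subgroup Y, Z.Normal → Z ≤ F → Z ≠ ⊥ → ∀ v : V, (∀ z ∈ Z, z • v = v) → v = 1
  ab : ∀ v : V, v ≠ 1 → ∀ a b : Y, a • v = v → b • v = v → a * b = b * a
  anti : ∀ v w : V, v ≠ 1 → w ≠ 1 → (stabilizer Y v).index ∣ (stabilizer Y w).index →
    (stabilizer Y v).index = (stabilizer Y w).index
  deg : ∀ v : V, v ≠ 1 → ∀ χ, IsIrrCharacter Y χ → charDegree χ ≠ 1 →
    charDegree χ ∣ (stabilizer Y v).index → charDegree χ = (stabilizer Y v).index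

/-- The nonabelian case: `F` is `P` times a central subgroup. -/
structure Nab {Y : Type*} [Group Y] (F K P : Subgroup Y) (p : ℕ) : Prop where
  hp : p.Prime
  pg : IsPGroup p P
  le : P ≤ F
  nK : ¬ P ≤ K
  cop : ¬ p ∣ P.index
  split : ∀ x ∈ F, ∃ u ∈ P, ∃ z ∈ center Y, x = u * z
  der : ⁅F, F⁆ = ⁅P, P⁆
  nab : ⁅P, P⁆ ≠ ⊥

/-- The abelian case, group part: `Y = J ⋊ A`, `A / Z` cyclic of order `f` generated by `y₀`. -/
structure AbG {Y : Type*} [Group Y] (J A Z : Subgroup Y) (y₀ : Y) (f : ℕ) : Prop where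
  Jn : J.Normal
  Jc : ∀ a ∈ J, ∀ b ∈ J, a * b = b * a
  Jne : J ≠ ⊥
  Ac : ∀ a ∈ A, ∀ b ∈ A, a * b = b * a
  dec : ∀ g, ∃ v ∈ J, ∃ a ∈ A, g = v * a
  ZA : Z ≤ A
  Zc : Z ≤ center Y
  JZ : ∀ v ∈ J, v ∈ Z → v = 1
  fpf : ∀ a ∈ A, a ∉ Z → ∀ v ∈ J, a * v = v * a → v = 1
  y0A : y₀ ∈ A
  gen : ∀ a ∈ A, ∃ k : ℕ, a * (y₀ ^ k)⁻¹ ∈ Z
  ord : ∀ k : ℕ, y₀ ^ k ∈ Z ↔ f ∣ k
  card : Nat.card Y = Nat.card J * Nat.card Z * f
  f1 : 1 < f

/-- The abelian case. -/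
structure Ab (V : Type*) [CommGroup V] {Y : Type*} [Group Y] [MulDistribMulAction Y V]
    (J A Z : Subgroup Y) (y₀ : Y) (f : ℕ) : Prop extends AbG J A Z y₀ f where
  ntr : Nontrivial V
  elem : ∃ r : ℕ, r.Prime ∧ ∀ v : V, v ^ r = 1
  semi : ∀ v ∈ J, ∀ z ∈ Z, ∀ x : V, x ≠ 1 → (v * z) • x = x → v = 1 ∧ z = 1
  ab : ∀ x : V, x ≠ 1 → ∀ a b : Y, a • x = x → b • x = x → a * b = b * a
  anti : ∀ x w : V, x ≠ 1 → w ≠ 1 → Nat.card (stabilizer Y x) ∣ Nat.card (stabilizer Y w) →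
    Nat.card (stabilizer Y x) = Nat.card (stabilizer Y w)
  nf : ∀ x : V, x ≠ 1 → ¬ f ∣ (stabilizer Y x).index

end Cfsg.Agent.ND
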