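import Mathlib
import Cfsg.Agent.ND.Nil
import Cfsg.Agent.GT.FrobeniusComplement

/-! No divisibility among the degrees: structure of a Frobenius section. -/

set_option autoImplicit false
set_option linter.unusedSectionVars false

namespace Cfsg.Agent.ND

open Cfsg Cfsg.Agent.Ch Cfsg.Agent.Deg Cfsg.Agent.Deg.Nd Subgroup

variable {G : Type*} [Group G] [Finite G] {N K : Subgroup G} [N.Normal] [hK : K.Normal]

/-- The top of a Frobenius section is cyclic. -/
theorem str_cyclic (hF : FrobSec N K) : IsCyclic (G ⧸ N) := by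
  let L : Subgroup (N →* ℂˣ) :=
    { carrier := {f | K.subgroupOf N ≤ f.ker}
      one_mem' := fun _ _ => rfl
      mul_mem' := fun {a b} ha hb x hx => by
        rw [MonoidHom.mem_ker, MonoidHom.mul_apply, ha hx, hb hx, one_mul]
      inv_mem' := fun {a} ha x hx => by
        rw [MonoidHom.mem_ker, MonoidHom.inv_apply, ha hx, inv_one] }
  let c : G → L →* L := fun g => ((linConj g).comp L.subtype).codRestrict L
    fun a x hx => a.2 (hK.conj_mem _ hx g)
  have c1 : ∀ g h a, c (g * h) a = c h (c g a) := fun g h a => Subtype.ext (linConj_mul g h a.1)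
  have c2 : ∀ g ∈ N, ∀ a, c g a = a := fun g hg a => Subtype.ext (linConj_of_mem hg a.1)
  let φ : G →* MulAut L :=
    { toFun := fun g =>
        { toFun := c g⁻¹
          invFun := c g
          left_inv := fun a => by rw [← c1, inv_mul_cancel, c2 _ N.one_mem]
          right_inv := fun a => by rw [← c1, mul_inv_cancel, c2 _ N.one_mem]
          map_mul' := map_mul _ }
      map_one' := MulEquiv.ext fun a => c2 _ (N.inv_mem N.one_mem) a
      map_mul' := fun g h => MulEquiv.ext fun a => by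
        change c (g * h)⁻¹ a = c g⁻¹ (c h⁻¹ a)
        rw [mul_inv_rev, c1] }
  obtain ⟨n, hn, hn'⟩ := SetLike.exists_of_lt hF.lt
  obtain ⟨f, f1, f2⟩ := hF.exists_hom (n := ⟨n, hn⟩) hn'
  have : Nontrivial L := ⟨⟨f, f1⟩, 1, fun e => f2 (by rw [show f = 1 from congrArg Subtype.val e]; rfl)⟩
  have : IsMulCommutative (G ⧸ N) := Subgroup.Normal.quotient_commutative_iff_commutator_le.2 hF.commutator_le
  refine (GT.Frob.hasFpfAction_of_finite (QuotientGroup.lift N φ fun g hg =>
    MulEquiv.ext fun a => c2 _ (N.inv_mem hg) a) fun a ha v hv => ?_).isCyclic_of_comm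
  induction a using QuotientGroup.induction_on with | _ g
  exact Subtype.ext (hF.eq_one (g := g⁻¹) (fun e => ha ((QuotientGroup.eq_one_iff g).2 (by simpa using e)))
    v.2 (congrArg Subtype.val hv))

/-- A generator modulo `N`. -/
theorem str_gen (hF : FrobSec N K) : ∃ g ∉ N, ∀ S : Subgroup G, N ≤ S → g ∈ S → S = ⊤ := by
  obtain ⟨a, ha⟩ := (str_cyclic hF).exists_generator
  induction a using QuotientGroup.induction_on with | _ g
  have h : ∀ S : Subgroup G, N ≤ S → g ∈ S → S = ⊤ := fun S h1 h2 => eq_top_iff.2 fun x _ => by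
    obtain ⟨k, hk⟩ := ha (x : G ⧸ N)
    have h3 : (g ^ k)⁻¹ * x ∈ N := QuotientGroup.eq.1 (by simpa using hk)
    simpa using S.mul_mem (S.zpow_mem h2 k) (h1 h3)
  exact ⟨g, fun e => hF.ne_top (h N le_rfl e), h⟩

/-- A linear character of `N` is invariant or has a regular orbit. -/
theorem str_lin (hd : ND G) (hF : FrobSec N K) (f : N →* ℂˣ) {y : G} (hy : y ∉ N)
    (h : linConj y f = f) (g : G) : linConj g f = f := by
  have := Fintype.ofFinite N
  have := Fintype.ofFinite G
  have hf := isIrrCharacter_monoidHom_units f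
  have h0 : charDegree (fun n => (f n : ℂ)) = 1 := charDegree_of_apply_one (by simp)
  obtain ⟨χ, hχ, hne⟩ := exists_irr_over N hf
  obtain ⟨e, he, h1, h2⟩ := exists_charDegree_eq_mul hχ hf hne
  rw [h0, mul_one] at h2
  by_cases h3 : charDegree χ = 1
  · have h4 := Nat.eq_one_of_mul_eq_one_left (h2.symm.trans h3)
    exact mem_inertia_lin.1 ((index_eq_one.1 h4).ge (mem_top g))
  obtain ⟨ξ, hξ, hξ1⟩ := hF.exists_charDegree_eq
  obtain ⟨e', he', h5⟩ := exists_deg_eq hχ hf hne
  rw [h0, mul_one] at h5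
  have h6 : charDegree χ = N.index := hξ1 ▸ hd χ ξ hχ hξ h3 (by rw [h5, hξ1]; exact he')
  have h7 := (isCharacter_indFun N hf.isCharacter).mul_charDegree_irr_le hχ (k := e) (by
    rw [classInner_indFun_eq_res N hf.isCharacter hχ.isCharacter, h1]; simp)
  rw [Deg.charDegree_indFun N hf.isCharacter, h0, mul_one, h6] at h7
  have h8 : 0 < N.index := Nat.pos_of_ne_zero index_ne_zero_of_finite
  obtain rfl : e = 1 := by nlinarith
  rw [one_mul, h6] at h2
  exact absurd ((deg12_eq_of_le_of_index_le (le_inertia hf.isClassFunction) h2.le).ge (mem_inertia_lin.2 h)) hy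

theorem str_range (hd : ND G) (hF : FrobSec N K) {y : G} (hy : y ∉ N) (g : G) :
    (tau (MulAut.conjNormal g : MulAut N)).range ≤ (tau (MulAut.conjNormal y : MulAut N)).range := by
  rintro _ ⟨x, rfl⟩
  by_contra hx
  obtain ⟨f, hf⟩ := exists_monoidHom_units_ne_one_of_comm
    (G := Abelianization N ⧸ (tau (MulAut.conjNormal y : MulAut N)).range) mul_comm
    (mt (QuotientGroup.eq_one_iff _).1 hx)
  let F : N →* ℂˣ := (f.comp (QuotientGroup.mk' _)).comp Abelianization.of
  have k : ∀ (a : G) (n : N), linConj a F n = f (tau (MulAut.conjNormal a : MulAut N) n) * F n := fun a n => by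
    rw [tau_apply]
    change _ = F _ * F n
    rw [← map_mul, inv_mul_cancel_right]
    rfl
  have h1 := DFunLike.congr_fun (str_lin hd hF F hy (MonoidHom.ext fun n => by
    rw [k, (QuotientGroup.eq_one_iff _).2 (MonoidHom.mem_range.2 ⟨n, rfl⟩), map_one, one_mul]) g) x
  rw [k] at h1
  exact hf (mul_eq_right.1 h1)

/-- An element of `N` centralised modulo `N'` by one element outside `N` is centralised by all. -/
theorem str_dich (hd : ND G) (hF : FrobSec N K) {u y : G} (hu : u ∈ N) (hy : y ∉ N)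
    (h : y * u * y⁻¹ * u⁻¹ ∈ ⁅N, N⁆) (g : G) : g * u * g⁻¹ * u⁻¹ ∈ ⁅N, N⁆ := by
  obtain ⟨a, ha, hgen⟩ := str_gen hF
  have k : ∀ (b : G) (n : N), n ∈ CC (MulAut.conjNormal b : MulAut N) ↔ b * n * b⁻¹ * (n : G)⁻¹ ∈ ⁅N, N⁆ :=
    fun b n => by rw [mem_CC, mem_comm_sub]; rfl
  have all : ∀ n ∈ N, a * n * a⁻¹ * n⁻¹ ∈ ⁅N, N⁆ → ∀ b, b * n * b⁻¹ * n⁻¹ ∈ ⁅N, N⁆ := fun n hn h1 b => by
    let S : Subgroup G :=
      { carrier := {b | b * n * b⁻¹ * n⁻¹ ∈ ⁅N, N⁆}
        one_mem' := by simp
        mul_mem' := fun {b c} hb hc => by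
          have := (⁅N, N⁆).mul_mem (Normal.conj_mem inferInstance _ hc b) hb
          change _ ∈ ⁅N, N⁆
          convert this using 1
          group
        inv_mem' := fun {b} hb => by
          have := (⁅N, N⁆).inv_mem (Normal.conj_mem inferInstance _ hb b⁻¹)
          change _ ∈ ⁅N, N⁆
          convert this using 1
          group }
    exact (hgen S (fun c hc => commutator_mem_commutator hc hn) h1).ge (mem_top b)
  have h1 : CC (MulAut.conjNormal a : MulAut N) = CC (MulAut.conjNormal y : MulAut N) :=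
    deg12_eq_of_le_of_index_le (fun n hn => (k y n).2 (all n n.2 ((k a n).1 hn) y)) (by
      rw [CC, CC, index_ker, index_ker]
      exact card_le_of_le (str_range hd hF hy a))
  exact all u hu ((k a ⟨u, hu⟩).1 (h1.ge ((k y ⟨u, hu⟩).2 h))) g

/-- A nonabelian normal Sylow subgroup for a prime of the section, centralised by the rest of `N`,
contains the commutator subgroup. -/
theorem str_comm_le (hd : ND G) (hF : FrobSec N K) {p : ℕ} (hp : p.Prime) (hpK : p ∣ K.relIndex N)
    {P : Subgroup G} [P.Normal] (hcop : (Nat.card P).Coprime P.index) (hi : ¬ p ∣ P.index)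
    (hNS : N ≤ P ⊔ centralizer (P : Set G)) (hab : ¬ ∀ a ∈ P, ∀ b ∈ P, a * b = b * a) :
    commutator G ≤ P := by
  have := Fintype.ofFinite P
  have := Fintype.ofFinite G
  obtain ⟨θ, hθ, -, hθ1⟩ := exists_nonlinear_le_charKer (G := P) ⊥ fun e => hab fun a ha b hb => by
    have h1 := e (commutator_mem_commutator (mem_top (⟨a, ha⟩ : P)) (mem_top ⟨b, hb⟩))
    rw [mem_bot, commutatorElement_eq_one_iff_mul_comm] at h1
    exact congrArg Subtype.val h1
  have hMT := le_inertia hθ.isClassFunction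
  have hNT : N ≤ inertia P θ := hNS.trans (sup_le hMT fun g hg => mem_inertia.2 fun n =>
    congrArg θ (Subtype.ext (by simp [← hg n n.2])))
  obtain ⟨η, hη, he⟩ := deg12_extends_of_coprime hcop hθ le_rfl hMT
  have key := fun β hβ hk => deg12_exists_of_extends hθ rfl hMT hη.isCharacter he (β := β) hβ hk
  obtain ⟨χ₁, h2, -, h3⟩ := key _ IsIrrCharacter.one (fun _ _ => IsCharacter.one.mem_charKer.2 rfl)
  rw [charDegree_one, one_mul] at h3
  have hd1 : charDegree χ₁ ≠ 1 := fun e => hθ1 (Nat.eq_one_of_mul_eq_one_left (h3.symm.trans e))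
  have h5 : commutator (inertia P θ) ≤ P.subgroupOf _ :=
    deg12_commutator_le_of_forall_linear _ fun β hβ hk => by
      obtain ⟨χ₂, h6, -, h7⟩ := key β hβ hk
      have h8 := hd χ₁ χ₂ h2 h6 hd1 (by rw [h3, h7]; exact ⟨charDegree β, by ring⟩)
      rw [h3, h7] at h8
      have h9 := Nat.eq_of_mul_eq_mul_left (Nat.pos_of_ne_zero index_ne_zero_of_finite) h8
      exact (Nat.mul_eq_right hθ.charDegree_pos.ne').1 h9.symm
  refine deg12_commutator_le_of_forall_linear _ fun χ hχ hk => ?_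
  by_contra h1
  have h6 := (nil_a2 hd hF hp hpK hχ h1).resolve_right fun e =>
    hi (e.trans (charDegree_dvd_index_of_le_charKer hχ hk))
  have := Fintype.ofFinite (inertia P θ)
  obtain ⟨φ, hφ, hne'⟩ := exists_irr_under (inertia P θ) hχ
  have h7 : charDegree φ = 1 := (charDegree_eq_one_iff_commutator_le hφ).2 fun x hx =>
    mem_charKer_of_over hχ.isCharacter hφ hne' (hk (h5 hx))
  have h8 := deg_le_of_under hχ hφ hne'
  rw [h7, mul_one, h6] at h8
  have h9 : (inertia P θ).index = N.index := le_antisymm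
    (Nat.le_of_dvd (Nat.pos_of_ne_zero index_ne_zero_of_finite) (index_dvd_of_le hNT)) h8
  have h10 := nil_eq_of_dvd hd hF h2 (by rw [h3, h9]; exact Dvd.intro _ rfl)
  rw [h3, h9] at h10
  exact hθ1 ((Nat.mul_eq_left index_ne_zero_of_finite).1 h10)

/-- The structure of a group with a nilpotent nonabelian top. -/
theorem nil_struct (hd : ND G) (hF : FrobSec N K) [hn : Group.IsNilpotent N]
    (hab : ¬ ∀ a ∈ N, ∀ b ∈ N, a * b = b * a) {p : ℕ} (hp : p.Prime) (hpK : p ∣ K.relIndex N) :
    ∃ P Q : Subgroup G, P.Normal ∧ IsPGroup p P ∧ ¬ p ∣ P.index ∧ commutator G ≤ P ∧ Q ≤ center G ∧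
      ¬ p ∣ Nat.card Q ∧ P ⊔ Q = N ∧ ∀ n ∈ N, ∃ a ∈ P, ∃ b ∈ Q, n = a * b := by
  have := Fact.mk hp
  obtain ⟨S, hS⟩ := GT.Tr.exists_sylow_le_of_not_dvd_index (H := N) (p := p) fun e =>
    hp.ne_one (Nat.eq_one_of_dvd_coprimes hF.coprime hpK e)
  obtain ⟨hN, hNS⟩ := nil_sylow S hS
  have hpc := GT.Tr.hasNormalPComplement_of_isNilpotent (p := p) hn
  have hc := hpc.isComplement'_pResidual (S.subtype hS)
  have hG : commutator G ≤ S := str_comm_le hd hF hp hpK S.card_coprime_index S.not_dvd_index hNS fun H => by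
    have h1 : ∀ a b : N, a * b = b * a := comm_iff_forall_irr_linear.2 fun θ => by
      have : (S.subtype hS : Subgroup N).Normal := GT.isNilpotent_iff_sylow_normal.1 hn p ‹_› _
      rw [← θ.2.isCharacter.charDegree_eq_one_iff]
      by_contra h2
      exact (S.subtype hS).not_dvd_index ((nil_a1 hd hF hp hpK θ.2 h2).trans
        (θ.2.charDegree_dvd_index_of_comm _ fun a ha b hb => Subtype.ext (H a ha b hb)))
    exact hab fun a ha b hb => congrArg Subtype.val (h1 ⟨a, ha⟩ ⟨b, hb⟩)
  let Q : Subgroup G := (pResidual p N).map N.subtype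
  have hQ : Q.Normal := ConjAct.normal_of_characteristic_of_normal
  have hdec : ∀ n ∈ N, ∃ a ∈ (S : Subgroup G), ∃ b ∈ Q, n = a * b := fun n hn' => by
    obtain ⟨⟨a, b⟩, h4⟩ := hc.symm.2 ⟨n, hn'⟩
    exact ⟨a.1.1, a.2, b.1.1, ⟨b.1, b.2, rfl⟩, (congrArg Subtype.val h4).symm⟩
  refine ⟨S, Q, hN, S.isPGroup', S.not_dvd_index, hG, fun b hb => mem_center_iff.2 fun g => ?_,
    by rw [card_map_of_injective N.subtype_injective]; exact hpc.not_dvd_card_pResidual,
    le_antisymm (sup_le hS (map_subtype_le _)) fun n hn' => ?_, hdec⟩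
  · obtain ⟨c, hc1, hc2⟩ : g * b * g⁻¹ * b⁻¹ ∈ Q := Q.mul_mem (hQ.conj_mem b hb g) (Q.inv_mem hb)
    have h1 : c ∈ pResidual p N ⊓ (S.subtype hS : Subgroup N) := ⟨hc1, by
      change (c : G) ∈ (S : Subgroup G)
      rw [show (c : G) = _ from hc2]
      exact hG (commutator_mem_commutator trivial trivial)⟩
    rw [hc.disjoint.eq_bot, mem_bot] at h1
    rw [h1, map_one, eq_comm, mul_inv_eq_one, mul_inv_eq_iff_eq_mul] at hc2
    exact hc2
  · obtain ⟨a, ha, b, hb, rfl⟩ := hdec n hn'
    exact mul_mem (mem_sup_left ha) (mem_sup_right hb)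

end Cfsg.Agent.ND
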