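import Mathlib
import Cfsg.Agent.ND.Defs
import Cfsg.Agent.ND.Str

set_option autoImplicit false
set_option linter.unusedSectionVars false

namespace Cfsg.Agent.ND

open Cfsg Cfsg.Agent.Ch Cfsg.Agent.Deg.Nd Subgroup MulAction
open scoped commutatorElement

variable {G : Type*} [Group G] [Finite G] {N K : Subgroup G} [N.Normal] [K.Normal]

theorem frob_mem (hF : FrobSec N K) {y x : G} (hy : y ∉ N) (hx : x ∈ N) (h : ⁅x, y⁆ ∈ K) : x ∈ K := by
  have hc := (Subgroup.Normal.quotient_commutative_iff_commutator_le.2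
    (commutator_le_subgroupOf hF.comm) : IsMulCommutative (N ⧸ K.subgroupOf N)).is_comm.comm
  let φ : N →* N ⧸ K.subgroupOf N := MonoidHom.mk'
    (fun u => QuotientGroup.mk' _ u * (QuotientGroup.mk' _ (MulAut.conjNormal y u))⁻¹) fun a b => by
      rw [map_mul, map_mul, map_mul, mul_inv_rev, mul_assoc, mul_assoc, ← mul_assoc (QuotientGroup.mk' _ b),
        hc (_ * _)]
  have k : ∀ u : N, φ u = ((u * (MulAut.conjNormal y u)⁻¹ : N) : N ⧸ K.subgroupOf N) := fun _ => rfl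
  have k2 : ∀ u : N, u ∈ φ.ker ↔ ⁅(u : G), y⁆ ∈ K := fun u => by
    rw [MonoidHom.mem_ker, k, QuotientGroup.eq_one_iff, mem_subgroupOf]
    simp [commutatorElement_def, mul_assoc]
  have hs : Function.Surjective φ := fun a => by
    induction a using QuotientGroup.induction_on with | _ n
    obtain ⟨u, hu, h1⟩ := hF.surj y hy n n.2
    refine ⟨⟨u, hu⟩, ?_⟩
    rw [k, ← mul_inv_eq_one, ← QuotientGroup.mk_inv, ← QuotientGroup.mk_mul, QuotientGroup.eq_one_iff,
      mem_subgroupOf]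
    simpa [mul_assoc] using h1
  have h1 : K.subgroupOf N = φ.ker := deg12_eq_of_le_of_index_le (fun u hu => (k2 u).2 (by
    rw [commutatorElement_def, mul_assoc, mul_assoc, ← mul_assoc y]
    exact K.mul_mem hu (Normal.conj_mem inferInstance _ (K.inv_mem hu) y))) (by
    rw [index_ker, MonoidHom.range_eq_top.2 hs, card_top]; rfl)
  exact h1.ge ((k2 ⟨x, hx⟩).2 h)

theorem frob_cyc (hF : FrobSec N K) : ∃ y₀ : G, ∀ g : G, ∃ k : ℕ, g * (y₀ ^ k)⁻¹ ∈ N := by
  obtain ⟨a, ha⟩ := (str_cyclic hF).exists_generator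
  induction a using QuotientGroup.induction_on with | _ y
  refine ⟨y, fun g => ?_⟩
  obtain ⟨k, hk⟩ := (mem_powers_iff_mem_zpowers.2 (ha (g : G ⧸ N)))
  refine ⟨k, (QuotientGroup.eq_one_iff _).1 ?_⟩
  rw [QuotientGroup.mk_mul, QuotientGroup.mk_inv, QuotientGroup.mk_pow, mul_inv_eq_one]
  exact hk.symm

theorem dich (hd : ND G) (hF : FrobSec N K) {y u : G} (hy : y ∉ N) (hu : u ∈ N)
    (h : ⁅u, y⁆ ∈ ⁅N, N⁆) (g : G) : ⁅u, g⁆ ∈ ⁅N, N⁆ := by
  rw [← commutatorElement_inv, inv_mem_iff] at h ⊢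
  exact str_dich hd hF hu hy h g


end Cfsg.Agent.ND
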