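import Mathlib
import Cfsg.Agent.ND.Defs
import Cfsg.Agent.ND.Cyc

set_option autoImplicit false
set_option linter.unusedSectionVars false

namespace Cfsg.Agent.ND

open Cfsg Cfsg.Agent.Ch Cfsg.Agent.Deg.Nd Subgroup MulAction
open scoped commutatorElement

variable {G : Type*} [Group G] [Finite G] {N K : Subgroup G} [N.Normal] [K.Normal]

theorem gen_pow_mem {y₀ : G} (hy : ∀ g : G, ∃ k : ℕ, g * (y₀ ^ k)⁻¹ ∈ N) (k : ℕ) :
    y₀ ^ k ∈ N ↔ N.index ∣ k := by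
  have h : orderOf (QuotientGroup.mk' N y₀) = N.index := by
    rw [Subgroup.index]
    refine orderOf_eq_card_of_forall_mem_zpowers fun x => ?_
    obtain ⟨g, rfl⟩ := QuotientGroup.mk'_surjective N x
    obtain ⟨j, hj⟩ := hy g
    have h1 : QuotientGroup.mk' N (g * (y₀ ^ j)⁻¹) = 1 := (QuotientGroup.eq_one_iff _).2 hj
    rw [map_mul, map_inv, map_pow, mul_inv_eq_one] at h1
    rw [h1]
    exact pow_mem (mem_zpowers _) j
  rw [← h, orderOf_dvd_iff_pow_eq_one, ← map_pow]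
  exact (QuotientGroup.eq_one_iff _).symm

theorem ab_mem_center (hd : ND G) (hF : FrobSec N K) (hc : ⁅N, N⁆ = ⊥) {y u : G} (hy : y ∉ N)
    (hu : u ∈ N) (h : u * y = y * u) : u ∈ center G := by
  refine mem_center_iff.2 fun g => ?_
  have := dich hd hF hy hu (by rw [commutatorElement_eq_one_iff_mul_comm.2 h]; exact one_mem _) g
  rw [hc, Subgroup.mem_bot, commutatorElement_eq_one_iff_mul_comm] at this
  exact this.symm

theorem AbJ_pow {u y : G} (h : ⁅u, y⁆ ∈ center G) (i k : ℕ) :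
    u ^ i * y ^ k * (u ^ i)⁻¹ = ⁅u, y⁆ ^ (i * k) * y ^ k := by
  have c : ∀ g : G, Commute ⁅u, y⁆ g := fun g => (mem_center_iff.1 h g).symm
  have e0 : u * y * u⁻¹ = ⁅u, y⁆ * y := by rw [commutatorElement_def, inv_mul_cancel_right]
  generalize ⁅u, y⁆ = z at c e0
  have e1 : u ^ i * y * (u ^ i)⁻¹ = z ^ i * y := by
    induction i with
    | zero => simp
    | succ i ih =>
      calc u ^ (i + 1) * y * (u ^ (i + 1))⁻¹ = u * (u ^ i * y * (u ^ i)⁻¹) * u⁻¹ := by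
            rw [pow_succ']; simp only [mul_inv_rev, mul_assoc]
        _ = z ^ i * (u * y * u⁻¹) := by
            rw [ih, ← mul_assoc, ← ((c u).pow_left i).eq]; simp only [mul_assoc]
        _ = z ^ (i + 1) * y := by rw [e0, pow_succ, mul_assoc]
  rw [← conj_pow, e1, ((c y).pow_left i).mul_pow, ← pow_mul]

theorem ab_comm_eq_one (hd : ND G) (hF : FrobSec N K) (hc : ⁅N, N⁆ = ⊥) (hp : ¬ N.index.Prime)
    {y₀ : G} (hy : ∀ g : G, ∃ k : ℕ, g * (y₀ ^ k)⁻¹ ∈ N) {u : G} (hu : u ∈ N)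
    (h : ⁅u, y₀⁆ ∈ center G) : ⁅u, y₀⁆ = 1 := by
  have f1 := nil_f_ne hF
  have f0 : N.index ≠ 0 := index_ne_zero_of_finite
  obtain ⟨b, c, hb, hc', e⟩ := (Nat.not_prime_iff_exists_mul_eq (by omega)).1 hp
  have b0 : 0 < b := Nat.pos_of_ne_zero fun k => f0 (by rw [← e, k, zero_mul])
  have c0 : 0 < c := Nat.pos_of_ne_zero fun k => f0 (by rw [← e, k, mul_zero])
  have key : ∀ i k, u ^ i * y₀ ^ k = y₀ ^ k * u ^ i ↔ ⁅u, y₀⁆ ^ (i * k) = 1 := fun i k => by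
    rw [← mul_inv_eq_iff_eq_mul, AbJ_pow h, mul_eq_right]
  have nm : ∀ k, 0 < k → k < N.index → y₀ ^ k ∉ N := fun k k0 k1 hk =>
    absurd (Nat.le_of_dvd k0 ((gen_pow_mem hy k).1 hk)) (not_le.2 k1)
  have h1 : ⁅u, y₀⁆ ^ (1 * N.index) = 1 := (key 1 N.index).1 (by
    have := commutator_mem_commutator (pow_mem hu 1) ((gen_pow_mem hy N.index).2 dvd_rfl)
    rwa [hc, Subgroup.mem_bot, commutatorElement_eq_one_iff_mul_comm] at this)
  have h2 : u ^ b ∈ center G :=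
    ab_mem_center hd hF hc (nm c c0 hc') (pow_mem hu b) ((key b c).2 (by rwa [e, ← one_mul N.index]))
  have h3 : ⁅u, y₀⁆ ^ (b * 1) = 1 := (key b 1).1 (mem_center_iff.1 h2 _).symm
  have h4 : u ^ 1 ∈ center G :=
    ab_mem_center hd hF hc (nm b b0 hb) (pow_mem hu 1) ((key 1 b).2 (by rwa [mul_comm]))
  rw [pow_one] at h4
  exact commutatorElement_eq_one_iff_mul_comm.2 (mem_center_iff.1 h4 _).symm

end Cfsg.Agent.ND
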