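import Mathlib
import Cfsg.Agent.ND.Defs
import Cfsg.Agent.ND.AbJ

set_option autoImplicit false
set_option linter.unusedSectionVars false

namespace Cfsg.Agent.ND

open Cfsg Cfsg.Agent.Ch Cfsg.Agent.Deg.Nd Subgroup MulAction
open scoped commutatorElement

variable {G : Type*} [Group G] [Finite G] {N K : Subgroup G} [N.Normal] [K.Normal]

/-- The commutator with `y` is a homomorphism on an abelian normal subgroup. -/
def abaTau (cN : ∀ a ∈ N, ∀ b ∈ N, a * b = b * a) (y : G) : N →* G :=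
  MonoidHom.mk' (fun u => ⁅(u : G), y⁆) fun u v => by
    have hu : y * (u : G)⁻¹ * y⁻¹ ∈ N := ‹N.Normal›.conj_mem _ (inv_mem u.2) y
    have hv : y * (v : G)⁻¹ * y⁻¹ ∈ N := ‹N.Normal›.conj_mem _ (inv_mem v.2) y
    have e := cN _ hu _ (mul_mem v.2 hv)
    calc ⁅((u * v : N) : G), y⁆ = u * (v * (y * (v : G)⁻¹ * y⁻¹) * (y * (u : G)⁻¹ * y⁻¹)) := by
          simp only [commutatorElement_def, coe_mul]; group
      _ = ⁅(u : G), y⁆ * ⁅(v : G), y⁆ := by rw [← e]; simp only [commutatorElement_def]; group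

theorem exists_abG (hd : ND G) (hF : FrobSec N K) (hc : ⁅N, N⁆ = ⊥) (hp : ¬ N.index.Prime) :
    ∃ (J A Z : Subgroup G) (y₀ : G), AbG J A Z y₀ N.index ∧ J ≤ N ∧ Z ≤ N ∧
      Z = N ⊓ center G := by
  have cN : ∀ a ∈ N, ∀ b ∈ N, a * b = b * a := fun a ha b hb =>
    commutatorElement_eq_one_iff_mul_comm.1 (mem_bot.1 (hc.le (commutator_mem_commutator ha hb)))
  obtain ⟨y, hy⟩ := frob_cyc hF
  have yN : y ∉ N := fun e => hF.ne_top (eq_top_iff.2 fun g _ => by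
    obtain ⟨k, hk⟩ := hy g
    simpa using mul_mem hk (pow_mem e k))
  let τ := abaTau cN y
  have hτ : ∀ u : N, τ u = ⁅(u : G), y⁆ := fun _ => rfl
  have cen : ∀ u ∈ N, u * y = y * u → u ∈ N ⊓ center G := fun u hu h => ⟨hu, ab_mem_center hd hF hc yN hu h⟩
  have JN : τ.range ≤ N := by
    rintro _ ⟨u, rfl⟩
    exact hF.commutator_le (commutator_mem_commutator (mem_top _) (mem_top _))
  have JZ : ∀ v ∈ τ.range, v ∈ N ⊓ center G → v = 1 := by
    rintro _ ⟨u, rfl⟩ h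
    exact ab_comm_eq_one hd hF hc hp hy u.2 h.2
  have ker : τ.ker = (N ⊓ center G).subgroupOf N := by
    ext u
    rw [MonoidHom.mem_ker, hτ, commutatorElement_eq_one_iff_mul_comm, mem_subgroupOf]
    exact ⟨cen u u.2, fun h => (mem_center_iff.1 h.2 y).symm⟩
  have decN : ∀ n ∈ N, ∃ v ∈ τ.range, v⁻¹ * n ∈ N ⊓ center G := fun n hn => by
    let τ' : τ.range →* τ.range := τ.rangeRestrict.comp (inclusion JN)
    have inj : Function.Injective τ' := (injective_iff_map_eq_one _).2 fun v hv => by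
      have : inclusion JN v ∈ τ.ker := congrArg Subtype.val hv
      rw [ker] at this
      exact Subtype.ext (JZ v v.2 this)
    obtain ⟨v, hv⟩ := Finite.injective_iff_surjective.1 inj ⟨τ ⟨n, hn⟩, _, rfl⟩
    have e : τ (inclusion JN v) = τ ⟨n, hn⟩ := congrArg Subtype.val hv
    have : (inclusion JN v)⁻¹ * ⟨n, hn⟩ ∈ τ.ker := by rw [MonoidHom.mem_ker, map_mul, map_inv, e, inv_mul_cancel]
    rw [ker] at this
    exact ⟨v, v.2, this⟩
  have mA : ∀ {a : G}, a ∈ centralizer ({y} : Set G) ↔ a * y = y * a := mem_centralizer_singleton_iff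
  have pA : ∀ k : ℕ, y ^ k ∈ centralizer ({y} : Set G) := fun k => pow_mem (mA.2 rfl) k
  have ZA : N ⊓ center G ≤ centralizer ({y} : Set G) := fun z hz => mA.2 (mem_center_iff.1 hz.2 y).symm
  have gen : ∀ a ∈ centralizer ({y} : Set G), ∃ k : ℕ, a * (y ^ k)⁻¹ ∈ N ⊓ center G := fun a ha =>
    (hy a).imp fun k hk => cen _ hk (mA.1 (mul_mem ha (inv_mem (pA k))))
  refine ⟨τ.range, centralizer {y}, N ⊓ center G, y, ⟨⟨?_⟩, fun a ha b hb => cN a (JN ha) b (JN hb), ?_, ?_, ?_, ZA,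
    inf_le_right, JZ, ?_, mA.2 rfl, gen, ?_, ?_, ?_⟩, JN, inf_le_left, rfl⟩
  · rintro _ ⟨u, rfl⟩ g
    have hu : g * u * g⁻¹ ∈ N := ‹N.Normal›.conj_mem _ u.2 g
    have hn : ⁅g, y⁆ ∈ N := hF.commutator_le (commutator_mem_commutator (mem_top _) (mem_top _))
    have e := cN _ hn _ (‹N.Normal›.conj_mem _ (inv_mem hu) y)
    refine ⟨⟨_, hu⟩, ?_⟩
    rw [hτ, hτ]
    calc ⁅g * u * g⁻¹, y⁆ = g * u * g⁻¹ * (y * (g * u * g⁻¹)⁻¹ * y⁻¹ * ⁅g, y⁆) * ⁅g, y⁆⁻¹ := by
          rw [commutatorElement_def (g * u * g⁻¹)]; group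
      _ = g * ⁅(u : G), y⁆ * g⁻¹ := by rw [← e]; simp only [commutatorElement_def]; group
  · intro e
    obtain ⟨u, hu, hu'⟩ := SetLike.exists_of_lt hF.lt
    refine hu' (frob_mem hF yN hu ?_)
    have : τ ⟨u, hu⟩ = 1 := mem_bot.1 (e.le ⟨_, rfl⟩)
    rw [← hτ ⟨u, hu⟩, this]
    exact one_mem K
  · intro a ha b hb
    obtain ⟨k, hk⟩ := gen a ha
    have h1 : Commute (a * (y ^ k)⁻¹) b := (mem_center_iff.1 hk.2 b).symm
    have h2 : Commute (y ^ k) b := (show Commute b y from mA.1 hb).symm.pow_left k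
    simpa using (h1.mul_left h2).eq
  · intro g
    obtain ⟨k, hk⟩ := hy g
    obtain ⟨v, hv, hz⟩ := decN _ hk
    exact ⟨v, hv, _, mul_mem (ZA hz) (pA k), by group⟩
  · intro a ha ha' v hv h
    exact JZ v hv ⟨JN hv, ab_mem_center hd hF hc (fun e => ha' (cen a e (mA.1 ha))) (JN hv) h.symm⟩
  · intro k
    rw [← gen_pow_mem hy k]
    exact ⟨fun h => h.1, fun h => cen _ h (mA.1 (pA k))⟩
  · rw [← N.card_mul_index, ← τ.ker.index_mul_card, index_ker, ker,
      Nat.card_congr (subgroupOfEquivOfLe (inf_le_left : N ⊓ center G ≤ N)).toEquiv]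
  · exact one_lt_index_of_ne_top hF.ne_top

end Cfsg.Agent.ND
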