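import Mathlib
import Cfsg.Agent.ND.Defs
import Cfsg.Agent.ND.Cyc

set_option autoImplicit false
set_option linter.unusedSectionVars false

namespace Cfsg.Agent.ND

open Cfsg Cfsg.Agent.Ch Cfsg.Agent.Deg.Nd Subgroup MulAction
open scoped commutatorElement

variable {V : Type*} [CommGroup V] [Finite V] {Y : Type*} [Group Y] [Finite Y] [MulDistribMulAction Y V]
  {F K : Subgroup Y} [F.Normal] [K.Normal]

theorem Hyp.bas_eq (h : Hyp V F K) {v : V} (hv : v ≠ 1) (e : F.index ∣ (stabilizer Y v).index) :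
    F.index = (stabilizer Y v).index := by
  obtain ⟨χ, hχ, e1⟩ := h.frob.exists_charDegree_eq
  exact e1 ▸ h.deg v hv χ hχ (e1 ▸ nil_f_ne h.frob) (e1 ▸ e)

theorem Hyp.out (h : Hyp V F K) {v : V} (hv : v ≠ 1) : ∃ y, y ∉ F ∧ y • v = v := by
  by_contra! hn
  have h1 : stabilizer Y v ≤ F := fun y hy => by_contra fun e => hn y e hy
  have h2 := relIndex_mul_index h1
  rw [← h.bas_eq hv (index_dvd_of_le h1), mul_eq_right₀ index_ne_zero_of_finite, relIndex_eq_one] at h2
  exact hv (h.fix F inferInstance le_rfl h.frob.lt.ne_bot v h2)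

theorem Hyp.memK (h : Hyp V F K) {v : V} (hv : v ≠ 1) {x : Y} (hx : x ∈ F) (e : x • v = v) :
    x ∈ K := by
  obtain ⟨y, hy, e'⟩ := h.out hv
  refine frob_mem h.frob hy hx ?_
  rw [commutatorElement_eq_one_iff_mul_comm.2 (h.ab v hv x y e e')]
  exact one_mem _

theorem Hyp.nf (h : Hyp V F K) {v : V} (hv : v ≠ 1) : ¬ F.index ∣ (stabilizer Y v).index := by
  intro e
  have h1 := relIndex_mul_index (inf_le_left : stabilizer Y v ⊓ F ≤ _)
  rw [← relIndex_mul_index (inf_le_right : stabilizer Y v ⊓ F ≤ _), inf_relIndex_left, ← h.bas_eq hv e,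
    mul_left_inj' index_ne_zero_of_finite] at h1
  have h2 : K.relIndex F ∣ (stabilizer Y v ⊓ F).relIndex F :=
    relIndex_dvd_of_le_left F fun x hx => h.memK hv hx.2 hx.1
  rw [← h1] at h2
  exact h.frob.lt.not_ge (relIndex_eq_one.1
    (h.frob.coprime.eq_one_of_dvd (h2.trans (relIndex_dvd_index_of_normal _ _))))

/-- An element generating the stabiliser modulo `F`. -/
theorem Hyp.gen (h : Hyp V F K) {v : V} (hv : v ≠ 1) :
    ∃ y, y ∉ F ∧ y • v = v ∧ stabilizer Y v ≤ F ⊔ zpowers y := by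
  have := str_cyclic h.frob
  obtain ⟨⟨_, y, hy, rfl⟩, ha⟩ := IsCyclic.exists_generator (α := (stabilizer Y v).map (QuotientGroup.mk' F))
  have h1 : stabilizer Y v ≤ F ⊔ zpowers y := fun x hx => by
    obtain ⟨k, hk⟩ := ha ⟨_, x, hx, rfl⟩
    have h2 : QuotientGroup.mk' F (y ^ k) = QuotientGroup.mk' F x := by
      rw [map_zpow]; exact congrArg Subtype.val hk
    have h3 : (y ^ k)⁻¹ * x ∈ F := QuotientGroup.eq.1 h2
    rw [← mul_inv_cancel_left (y ^ k) x]
    exact mul_mem (mem_sup_right (zpow_mem (mem_zpowers y) k)) (mem_sup_left h3)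
  refine ⟨y, fun e => ?_, hy, h1⟩
  obtain ⟨z, hz, e'⟩ := h.out hv
  exact hz ((sup_le le_rfl (zpowers_le.2 e) : F ⊔ zpowers y ≤ F) (h1 e'))

end Cfsg.Agent.ND
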