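import Mathlib
import Cfsg.Agent.ND.Defs
import Cfsg.Agent.ND.Bas
import Cfsg.Agent.ND.AbA

set_option autoImplicit false
set_option linter.unusedSectionVars false

namespace Cfsg.Agent.ND

open Cfsg Cfsg.Agent.Ch Cfsg.Agent.Deg.Nd Subgroup MulAction
open scoped commutatorElement

variable {V : Type*} [CommGroup V] [Finite V] {Y : Type*} [Group Y] [Finite Y] [MulDistribMulAction Y V]
  {F K : Subgroup Y} [F.Normal] [K.Normal]

theorem abB_eq_one (h : Hyp V F K) (hc : ⁅F, F⁆ = ⊥) {g : Y} (hg : g ∈ F) {x : V} (hx : x ≠ 1)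
    (e : g • x = x) : g = 1 := by
  obtain ⟨y, hy, hyx⟩ := h.out hx
  have hz : g ∈ center Y := ab_mem_center h.nd h.frob hc hy hg (h.ab x hx g y e hyx)
  by_contra hne
  have hle : zpowers g ≤ center Y := zpowers_le.2 hz
  have hn : (zpowers g).Normal := ⟨fun n hn k => by
    have := mem_center_iff.1 (hle hn) k
    rw [this, mul_inv_cancel_right]; exact hn⟩
  refine hx (h.fix (zpowers g) hn (zpowers_le.2 hg) (fun e' => hne (zpowers_eq_bot.1 e')) x ?_)
  intro z hz'
  have : zpowers g ≤ stabilizer Y x := zpowers_le.2 e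
  exact this hz'

theorem abB_anti {S T : Subgroup Y} (h : T.index ∣ S.index → T.index = S.index)
    (hd : Nat.card S ∣ Nat.card T) : Nat.card S = Nat.card T := by
  have h1 := S.card_mul_index
  have h2 := T.card_mul_index
  obtain ⟨c, hc⟩ := hd
  have hS : 0 < Nat.card S := Nat.card_pos
  have e : S.index = c * T.index := by
    apply Nat.eq_of_mul_eq_mul_left hS
    rw [h1, ← mul_assoc, ← hc, h2]
  have e2 := h ⟨c, by rw [e, mul_comm]⟩
  have hi : 0 < S.index := Nat.pos_of_ne_zero S.index_ne_zero_of_finite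
  apply Nat.eq_of_mul_eq_mul_right hi
  rw [h1, ← e2, h2]

theorem Hyp.exists_ab (h : Hyp V F K) (hc : ⁅F, F⁆ = ⊥) (hp : ¬ F.index.Prime) :
    ∃ (J A Z : Subgroup Y) (y₀ : Y), Ab V J A Z y₀ F.index := by
  obtain ⟨J, A, Z, y₀, hG, hJ, hZ, -⟩ := exists_abG h.nd h.frob hc hp
  refine ⟨J, A, Z, y₀, { hG with
    ntr := h.ntr
    elem := h.elem
    semi := fun v hv z hz x hx e => ?_
    ab := h.ab
    anti := fun x w hx hw hd => abB_anti (h.anti w x hw hx) hd
    nf := fun x hx => h.nf hx }⟩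
  have e1 : v * z = 1 := abB_eq_one h hc (F.mul_mem (hJ hv) (hZ hz)) hx e
  have hv' : v ∈ Z := by
    rw [eq_inv_of_mul_eq_one_left e1]; exact Z.inv_mem hz
  have hv1 := hG.JZ v hv hv'
  exact ⟨hv1, by simpa [hv1] using e1⟩

end Cfsg.Agent.ND
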