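import Mathlib
import Cfsg.Agent.FG.H93Cyc

/-! No divisibility among the degrees: the endgame in a finite field. -/

set_option autoImplicit false

namespace Cfsg.Agent.ND

open Subgroup

/-- Two commuting automorphisms of a finite field. -/
theorem fld_core {E : Type*} [Field E] [Finite E] (σ τ : E ≃+* E) (hc : ∀ e, σ (τ e) = τ (σ e))
    (M : Subgroup Eˣ) (hcard : Nat.card E = Nat.card M * (Nat.card {e // τ e = e} - 1) + 1)
    (hfix : ∀ u ∈ M, σ u = u → u = 1) : τ ∈ zpowers σ := by
  classical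
  let f : Eˣ →* Eˣ := Units.map (τ : E →* E) / MonoidHom.id _
  have hf : ∀ u : Eˣ, (f u : E) = τ u / u := fun u => by simp [f]
  have hk : ∀ u : Eˣ, u ∈ f.ker ↔ τ u = u := fun u => by
    rw [MonoidHom.mem_ker, Units.ext_iff, hf, Units.val_one, div_eq_one_iff_eq u.ne_zero]
  have h1 : Nat.card {e // τ e = e} = Nat.card f.ker + 1 := by
    rw [← Finite.card_option]
    refine Nat.card_congr (Equiv.ofBijective
      (fun x : Option f.ker => x.elim ⟨0, map_zero τ⟩ fun u => ⟨u.1, (hk _).1 u.2⟩) ⟨?_, ?_⟩).symm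
    · rintro (_ | a) (_ | b) h
      · rfl
      · exact absurd (congrArg Subtype.val h).symm b.1.ne_zero
      · exact absurd (congrArg Subtype.val h) a.1.ne_zero
      · exact congrArg some (Subtype.ext (Units.ext (congrArg Subtype.val h)))
    · rintro ⟨e, he⟩
      by_cases h0 : e = 0
      · exact ⟨none, Subtype.ext h0.symm⟩
      · exact ⟨some ⟨Units.mk0 e h0, (hk _).2 he⟩, rfl⟩
  have h2 : Nat.card f.range * Nat.card f.ker = Nat.card Eˣ := by
    rw [← f.ker.index_mul_card, index_ker]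
  rw [h1, Nat.add_sub_cancel] at hcard
  rw [Nat.card_units, hcard, Nat.add_sub_cancel] at h2
  have h3 : f.range = M := FG.H93.eq_of_card_eq_of_isCyclic (C := ⊤) le_top le_top
    (Nat.eq_of_mul_eq_mul_right Nat.card_pos h2)
  have h4 : ∀ e, σ e = e → τ e = e := fun e he => by
    by_cases h0 : e = 0
    · rw [h0, map_zero]
    refine (hk (Units.mk0 e h0)).1 (hfix _ (h3 ▸ ⟨_, rfl⟩) ?_)
    rw [hf, map_div₀, hc]
    simp [he]
  have : Finite (E ≃+* E) := Finite.of_injective (fun x : E ≃+* E => (x : E → E)) DFunLike.coe_injective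
  let Γ := zpowers σ
  obtain ⟨g, hg⟩ := FixedPoints.toAlgAut_surjective Γ E
    { τ with commutes' := fun e => h4 e (e.2 ⟨σ, mem_zpowers σ⟩) }
  have h5 : (g : E ≃+* E) = τ := RingEquiv.ext fun e => DFunLike.congr_fun hg e
  exact h5 ▸ g.2

end Cfsg.Agent.ND
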