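import Mathlib
import Cfsg.Agent.ND.FldA
import Cfsg.Agent.Perm.FixTools

/-! No divisibility among the degrees: a semiregular abelian group with a spread of fixed spaces. -/

set_option autoImplicit false

namespace Cfsg.Agent.ND

open Subgroup

variable {V : Type*} [AddCommGroup V] [Finite V] {H : Type*} [Group H] (ψ : H →* Module.End ℤ V)
  {M : Subgroup H}

theorem fld_app (a b : H) (v : V) : ψ (a * b) v = ψ a (ψ b v) := by rw [map_mul]; rfl

theorem fld_dvd (hsr : ∀ u ∈ M, u ≠ 1 → ∀ v, ψ u v = v → v = 0) (S : Set V) (h0 : (0 : V) ∉ S)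
    (hS : ∀ u ∈ M, ∀ v ∈ S, ψ u v ∈ S) : Nat.card M ∣ S.ncard := by
  letI : MulAction H V := MulAction.compHom V ψ
  exact Perm.Fx.card_dvd_of_semiregular M S hS fun u hu v hv e => by
    by_contra h
    exact h0 (hsr u hu h v e ▸ hv)

theorem fld_irr [Finite M] (hsr : ∀ u ∈ M, u ≠ 1 → ∀ v, ψ u v = v → v = 0) {c : ℕ}
    (hc : c * c ≤ Nat.card V) (hcard : Nat.card V = Nat.card M * (c - 1) + 1)
    (U : Submodule ℤ V) (hU : ∀ u ∈ M, ∀ v ∈ U, ψ u v ∈ U) : U = ⊥ ∨ U = ⊤ := by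
  by_contra h
  push Not at h
  have hi : ∀ u ∈ M, ∀ v, ψ u v ∈ U → v ∈ U := fun u hu v e => by
    have := hU _ (inv_mem hu) _ e
    rwa [← fld_app, inv_mul_cancel, map_one] at this
  have h1 := fld_dvd ψ hsr ((U : Set V) \ {0}) (by simp) fun u hu v hv =>
    ⟨hU u hu v hv.1, fun e => hv.2 (by
      have := congrArg (ψ u⁻¹) (Set.mem_singleton_iff.1 e)
      rwa [← fld_app, inv_mul_cancel, map_one, map_zero] at this)⟩
  have h2 := fld_dvd ψ hsr (U : Set V)ᶜ (by simp) fun u hu v hv e => hv (hi u hu v e)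
  rw [Set.ncard_diff_singleton_of_mem U.zero_mem] at h1
  have h3 := Set.ncard_add_ncard_compl (U : Set V)
  have h4 : U.toAddSubgroup.index * (U : Set V).ncard = Nat.card V :=
    U.toAddSubgroup.index_mul_card
  have h5 : 1 < (U : Set V).ncard :=
    (AddSubgroup.one_lt_card_iff_ne_bot U.toAddSubgroup).2 fun e => h.1 (eq_bot_iff.2 fun v hv => e.le hv)
  have h6 : U.toAddSubgroup.index ≠ 1 := fun e => h.2 (by simpa using AddSubgroup.index_eq_one.1 e)
  have h7 : U.toAddSubgroup.index ≠ 0 := AddSubgroup.index_ne_zero_of_finite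
  have hm : 0 < Nat.card M := Nat.card_pos
  generalize (U : Set V).ncard = a at *
  generalize (U : Set V)ᶜ.ncard = a' at *
  generalize U.toAddSubgroup.index = b at *
  generalize Nat.card M = m at *
  generalize Nat.card V = n at *
  obtain ⟨a, rfl⟩ : ∃ k, a = k + 1 := ⟨a - 1, by omega⟩
  obtain ⟨b, rfl⟩ : ∃ k, b = k + 1 := ⟨b - 1, by omega⟩
  rw [Nat.add_sub_cancel] at h1
  have h8 : m ∣ b := by
    have e : a' = b * a + b := by nlinarith
    exact (Nat.dvd_add_right (h1.mul_left b)).1 (e ▸ h2)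
  have h9 := Nat.le_of_dvd (by omega) h1
  have h10 := Nat.le_of_dvd (by omega) h8
  rcases c with _ | k
  · simp at hcard
    nlinarith
  rw [Nat.add_sub_cancel] at hcard
  have h11 : m + 2 ≤ k := by
    by_contra e
    have : k ≤ m + 1 := by omega
    nlinarith [Nat.mul_le_mul h9 h10]
  nlinarith

theorem fld_sq (hsr : ∀ u ∈ M, u ≠ 1 → ∀ v, ψ u v = v → v = 0) (hM : M ≠ ⊥) {x : H}
    (hx : x ∈ normalizer (M : Set H)) (fx : ∀ u ∈ M, x * u = u * x → u = 1) :
    Nat.card {v // ψ x v = v} * Nat.card {v // ψ x v = v} ≤ Nat.card V := by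
  obtain ⟨⟨u, hu⟩, h1⟩ := ne_bot_iff_exists_ne_one.1 hM
  have h2 : u ≠ 1 := fun e => h1 (Subtype.ext e)
  rw [← Nat.card_prod]
  refine Nat.card_le_card_of_injective (fun p => p.1.1 + ψ u p.2.1) ?_
  rintro ⟨⟨a, ha⟩, b, hb⟩ ⟨⟨a', ha'⟩, b', hb'⟩ e
  have e1 : ψ u (b' - b) = a - a' := by
    rw [map_sub]
    exact sub_eq_sub_iff_add_eq_add.2 (by rw [add_comm]; exact e.symm.trans (add_comm _ _) |>.trans (add_comm _ _))
  have e2 : b' - b = 0 := hsr (u⁻¹ * (x * u * x⁻¹)) (mul_mem (inv_mem hu) ((mem_normalizer_iff.1 hx u).1 hu))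
    (fun e3 => h2 (fx u hu (by
      rw [inv_mul_eq_one] at e3
      exact mul_inv_eq_iff_eq_mul.1 e3.symm))) _ (by
      have e4 : ψ x⁻¹ (b' - b) = b' - b := by
        conv_lhs => rw [← hb, ← hb', ← map_sub, ← fld_app, inv_mul_cancel, map_one]
        rfl
      rw [fld_app, fld_app, fld_app, e4, e1, map_sub, ha, ha', ← e1, ← fld_app, inv_mul_cancel, map_one]
      rfl)
  rw [e2, map_zero] at e1
  exact Prod.ext (Subtype.ext (sub_eq_zero.1 e1.symm)) (Subtype.ext (sub_eq_zero.1 e2).symm)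

/-- Conjugation in the endomorphism ring. -/
def fldCj (h : H) : Module.End ℤ V →+* Module.End ℤ V where
  toFun e := ψ h * e * ψ h⁻¹
  map_one' := by rw [mul_one, ← map_mul, mul_inv_cancel, map_one]
  map_mul' a b := by
    rw [mul_assoc _ _ (_ * _ * _), ← mul_assoc (ψ h⁻¹), ← mul_assoc (ψ h⁻¹), ← map_mul,
      inv_mul_cancel, map_one, one_mul]
    simp only [mul_assoc]
  map_zero' := by simp
  map_add' a b := by rw [mul_add, add_mul]

theorem fld_pow [Finite M] [Nontrivial V] (hM : M ≠ ⊥) (hab : ∀ a ∈ M, ∀ b ∈ M, a * b = b * a)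
    (hsr : ∀ u ∈ M, u ≠ 1 → ∀ v, ψ u v = v → v = 0) {x y : H}
    (hx : x ∈ normalizer (M : Set H)) (hy : y ∈ normalizer (M : Set H)) (hxy : x * y = y * x)
    (fx : ∀ u ∈ M, x * u = u * x → u = 1) (fy : ∀ u ∈ M, y * u = u * y → u = 1)
    (hcard : Nat.card V = Nat.card M * (Nat.card {v // ψ x v = v} - 1) + 1) :
    ∃ k : ℤ, ∀ u ∈ M, (y ^ k)⁻¹ * x * u = u * ((y ^ k)⁻¹ * x) := by
  have irr := fld_irr ψ hsr (fld_sq ψ hsr hM hx fx) hcard
  let E : Subring (Module.End ℤ V) := Subring.closure (ψ '' M)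
  have hE : ∀ u ∈ M, ψ u ∈ E := fun u hu => Subring.subset_closure ⟨u, hu, rfl⟩
  have c1 : ∀ t, (∀ u ∈ M, t * ψ u = ψ u * t) → ∀ e ∈ E, t * e = e * t := fun t ht e he => by
    have : E ≤ Subring.centralizer {t} := Subring.closure_le.2 (by
      rintro _ ⟨u, hu, rfl⟩ _ rfl
      exact ht u hu)
    exact this he t rfl
  have c2 : ∀ e ∈ E, ∀ u ∈ M, e * ψ u = ψ u * e := fun e he u hu =>
    (c1 _ (fun v hv => by rw [← map_mul, hab u hu v hv, map_mul]) e he).symm
  have c3 : ∀ e ∈ E, ∀ v, v ≠ 0 → e v = 0 → e = 0 := fun e he v hv h0 => by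
    rcases irr (LinearMap.ker e) (fun u hu w hw => by
      rw [LinearMap.mem_ker, ← Module.End.mul_apply, c2 e he u hu, Module.End.mul_apply,
        LinearMap.mem_ker.1 hw, map_zero]) with h | h
    · exact absurd (h.le h0) hv
    · exact LinearMap.ker_eq_top.1 h
  obtain ⟨w, hw, hw0⟩ : ∃ w, ψ x w = w ∧ w ≠ 0 := by
    by_contra h
    push Not at h
    have : Nat.card {v // ψ x v = v} ≤ 1 := Finite.card_le_one_iff_subsingleton.2
      ⟨fun a b => Subtype.ext ((h _ a.2).trans (h _ b.2).symm)⟩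
    rw [Nat.sub_eq_zero_of_le this] at hcard
    exact Finite.one_lt_card.ne' hcard
  let ev : E →ₗ[ℤ] V := (AddMonoidHom.mk' (fun e : E => e.1 w) fun _ _ => rfl).toIntLinearMap
  have hev : Function.Bijective ev := by
    refine ⟨(injective_iff_map_eq_zero _).2 fun e h => Subtype.ext (c3 _ e.2 w hw0 h), ?_⟩
    rcases irr (LinearMap.range ev) (by
      rintro u hu _ ⟨e, rfl⟩
      exact ⟨⟨_, hE u hu⟩ * e, rfl⟩) with h | h
    · exact absurd (h.le ⟨1, rfl⟩) hw0
    · exact LinearMap.range_eq_top.1 h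
  have : Finite E := Finite.of_injective _ hev.1
  have hF : IsField E := by
    refine ⟨⟨0, 1, fun e => hw0 (congrArg ev e).symm⟩,
      fun a b => Subtype.ext (c1 _ (c2 _ a.2) _ b.2), fun {a} ha => ?_⟩
    refine Finite.surjective_of_injective (f := fun b : E => a * b) (fun b b' e => hev.1 ?_) 1
    by_contra h
    refine ha (Subtype.ext (c3 _ a.2 _ (sub_ne_zero.2 h) ?_))
    rw [map_sub, sub_eq_zero]
    exact congrArg ev e
  have hcj : ∀ h : normalizer (M : Set H), ∀ e ∈ E, fldCj ψ h e ∈ E := fun h =>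
    (Subring.closure_le.2 (by
      rintro _ ⟨u, hu, rfl⟩
      have := hE _ ((mem_normalizer_iff.1 h.2 u).1 hu)
      rwa [map_mul, map_mul] at this) : E ≤ E.comap (fldCj ψ h))
  letI : MulSemiringAction (normalizer (M : Set H)) E :=
    { smul := fun h e => ⟨fldCj ψ h e, hcj h _ e.2⟩
      one_smul := fun e => Subtype.ext (show ψ 1 * e.1 * ψ 1⁻¹ = e.1 by simp)
      mul_smul := fun a b e => Subtype.ext
        (show ψ (a * b) * e.1 * ψ ((a : H) * b)⁻¹ = ψ a * (ψ b * e.1 * ψ (b : H)⁻¹) * ψ (a : H)⁻¹ by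
          simp only [mul_inv_rev, map_mul, mul_assoc])
      smul_zero := fun a => Subtype.ext (map_zero (fldCj ψ a))
      smul_add := fun a e e' => Subtype.ext (map_add (fldCj ψ a) e.1 e'.1)
      smul_one := fun a => Subtype.ext (map_one (fldCj ψ a))
      smul_mul := fun a e e' => Subtype.ext (map_mul (fldCj ψ a) e.1 e'.1) }
  let α := MulSemiringAction.toRingAut (normalizer (M : Set H)) E
  have hα : ∀ h e, (α h e).1 = ψ h * e.1 * ψ (h : H)⁻¹ := fun _ _ => rfl
  have hα' : ∀ h e, α h e = e ↔ ψ h * e.1 = e.1 * ψ h := fun h e => by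
    rw [Subtype.ext_iff, hα]
    constructor
    · intro e1
      rw [← congrArg (· * ψ h) e1, mul_assoc, ← map_mul, inv_mul_cancel, map_one, mul_one]
    · intro e1
      rw [e1, mul_assoc, ← map_mul, mul_inv_cancel, map_one, mul_one]
  have hinj : ∀ a b : H, a⁻¹ * b ∈ M → ψ a = ψ b → a = b := fun a b h e => by
    by_contra h1
    refine hw0 (hsr _ h (fun e1 => h1 (inv_mul_eq_one.1 e1)) w ?_)
    rw [map_mul, ← e, ← map_mul, inv_mul_cancel, map_one]
    rfl
  let ι : M →* Eˣ := ((ψ.comp M.subtype).codRestrict E fun u => hE u u.2).toHomUnits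
  have hι : Function.Injective ι := fun a b e => Subtype.ext
    (hinj _ _ (mul_mem (inv_mem a.2) b.2) (congrArg (fun t : Eˣ => t.1.1) e))
  have hfx : ∀ h : normalizer (M : Set H), ∀ u ∈ M, ψ h * ψ u = ψ u * ψ h → h * u = u * h :=
    fun h u hu e => hinj _ _ (by
      have := mul_mem (inv_mem hu) ((mem_normalizer_iff''.1 h.2 u).1 hu)
      simpa only [mul_inv_rev, mul_assoc] using this) (by rw [map_mul, map_mul, e])
  have key : α ⟨x, hx⟩ ∈ zpowers (α ⟨y, hy⟩) := @fld_core E hF.toField _ (α ⟨y, hy⟩) (α ⟨x, hx⟩) (fun e => by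
      have : α ⟨y, hy⟩ * α ⟨x, hx⟩ = α ⟨x, hx⟩ * α ⟨y, hy⟩ := by
        rw [← map_mul, ← map_mul]
        exact congrArg α (Subtype.ext hxy.symm)
      exact DFunLike.congr_fun this e) ι.range (by
      have e1 : Nat.card ι.range = Nat.card M := (Nat.card_congr (MonoidHom.ofInjective hι).toEquiv).symm
      have e2 : Nat.card {e // α ⟨x, hx⟩ e = e} = Nat.card {v // ψ x v = v} :=
        Nat.card_congr ((Equiv.ofBijective ev hev).subtypeEquiv fun e => by
          rw [← hev.1.eq_iff]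
          have e3 : ψ x⁻¹ w = w := by
            conv_lhs => rw [← hw, ← fld_app, inv_mul_cancel, map_one]
            rfl
          have e4 : ev (α ⟨x, hx⟩ e) = ψ x (ev e) := congrArg (fun t => ψ x (e.1 t)) e3
          rw [e4]
          rfl)
      exact (Nat.card_congr (Equiv.ofBijective ev hev)).trans (hcard.trans (by rw [← e1, ← e2]))) (by
      rintro _ ⟨u, rfl⟩ e
      have : u = 1 := Subtype.ext (fy u u.2 (hfx ⟨y, hy⟩ u u.2 ((hα' _ _).1 e)))
      rw [this, map_one])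
  obtain ⟨k, hk⟩ := mem_zpowers_iff.1 key
  refine ⟨k, fun u hu => hfx ((⟨y, hy⟩ ^ k)⁻¹ * ⟨x, hx⟩) u hu ((hα' _ ⟨_, hE u hu⟩).1 ?_)⟩
  rw [map_mul, map_inv, map_zpow, hk, inv_mul_cancel]
  rfl

/-- The multiplicative form. -/
theorem fld_pow' {Λ : Type*} [CommGroup Λ] [Finite Λ] [Nontrivial Λ] (φ : H →* MulAut Λ) [Finite M]
    (hM : M ≠ ⊥) (hab : ∀ a ∈ M, ∀ b ∈ M, a * b = b * a)
    (hsr : ∀ u ∈ M, u ≠ 1 → ∀ v, φ u v = v → v = 1) {x y : H}
    (hx : x ∈ normalizer (M : Set H)) (hy : y ∈ normalizer (M : Set H)) (hxy : x * y = y * x)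
    (fx : ∀ u ∈ M, x * u = u * x → u = 1) (fy : ∀ u ∈ M, y * u = u * y → u = 1)
    (hcard : Nat.card Λ = Nat.card M * (Nat.card {v // φ x v = v} - 1) + 1) :
    ∃ k : ℤ, ∀ u ∈ M, (y ^ k)⁻¹ * x * u = u * ((y ^ k)⁻¹ * x) :=
  fld_pow (V := Additive Λ)
    { toFun := fun h => (MonoidHom.toAdditive (φ h).toMonoidHom).toIntLinearMap
      map_one' := by rw [map_one]; rfl
      map_mul' := fun a b => by rw [map_mul]; rfl } hM hab hsr hx hy hxy fx fy hcard

end Cfsg.Agent.ND
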