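import Mathlib
import Cfsg.Agent.ND.Defs
import Cfsg.Agent.ND.FldB

set_option autoImplicit false
set_option linter.unusedSectionVars false

namespace Cfsg.Agent.ND

open Cfsg Cfsg.Agent.Ch Cfsg.Agent.Deg.Nd Subgroup MulAction
open scoped commutatorElement

variable {V : Type*} [CommGroup V] [Finite V] {Y : Type*} [Group Y] [Finite Y] [MulDistribMulAction Y V]
  {J A Z : Subgroup Y} {y₀ : Y} {f : ℕ}

theorem Ab.fin_semi (h : Ab V J A Z y₀ f) {u : Y} (hu : u ∈ J) (h1 : u ≠ 1) (v : V)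
    (e : u • v = v) : v = 1 := by
  by_contra h2
  exact h1 (h.semi u hu 1 Z.one_mem v h2 (by rwa [mul_one])).1

theorem Ab.fin_card (h : Ab V J A Z y₀ f) {y : Y} (hy : y ∈ A) (hZ : y ∉ Z)
    (hc : ∀ x : V, x ≠ 1 → ∃ v ∈ J, y • v • x = v • x) :
    Nat.card V = Nat.card J * (Nat.card {v : V // y • v = v} - 1) + 1 := by
  have hne : ∀ (u : Y) (x : V), x ≠ 1 → u • x ≠ 1 := fun u x hx e =>
    hx (by rw [← inv_smul_smul u x, e, smul_one])
  have e1 := card_ne_one (Deg.Nd.fx V y)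
  have e2 := card_ne_one (⊤ : Subgroup V)
  have e3 : Nat.card (J × {v // v ∈ Deg.Nd.fx V y ∧ v ≠ 1}) =
      Nat.card {v // v ∈ (⊤ : Subgroup V) ∧ v ≠ 1} := by
    refine Nat.card_congr (Equiv.ofBijective
      (fun p => ⟨(p.1 : Y) • p.2.1, trivial, hne _ _ p.2.2.2⟩) ⟨?_, ?_⟩)
    · rintro ⟨⟨u, hu⟩, x, hx, hx1⟩ ⟨⟨u', hu'⟩, x', hx', hx1'⟩ e
      have e4 : u • x = u' • x' := congrArg Subtype.val e
      have e5 : (u'⁻¹ * u) • x = x' := by rw [mul_smul, e4, inv_smul_smul]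
      have hv : u'⁻¹ * u ∈ J := mul_mem (inv_mem hu') hu
      have e7 : u'⁻¹ * u = 1 := by
        generalize u'⁻¹ * u = v at hv e5
        refine h.fpf y hy hZ v hv ?_
        by_contra e6
        refine hx1 (h.fin_semi (mul_mem (inv_mem hv) (h.Jn.conj_mem v hv y)) (fun e8 => e6 ?_) x ?_)
        · rw [inv_mul_eq_one] at e8
          exact mul_inv_eq_iff_eq_mul.1 e8.symm
        · rw [mul_smul, mul_smul, mul_smul, inv_smul_eq_iff.2 (mem_fx.1 hx).symm, e5, mem_fx.1 hx',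
            ← e5, inv_smul_smul]
      rw [e7, one_smul] at e5
      exact Prod.ext (Subtype.ext (inv_mul_eq_one.1 e7).symm) (Subtype.ext e5)
    · rintro ⟨x, -, hx⟩
      obtain ⟨v, hv, e⟩ := hc x hx
      exact ⟨⟨⟨v⁻¹, inv_mem hv⟩, v • x, e, hne _ _ hx⟩, Subtype.ext (inv_smul_smul v x)⟩
  rw [Nat.card_prod] at e3
  rw [card_top] at e2
  rw [show Nat.card {v : V // y • v = v} = _ from e1.symm, Nat.add_sub_cancel, e3, e2]

/-- An element whose fixed points meet every orbit of `J` lies in every `⟨g⟩ Z`. -/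
theorem Ab.fin_pow (h : Ab V J A Z y₀ f) {y : Y} (hy : y ∈ A) (hZ : y ∉ Z)
    (hc : ∀ x : V, x ≠ 1 → ∃ v ∈ J, y • v • x = v • x) {g : Y} (hg : g ∈ A) (hgZ : g ∉ Z) :
    ∃ i : ℕ, y * g ^ i ∈ Z := by
  have := h.ntr
  have := h.Jn
  obtain ⟨k, hk⟩ := fld_pow' (MulDistribMulAction.toMulAut Y V) h.Jne h.Jc
    (fun u hu h1 v e => h.fin_semi hu h1 v e) (x := y) (y := g) (le_normalizer_of_normal (mem_top _))
    (le_normalizer_of_normal (mem_top _)) (h.Ac y hy g hg) (h.fpf y hy hZ) (h.fpf g hg hgZ)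
    (h.fin_card hy hZ hc)
  obtain ⟨i, hi⟩ := mem_powers_iff_mem_zpowers.2 (inv_mem (zpow_mem (mem_zpowers g) k))
  refine ⟨i, ?_⟩
  rw [h.Ac y hy _ (pow_mem hg i), show g ^ i = _ from hi]
  by_contra e
  exact h.Jne (eq_bot_iff.2 fun u hu =>
    h.fpf _ (mul_mem (inv_mem (zpow_mem hg k)) hy) e u hu (hk u hu))

theorem Ab.fin (h : Ab V J A Z y₀ f) {y : Y} (hy : y ∈ A) (hZ : y ∉ Z)
    (hc : ∀ x : V, x ≠ 1 → ∃ v ∈ J, y • v • x = v • x) {g : Y} (hg : g ∈ A) {t : ℕ} (ht : 2 ≤ t)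
    (_h1 : g ^ t ∈ Z) (h2 : ∀ i, 0 < i → i < t → g ^ i ∉ Z) (h3 : ∀ i, y * g ^ i ∉ Z) : False := by
  obtain ⟨i, hi⟩ := h.fin_pow hy hZ hc hg (by simpa using h2 1 one_pos ht)
  exact h3 i hi

end Cfsg.Agent.ND
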