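import Mathlib
import Cfsg.Agent.ND.Defs

set_option autoImplicit false
set_option linter.unusedSectionVars false

namespace Cfsg.Agent.ND

open Cfsg Cfsg.Agent.Ch Cfsg.Agent.Deg.Nd Subgroup MulAction
open scoped commutatorElement

variable {V : Type*} [CommGroup V] [Finite V] {Y : Type*} [Group Y] [Finite Y] [MulDistribMulAction Y V]
  {J A Z : Subgroup Y} {y₀ : Y} {f : ℕ}

theorem Ab.cop (h : Ab V J A Z y₀ f) {x : V} (hx : x ^ Nat.card J = 1) : x = 1 := by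
  by_contra x1
  obtain ⟨r, hr, he⟩ := h.elem
  haveI : Fact r.Prime := ⟨hr⟩
  have ho : orderOf x = r := orderOf_eq_prime (he x) x1
  obtain ⟨v, hv⟩ := exists_prime_orderOf_dvd_card' (G := J) r (ho ▸ orderOf_dvd_of_pow_eq_one hx)
  have hp : IsPGroup r (zpowers (v : Y)) :=
    IsPGroup.of_card (n := 1) (by rw [Nat.card_zpowers, Subgroup.orderOf_coe, hv, pow_one])
  obtain ⟨w, hw, w1⟩ := hp.exists_fixed_point_of_prime_dvd_card_of_fixed_point V (ho ▸ orderOf_dvd_natCard x)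
    (a := 1) fun g => smul_one _
  have := (h.semi v v.2 1 (one_mem _) w w1.symm (by rw [mul_one]; exact hw ⟨v, mem_zpowers _⟩)).1
  rw [show v = 1 from Subtype.ext this, orderOf_one] at hv
  exact hr.one_lt.ne hv

theorem Ab.avg [Fintype J] (h : Ab V J A Z y₀ f) {a : Y} (ha : a ∈ A) (hZ : a ∉ Z) (x : V) :
    ∏ v : J, ((v : Y)⁻¹ * (a * v * a⁻¹)) • x = 1 := by
  let φ : J → J := fun v => ⟨(v : Y)⁻¹ * (a * v * a⁻¹), mul_mem (inv_mem v.2) (h.Jn.conj_mem _ v.2 a)⟩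
  have hφ : Function.Injective φ := fun v w e => by
    have e1 : (v : Y)⁻¹ * (a * v * a⁻¹) = (w : Y)⁻¹ * (a * w * a⁻¹) := congrArg Subtype.val e
    have := h.fpf a ha hZ (w * (v : Y)⁻¹) (mul_mem w.2 (inv_mem v.2)) (by
      calc _ = w * ((w : Y)⁻¹ * (a * w * a⁻¹)) * a * (v : Y)⁻¹ := by group
        _ = _ := by rw [← e1]; group)
    exact Subtype.ext (mul_inv_eq_one.1 this).symm
  rw [Fintype.prod_bijective φ (Finite.injective_iff_bijective.1 hφ) _ (fun v : J => (v : Y) • x) fun _ => rfl]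
  obtain ⟨⟨u, hu⟩, u1⟩ := ne_bot_iff_exists_ne_one.1 h.Jne
  by_contra k
  refine u1 (Subtype.ext (h.semi u hu 1 (one_mem _) _ k ?_).1)
  rw [mul_one, Finset.smul_prod']
  exact Fintype.prod_equiv (Equiv.mulLeft (⟨u, hu⟩ : J)) _ _ fun v => (mul_smul _ _ _).symm

theorem Avg_norm {g : Y} {n : ℕ} (hg : g ^ n = 1) (x : V) :
    g • ∏ i ∈ Finset.range n, g ^ i • x = ∏ i ∈ Finset.range n, g ^ i • x := by
  have := (Finset.prod_range_succ' (fun i => g ^ i • x) n).symm.trans (Finset.prod_range_succ _ n)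
  rw [hg, pow_zero, mul_left_inj] at this
  rw [Finset.smul_prod', ← this]
  exact Finset.prod_congr rfl fun i _ => by rw [pow_succ', mul_smul]

theorem Avg_swap [Fintype J] (n : ℕ) (c : ℕ → Y) (x : V) :
    ∏ v : J, (v : Y)⁻¹ • ∏ i ∈ Finset.range n, c i • (v : Y) • x =
      ∏ i ∈ Finset.range n, ∏ v : J, ((v : Y)⁻¹ * (c i * v * (c i)⁻¹)) • c i • x := by
  rw [Finset.prod_comm]
  refine Finset.prod_congr rfl fun v _ => ?_
  rw [Finset.smul_prod']
  exact Finset.prod_congr rfl fun i _ => by simp only [mul_smul, inv_smul_smul]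

theorem Ab.Avg_pow [Fintype J] (h : Ab V J A Z y₀ f) {g : Y} (hg : g ∈ A) {n : ℕ} (hn : 0 < n)
    (hZ : ∀ i, 0 < i → i < n → g ^ i ∉ Z) (x : V) :
    ∏ v : J, (v : Y)⁻¹ • ∏ i ∈ Finset.range n, g ^ i • (v : Y) • x = x ^ Nat.card J := by
  rw [Avg_swap, Finset.prod_eq_single 0]
  · simp
  · exact fun i hi i0 => h.avg (pow_mem hg i) (hZ i (Nat.pos_of_ne_zero i0) (Finset.mem_range.1 hi)) _
  · exact fun k => absurd (Finset.mem_range.2 hn) k

theorem Ab.exists_fix (h : Ab V J A Z y₀ f) {a : Y} (ha : a ∈ A)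
    (hZ : ∀ k : ℕ, a ^ k ∈ Z → a ^ k = 1) : ∃ x : V, x ≠ 1 ∧ a • x = x := by
  have := Fintype.ofFinite J
  have := h.ntr
  obtain ⟨x, hx⟩ := exists_ne (1 : V)
  by_contra! k
  refine hx (h.cop ?_)
  rw [← h.Avg_pow ha (orderOf_pos a) fun i i0 hi e => pow_ne_one_of_lt_orderOf i0.ne' hi (hZ i e)]
  refine Finset.prod_eq_one fun v _ => ?_
  rw [not_imp_not.1 (k _) (Avg_norm (pow_orderOf_eq_one a) _), smul_one]

theorem Ab.exists_nfix (h : Ab V J A Z y₀ f) {a : Y} (ha : a ∈ A)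
    (hZ : ∀ k : ℕ, a ^ k ∈ Z → a ^ k = 1) {b s : ℕ} (hb : 2 ≤ b) (ho : orderOf a = b * s) :
    ∃ x : V, a ^ b • x = x ∧ a • x ≠ x := by
  have := Fintype.ofFinite J
  have := h.ntr
  obtain ⟨x, hx⟩ := exists_ne (1 : V)
  by_contra! k
  refine hx (h.cop ?_)
  have hs : 0 < s := Nat.pos_of_mul_pos_left (ho ▸ orderOf_pos a)
  have h1 : ∀ y : V, ∏ i ∈ Finset.range s, (a ^ b) ^ i • y = ∏ i ∈ Finset.range s, a ^ (b * i + 1) • y := fun y => by
    rw [← k _ (Avg_norm (n := s) (by rw [← pow_mul, ← ho, pow_orderOf_eq_one]) y), Finset.smul_prod']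
    exact Finset.prod_congr rfl fun i _ => by rw [pow_succ', mul_smul, pow_mul]
  rw [← h.Avg_pow (pow_mem ha b) hs fun i i0 hi e => by
    rw [← pow_mul] at e
    exact pow_ne_one_of_lt_orderOf (Nat.mul_pos (by omega) i0).ne'
      (ho ▸ Nat.mul_lt_mul_of_pos_left hi (by omega)) (hZ _ e)]
  simp only [h1]
  rw [Avg_swap s fun i => a ^ (b * i + 1)]
  refine Finset.prod_eq_one fun i _ => h.avg (pow_mem ha _) (fun e => ?_) _
  have h2 := (Dvd.intro s ho.symm).trans (orderOf_dvd_of_pow_eq_one (hZ _ e))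
  have := Nat.le_of_dvd one_pos ((Nat.dvd_add_right (Dvd.intro i rfl)).1 h2)
  omega

end Cfsg.Agent.ND
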