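import Mathlib
import Cfsg.Agent.ND.Defs

set_option autoImplicit false
set_option linter.unusedSectionVars false

namespace Cfsg.Agent.ND

open Cfsg Cfsg.Agent.Ch Cfsg.Agent.Deg.Nd Subgroup MulAction
open scoped commutatorElement

variable {V : Type*} [CommGroup V] [Finite V] {Y : Type*} [Group Y] [Finite Y] [MulDistribMulAction Y V]
  {J A Z : Subgroup Y} {y₀ : Y} {f : ℕ}

theorem AbG.stab_normal (h : AbG J A Z y₀ f) : Z.Normal :=
  ⟨fun z hz g => by rw [mem_center_iff.1 (h.Zc hz) g, mul_inv_cancel_right]; exact hz⟩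

theorem AbG.stab_pi [Z.Normal] (h : AbG J A Z y₀ f) {a : Y} (ha : a ∈ A) :
    ∃ k : ℕ, QuotientGroup.mk' Z a = QuotientGroup.mk' Z y₀ ^ k := by
  obtain ⟨k, hk⟩ := h.gen a ha
  refine ⟨k, ?_⟩
  rw [← map_pow, ← mul_inv_eq_one, ← map_inv, ← map_mul]
  exact (QuotientGroup.eq_one_iff _).2 hk

theorem stab_mem {H : Type*} [Group H] [Finite H] (y : H) {i j : ℕ} (e : orderOf (y ^ i) = orderOf (y ^ j)) :
    y ^ i ∈ zpowers (y ^ j) := by
  rw [orderOf_pow, orderOf_pow] at e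
  have e1 : (orderOf y).gcd i = (orderOf y).gcd j :=
    Nat.eq_of_mul_eq_mul_left (Nat.div_pos (Nat.gcd_le_left i (orderOf_pos y)) (Nat.gcd_pos_of_pos_left i (orderOf_pos y)))
      (by rw [Nat.div_mul_cancel (Nat.gcd_dvd_left _ _), e, Nat.div_mul_cancel (Nat.gcd_dvd_left _ _)])
  obtain ⟨c, hc⟩ := Nat.gcd_dvd_right (orderOf y) i
  have h1 : y ^ (orderOf y).gcd j ∈ zpowers (y ^ j) := ⟨(orderOf y).gcdB j, by
    change (y ^ j) ^ (orderOf y).gcdB j = _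
    rw [← zpow_natCast y ((orderOf y).gcd j), Nat.gcd_eq_gcd_ab, zpow_add, zpow_mul, zpow_mul, zpow_natCast,
      zpow_natCast, pow_orderOf_eq_one, one_zpow, one_mul]⟩
  rw [hc, pow_mul, e1]
  exact pow_mem h1 c

theorem Ab.stab_le (h : Ab V J A Z y₀ f) {x : V} (hx : x ≠ 1) {a : Y} (ha : a ∈ A) (hZ : a ∉ Z)
    (e : a • x = x) : stabilizer Y x ≤ A := by
  intro g hg
  obtain ⟨v, hv, b, hb, rfl⟩ := h.dec g
  have h1 := h.ab x hx a (v * b) e hg
  have h2 : a * v = v * a := mul_right_cancel (b := b) (by rw [mul_assoc, h1, mul_assoc, mul_assoc, h.Ac a ha b hb])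
  rw [h.fpf a ha hZ v hv h2, one_mul]
  exact hb

theorem Ab.one_lt (h : Ab V J A Z y₀ f) {x : V} (hx : x ≠ 1) : 1 < Nat.card (stabilizer Y x) := by
  by_contra k
  have h1 : Nat.card (stabilizer Y x) = 1 := le_antisymm (not_lt.1 k) Nat.card_pos
  have h2 := (stabilizer Y x).card_mul_index
  rw [h1, one_mul, h.card] at h2
  exact h.nf x hx (h2 ▸ Dvd.intro_left _ rfl)

theorem Ab.exists_conj (h : Ab V J A Z y₀ f) {x : V} (hx : x ≠ 1) :
    ∃ v ∈ J, stabilizer Y (v • x) ≤ A ∧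
      Nat.card (stabilizer Y (v • x)) = Nat.card (stabilizer Y x) := by
  obtain ⟨g, hg, g1⟩ : ∃ g ∈ stabilizer Y x, g ≠ 1 := by
    by_contra! k
    have := h.one_lt hx
    rw [(eq_bot_iff_forall _).2 k, card_bot] at this
    exact lt_irrefl _ this
  obtain ⟨v, hv, a, ha, rfl⟩ := h.dec g
  have aZ : a ∉ Z := fun k => g1 (by obtain ⟨rfl, rfl⟩ := h.semi v hv a k x hx hg; exact one_mul _)
  let τ : J → J := fun u => ⟨u * (a * (u : Y)⁻¹ * a⁻¹), mul_mem u.2 (h.Jn.conj_mem _ (inv_mem u.2) a)⟩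
  have inj : Function.Injective τ := fun u w e => by
    have e1 : (u : Y) * (a * (u : Y)⁻¹ * a⁻¹) = w * (a * (w : Y)⁻¹ * a⁻¹) := congrArg Subtype.val e
    have e2 := h.fpf a ha aZ ((w : Y)⁻¹ * u) (mul_mem (inv_mem w.2) u.2) (by
      calc a * ((w : Y)⁻¹ * u) = (w : Y)⁻¹ * (w * (a * (w : Y)⁻¹ * a⁻¹)) * a * u := by group
        _ = _ := by rw [← e1]; group)
    exact Subtype.ext (inv_mul_eq_one.1 e2).symm
  obtain ⟨u, hu⟩ := Finite.surjective_of_injective inj ⟨v⁻¹, inv_mem hv⟩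
  have e1 : (u : Y) * (a * (u : Y)⁻¹ * a⁻¹) = v⁻¹ := congrArg Subtype.val hu
  have e2 : a * u = u * (v * a) := by
    calc a * u = v * v⁻¹ * a * u := by group
      _ = v * u * a := by rw [← e1]; group
      _ = _ := by rw [h.Jc v hv u u.2, mul_assoc]
  refine ⟨u, u.2, h.stab_le (fun k => hx ((smul_eq_iff_eq_inv_smul _).1 k |>.trans (smul_one _))) ha aZ ?_, ?_⟩
  · rw [← mul_smul, e2, mul_smul, show (v * a) • x = x from hg]
  · rw [stabilizer_smul_eq_stabilizer_map_conj]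
    exact card_map_of_injective (MulAut.conj (u : Y)).injective

theorem Ab.stab_cyc (h : Ab V J A Z y₀ f) {x : V} (hx : x ≠ 1) (hA : stabilizer Y x ≤ A) :
    ∃ a ∈ A, stabilizer Y x = zpowers a ∧ orderOf a ∣ f ∧ ∀ k : ℕ, a ^ k ∈ Z → a ^ k = 1 := by
  have hZ : ∀ g ∈ stabilizer Y x, g ∈ Z → g = 1 := fun g hg k =>
    (h.semi 1 (one_mem _) g k x hx (by rw [one_mul]; exact hg)).2
  have : Z.Normal := h.toAbG.stab_normal
  let π := QuotientGroup.mk' Z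
  let ρ : stabilizer Y x →* zpowers (π y₀) := (π.comp (stabilizer Y x).subtype).codRestrict _ fun g => by
    obtain ⟨k, hk⟩ := h.toAbG.stab_pi (hA g.2)
    exact ⟨k, (zpow_natCast _ k).trans hk.symm⟩
  have inj : Function.Injective ρ := (injective_iff_map_eq_one _).2 fun g hg =>
    Subtype.ext (hZ g g.2 ((QuotientGroup.eq_one_iff _).1 (congrArg Subtype.val hg)))
  obtain ⟨a, ha⟩ := (Subgroup.isCyclic_iff_exists_zpowers_eq_top _).1 (isCyclic_of_injective ρ inj)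
  have aS : a ∈ stabilizer Y x := ha ▸ mem_zpowers a
  have h1 : ∀ k : ℕ, a ^ k ∈ Z → a ^ k = 1 := fun k hk => hZ _ (pow_mem aS k) hk
  refine ⟨a, hA aS, ha.symm, orderOf_dvd_of_pow_eq_one (h1 f ?_), h1⟩
  obtain ⟨k, hk⟩ := h.toAbG.stab_pi (hA aS)
  refine (QuotientGroup.eq_one_iff _).1 ?_
  change π (a ^ f) = 1
  rw [map_pow, hk, ← pow_mul, ← map_pow]
  exact (QuotientGroup.eq_one_iff _).2 ((h.ord _).2 (Dvd.intro_left _ rfl))

theorem AbG.same (h : AbG J A Z y₀ f) {a b : Y} (ha : a ∈ A) (hb : b ∈ A)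
    (haZ : ∀ k : ℕ, a ^ k ∈ Z → a ^ k = 1) (hbZ : ∀ k : ℕ, b ^ k ∈ Z → b ^ k = 1)
    (e : orderOf a = orderOf b) : ∃ z ∈ Z, a * z ∈ zpowers b := by
  have : Z.Normal := h.stab_normal
  let π := QuotientGroup.mk' Z
  have ho : ∀ c : Y, (∀ k : ℕ, c ^ k ∈ Z → c ^ k = 1) → orderOf (π c) = orderOf c := fun c hc =>
    orderOf_eq_orderOf_iff.2 fun k => ⟨fun e => hc k ((QuotientGroup.eq_one_iff _).1 (by
      change π (c ^ k) = 1; rw [map_pow, e])), fun e => by rw [← map_pow, e, map_one]⟩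
  obtain ⟨i, hi⟩ := h.stab_pi ha
  obtain ⟨j, hj⟩ := h.stab_pi hb
  obtain ⟨l, hl⟩ := stab_mem (π y₀) (i := i) (j := j) (by rw [← hi, ← hj, ho a haZ, ho b hbZ, e])
  refine ⟨a⁻¹ * b ^ l, (QuotientGroup.eq_one_iff _).1 ?_, by rw [mul_inv_cancel_left]; exact ⟨l, rfl⟩⟩
  change π (a⁻¹ * b ^ l) = 1
  rw [map_mul, map_inv, map_zpow, hi, hj, inv_mul_eq_one]
  exact hl.symm


end Cfsg.Agent.ND
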