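import Mathlib
import Cfsg.Agent.ND.Defs
import Cfsg.Agent.ND.Avg
import Cfsg.Agent.ND.Stab

/-! The abelian case: all point stabilisers have the same order. -/

set_option autoImplicit false
set_option linter.unusedSectionVars false

namespace Cfsg.Agent.ND

open Cfsg Cfsg.Agent.Ch Cfsg.Agent.Deg.Nd Subgroup MulAction
open scoped commutatorElement

variable {V : Type*} [CommGroup V] [Finite V] {Y : Type*} [Group Y] [Finite Y] [MulDistribMulAction Y V]
  {J A Z : Subgroup Y} {y₀ : Y} {f : ℕ}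

theorem eq_left {a b : Y} (hc : Commute a b) (ha : ∀ k : ℕ, a ^ k ∈ Z → a ^ k = 1)
    (hco : (orderOf a).Coprime (orderOf b)) {k : ℕ} (hk : (a * b) ^ k ∈ Z) : a ^ k = 1 := by
  have h1 := pow_mem hk (orderOf b)
  rw [← pow_mul, hc.mul_pow, pow_mul' b, pow_orderOf_eq_one, one_pow, mul_one] at h1
  exact orderOf_dvd_iff_pow_eq_one.1
    (hco.dvd_of_dvd_mul_right (orderOf_dvd_iff_pow_eq_one.2 (ha _ h1)))

theorem eq_lcm {a b : Y} (hc : Commute a b) (ha : ∀ k : ℕ, a ^ k ∈ Z → a ^ k = 1)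
    (hb : ∀ k : ℕ, b ^ k ∈ Z → b ^ k = 1) : ∃ i j : ℕ,
      orderOf (a ^ i * b ^ j) = Nat.lcm (orderOf a) (orderOf b) ∧
      ∀ k : ℕ, (a ^ i * b ^ j) ^ k ∈ Z → (a ^ i * b ^ j) ^ k = 1 := by
  have a0 := (orderOf_pos a).ne'
  have b0 := (orderOf_pos b).ne'
  refine ⟨_, _, hc.orderOf_mul_pow_eq_lcm a0 b0, fun k hk => ?_⟩
  have hco := Nat.coprime_factorizationLCMLeft_factorizationLCMRight (orderOf a) (orderOf b)
  rw [← orderOf_pow_orderOf_div a0 (Nat.factorizationLCMLeft_dvd_left (orderOf a) (orderOf b)),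
    ← orderOf_pow_orderOf_div b0 (Nat.factorizationLCMRight_dvd_right (orderOf a) (orderOf b))]
    at hco
  generalize orderOf a / Nat.factorizationLCMLeft (orderOf a) (orderOf b) = i at hk hco ⊢
  generalize orderOf b / Nat.factorizationLCMRight (orderOf a) (orderOf b) = j at hk hco ⊢
  have hc' := hc.pow_pow i j
  have h1 := eq_left hc' (fun k hk => by rw [← pow_mul] at hk ⊢; exact ha _ hk) hco hk
  have h2 := eq_left hc'.symm (fun k hk => by rw [← pow_mul] at hk ⊢; exact hb _ hk) hco.symm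
    (hc'.eq ▸ hk)
  rw [hc'.mul_pow, h1, h2, mul_one]

theorem Ab.eq_gen (h : Ab V J A Z y₀ f) {x : V} (hx : x ≠ 1) : ∃ a ∈ A,
    orderOf a = Nat.card (stabilizer Y x) ∧ ∀ k : ℕ, a ^ k ∈ Z → a ^ k = 1 := by
  obtain ⟨v, -, h1, h2⟩ := h.exists_conj hx
  have h3 : v • x ≠ 1 := fun e => hx (by rw [(smul_eq_iff_eq_inv_smul v).1 e, smul_one])
  obtain ⟨a, ha, h4, -, h5⟩ := h.stab_cyc h3 h1
  exact ⟨a, ha, by rw [← h2, h4, Nat.card_zpowers], h5⟩

theorem Ab.card_eq (h : Ab V J A Z y₀ f) {x w : V} (hx : x ≠ 1) (hw : w ≠ 1) :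
    Nat.card (stabilizer Y x) = Nat.card (stabilizer Y w) := by
  obtain ⟨x₀, h0, hmax⟩ := Set.exists_max_image {x : V | x ≠ 1}
    (fun x => Nat.card (stabilizer Y x)) (Set.toFinite _) ⟨x, hx⟩
  have key : ∀ u : V, u ≠ 1 → Nat.card (stabilizer Y u) = Nat.card (stabilizer Y x₀) := by
    intro u hu
    refine h.anti u x₀ hu h0 ?_
    obtain ⟨a, ha, a1, a2⟩ := h.eq_gen h0
    obtain ⟨b, hb, b1, b2⟩ := h.eq_gen hu
    obtain ⟨i, j, c1, c2⟩ := eq_lcm (h.Ac a ha b hb) a2 b2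
    obtain ⟨z, hz, e⟩ := h.exists_fix (mul_mem (pow_mem ha i) (pow_mem hb j)) c2
    have h1 : orderOf (a ^ i * b ^ j) ∣ Nat.card (stabilizer Y z) :=
      orderOf_dvd_natCard _ (mem_stabilizer_iff.2 e)
    have h2 : Nat.lcm (orderOf a) (orderOf b) ≤ orderOf a := by
      rw [← c1, a1]
      exact (Nat.le_of_dvd Nat.card_pos h1).trans (hmax z hz)
    have h3 := Nat.le_antisymm h2
      (Nat.le_of_dvd (Nat.lcm_pos (orderOf_pos a) (orderOf_pos b)) (Nat.dvd_lcm_left _ _))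
    rw [← a1, ← b1, ← h3]
    exact Nat.dvd_lcm_right _ _
  rw [key x hx, key w hw]

end Cfsg.Agent.ND
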