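import Mathlib
import Cfsg.Agent.ND.Defs
import Cfsg.Agent.ND.Eq
import Cfsg.Agent.ND.Avg
import Cfsg.Agent.ND.Stab

set_option autoImplicit false
set_option linter.unusedSectionVars false

namespace Cfsg.Agent.ND

open Cfsg Cfsg.Agent.Ch Cfsg.Agent.Deg.Nd Subgroup MulAction
open scoped commutatorElement

variable {V : Type*} [CommGroup V] [Finite V] {Y : Type*} [Group Y] [Finite Y] [MulDistribMulAction Y V]
  {J A Z : Subgroup Y} {y₀ : Y} {f : ℕ}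

theorem Ab.card_prime (h : Ab V J A Z y₀ f) {x : V} (hx : x ≠ 1) :
    (Nat.card (stabilizer Y x)).Prime := by
  have h1 := h.one_lt hx
  obtain ⟨v, -, hA, hc⟩ := h.exists_conj hx
  have hx₁ : v • x ≠ 1 := fun e => hx (by rw [← inv_smul_smul v x, e, smul_one])
  rw [← hc] at h1 ⊢
  generalize v • x = x₁ at hx₁ hA h1
  obtain ⟨a, ha, hs, -, haZ⟩ := h.stab_cyc hx₁ hA
  have hn : Nat.card (stabilizer Y x₁) = orderOf a := by rw [hs, Nat.card_zpowers]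
  have hax : a • x₁ = x₁ := mem_stabilizer_iff.1 (hs ▸ mem_zpowers a)
  by_contra hp
  rw [hn] at hp h1
  obtain ⟨b, ⟨s, hbs⟩, hb, hlt⟩ := Nat.exists_dvd_of_not_prime2 h1 hp
  have hbZ : a ^ b ∉ Z := fun e =>
    absurd (Nat.le_of_dvd (by omega) (orderOf_dvd_of_pow_eq_one (haZ b e))) (by omega)
  have step : ∀ w : V, w ≠ 1 → a ^ b • w = w → ∃ z ∈ Z, (a * z) • w = w := by
    intro w hw e
    obtain ⟨a', ha', hs', -, ha'Z⟩ := h.stab_cyc hw (h.stab_le hw (A.pow_mem ha b) hbZ e)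
    obtain ⟨z, hz, hm⟩ := h.toAbG.same ha ha' haZ ha'Z (by
      rw [← hn, h.card_eq hx₁ hw, hs', Nat.card_zpowers])
    exact ⟨z, hz, mem_stabilizer_iff.1 (hs' ▸ hm)⟩
  have semi : ∀ z ∈ Z, ∀ w : V, w ≠ 1 → z • w = w → z = 1 := fun z hz w hw e =>
    (h.semi 1 J.one_mem z hz w hw (by rwa [one_mul])).2
  have cen : ∀ z ∈ Z, ∀ (g : Y) (w : V), g • z • w = z • g • w := fun z hz g w => by
    rw [← mul_smul, ← mul_smul, mem_center_iff.1 (h.Zc hz) g]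
  obtain ⟨x', hbx', hax'⟩ := h.exists_nfix ha haZ hb hbs
  have hx' : x' ≠ 1 := fun e => hax' (by rw [e, smul_one])
  obtain ⟨z, hz, hzx⟩ := step x' hx' hbx'
  have hz1 : z ≠ 1 := fun e => hax' (by rwa [e, mul_one] at hzx)
  have hxx : x₁ * x' ≠ 1 := fun e => hax' (by rw [← inv_eq_of_mul_eq_one_right e, smul_inv', hax])
  have hbx : a ^ b • x₁ = x₁ := mem_stabilizer_iff.1 (pow_mem (mem_stabilizer_iff.2 hax) b)
  obtain ⟨z₃, hz₃, e₃⟩ := step _ hxx (by rw [smul_mul', hbx, hbx'])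
  have hzz : z₃ * z⁻¹ ∈ Z := Z.mul_mem hz₃ (Z.inv_mem hz)
  have e4 : (a * z₃) • x₁ = z₃ • x₁ := by rw [mul_smul, cen z₃ hz₃, hax]
  have e5 : (a * z₃) • x' = (z₃ * z⁻¹) • x' := by
    conv_rhs => rw [← hzx, ← cen _ hzz, ← mul_smul]
    congr 1
    rw [mul_assoc, ← mul_assoc z, ← mem_center_iff.1 (h.Zc hz) z₃]
    group
  rw [smul_mul', e4, e5] at e₃
  have e6 : z₃ • x₁ / x₁ = x' / (z₃ * z⁻¹) • x' := by
    rw [div_eq_div_iff_mul_eq_mul, e₃, mul_comm]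
  have e7 : a • (z₃ • x₁ / x₁) = z₃ • x₁ / x₁ := by rw [smul_div', cen z₃ hz₃, hax]
  have e8 : (a * z) • (z₃ • x₁ / x₁) = z₃ • x₁ / x₁ := by rw [e6, smul_div', cen _ hzz, hzx]
  rw [mul_smul, cen z hz, e7] at e8
  have e9 : z₃ • x₁ / x₁ = 1 := by
    by_contra hw
    exact hz1 (semi z hz _ hw e8)
  have e10 : z₃ = 1 := semi z₃ hz₃ x₁ hx₁ (div_eq_one.1 e9)
  rw [e9] at e6
  have e11 := semi _ hzz x' hx' (div_eq_one.1 e6.symm).symm
  rw [e10, one_mul, inv_eq_one] at e11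
  exact hz1 e11

end Cfsg.Agent.ND
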