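import Mathlib
import Cfsg.Agent.ND.Defs
import Cfsg.Agent.ND.Avg
import Cfsg.Agent.ND.Stab
import Cfsg.Agent.ND.Eq
import Cfsg.Agent.ND.Pr

/-! No divisibility among the degrees, abelian case: the element `y`. -/

set_option autoImplicit false

namespace Cfsg.Agent.ND

open Cfsg Cfsg.Agent.Ch Cfsg.Agent.Deg.Nd Subgroup MulAction
open scoped commutatorElement

variable {V : Type*} [CommGroup V] [Finite V] {Y : Type*} [Group Y] [Finite Y]
  [MulDistribMulAction Y V] {J A Z : Subgroup Y} {y₀ : Y} {f : ℕ}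

omit [Finite V] [Finite Y] in
theorem Sq_smul_ne {g : Y} {x : V} (hx : x ≠ 1) : g • x ≠ 1 := fun e => hx (by
  rw [← inv_smul_smul g x, e, smul_one])

omit [Finite Y] in
theorem Sq_pow_card {z : Y} (hz : z ∈ Z) : z ^ Nat.card Z = 1 :=
  congrArg Subtype.val (pow_card_eq_one' (x := (⟨z, hz⟩ : Z)))

theorem Ab.exists_y (h : Ab V J A Z y₀ f) :
    ∃ y ∈ A, y ∉ Z ∧ (orderOf y).Prime ∧ orderOf y ∣ f ∧ ¬ orderOf y ^ 2 ∣ f ∧
      ¬ orderOf y ∣ Nat.card Z ∧ ∀ x : V, x ≠ 1 → ∃ v ∈ J, y • v • x = v • x := by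
  haveI := h.ntr
  obtain ⟨x₀, h₀⟩ := exists_ne (1 : V)
  obtain ⟨v₀, -, hA, -⟩ := h.exists_conj h₀
  have h₁ : v₀ • x₀ ≠ 1 := Sq_smul_ne h₀
  generalize v₀ • x₀ = x₁ at hA h₁
  obtain ⟨y, hy, es, hf, hZ⟩ := h.stab_cyc h₁ hA
  have ec : Nat.card (stabilizer Y x₁) = orderOf y := by rw [es, Nat.card_zpowers]
  have hp : (orderOf y).Prime := ec ▸ h.card_prime h₁
  have hnd : ¬ orderOf y ∣ Nat.card Z := by
    rintro ⟨c, hc⟩
    refine h.nf x₁ h₁ ⟨Nat.card J * c, Nat.eq_of_mul_eq_mul_left hp.pos ?_⟩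
    have k := (stabilizer Y x₁).card_mul_index
    rw [ec, h.card, hc] at k
    rw [k]; ring
  have hcop : (orderOf y).Coprime (Nat.card Z) := (Nat.Prime.coprime_iff_not_dvd hp).2 hnd
  refine ⟨y, hy, fun k => ?_, hp, hf, ?_, hnd, fun x hx => ?_⟩
  · have e := hZ 1 (by rwa [pow_one])
    rw [pow_one] at e
    rw [e, orderOf_one] at hp
    exact Nat.not_prime_one hp
  · rintro ⟨m, hm⟩
    have m0 : 0 < m := Nat.pos_of_ne_zero fun e => by
      have := h.f1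
      rw [e, mul_zero] at hm
      omega
    have k1 : ∀ k : ℕ, (y₀ ^ (m * Nat.card Z)) ^ k ∈ Z → orderOf y ^ 2 ∣ k := by
      intro k hk
      rw [← pow_mul, h.ord, hm, mul_comm _ m, mul_assoc] at hk
      exact (hcop.pow_left 2).dvd_of_dvd_mul_left (Nat.dvd_of_mul_dvd_mul_left m0 hk)
    have k2 : (y₀ ^ (m * Nat.card Z)) ^ (orderOf y ^ 2) = 1 := by
      have e : m * Nat.card Z * orderOf y ^ 2 = f * Nat.card Z := by rw [hm]; ring
      rw [← pow_mul, e, pow_mul]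
      exact Sq_pow_card ((h.ord f).2 dvd_rfl)
    obtain ⟨x, hx, e⟩ := h.exists_fix (a := y₀ ^ (m * Nat.card Z)) (A.pow_mem h.y0A _) fun k hk => by
      obtain ⟨c, rfl⟩ := k1 k hk
      rw [pow_mul, k2, one_pow]
    have k3 : (y₀ ^ (m * Nat.card Z)) ^ orderOf y = 1 := by
      rw [← ec, ← h.card_eq hx h₁]
      exact Sq_pow_card (mem_stabilizer_iff.2 e)
    have k4 := Nat.le_of_dvd hp.pos (k1 _ (k3 ▸ Z.one_mem))
    have := hp.two_le
    nlinarith
  · obtain ⟨v, hv, hB, -⟩ := h.exists_conj hx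
    have hx' : v • x ≠ 1 := Sq_smul_ne hx
    obtain ⟨b, hb, eb, -, hbZ⟩ := h.stab_cyc hx' hB
    have eo : orderOf y = orderOf b := by
      rw [← ec, h.card_eq h₁ hx', eb, Nat.card_zpowers]
    obtain ⟨z, hz, hyz⟩ := h.toAbG.same hy hb hZ hbZ eo
    have c : Commute y z := mem_center_iff.1 (h.Zc hz) y
    have k1 : (y * z) ^ orderOf y = 1 := by
      rw [eo, ← Nat.card_zpowers]
      exact Sq_pow_card hyz
    rw [c.mul_pow, pow_orderOf_eq_one, one_mul] at k1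
    have k2 := pow_gcd_eq_one.2 ⟨k1, Sq_pow_card hz⟩
    rw [hcop.gcd_eq_one, pow_one] at k2
    rw [k2, mul_one, ← eb] at hyz
    exact ⟨v, hv, mem_stabilizer_iff.1 hyz⟩

end Cfsg.Agent.ND
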