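import Mathlib
import Cfsg.Agent.ND.Defs
import Cfsg.Agent.ND.Sq
import Cfsg.Agent.ND.Fin

set_option autoImplicit false
set_option linter.unusedSectionVars false

namespace Cfsg.Agent.ND

open Cfsg Cfsg.Agent.Ch Cfsg.Agent.Deg.Nd Subgroup MulAction
open scoped commutatorElement

variable {V : Type*} [CommGroup V] [Finite V] {Y : Type*} [Group Y] [Finite Y] [MulDistribMulAction Y V]
  {J A Z : Subgroup Y} {y₀ : Y} {f : ℕ}

theorem Ab.prime (h : Ab V J A Z y₀ f) : f.Prime := by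
  obtain ⟨y, hy, hZ, hs, ⟨m, hm⟩, h2, -, hc⟩ := h.exists_y
  by_cases h1 : m = 1
  · rw [hm, h1, mul_one]
    exact hs
  obtain ⟨t, ht, n, rfl⟩ := Nat.exists_prime_and_dvd h1
  have h3 : t.Coprime (orderOf y) := (Nat.coprime_primes ht hs).2 fun e =>
    h2 ⟨n, by rw [hm, e]; ring⟩
  have h0 : 0 < orderOf y * n := Nat.pos_of_ne_zero fun e => by
    have := h.f1
    rw [hm, mul_left_comm, e, mul_zero] at this
    omega
  have hg := A.pow_mem h.y0A (orderOf y * n)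
  have h4 : (y₀ ^ (orderOf y * n)) ^ t ∈ Z := by
    rw [← pow_mul, h.ord]
    exact ⟨1, by rw [hm]; ring⟩
  refine (h.fin hy hZ hc hg ht.two_le h4 (fun i hi hi' e => ?_) fun i e => hZ ?_).elim
  · rw [← pow_mul, h.ord, hm, mul_comm t, ← mul_assoc] at e
    exact (Nat.le_of_dvd hi (Nat.dvd_of_mul_dvd_mul_left h0 e)).not_gt hi'
  · have h5 := Z.pow_mem e t
    rw [Commute.mul_pow (h.Ac _ hy _ (A.pow_mem hg i)), ← pow_mul, mul_comm i, pow_mul] at h5
    have h6 := (Z.mul_mem_cancel_right (Z.pow_mem h4 i)).1 h5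
    obtain ⟨k, hk⟩ := exists_pow_eq_self_of_coprime h3
    exact hk ▸ Z.pow_mem h6 k

end Cfsg.Agent.ND
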