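import Mathlib
import Cfsg.Agent.ND.Defs
import Cfsg.Agent.S0056
import Cfsg.Agent.Ch.PiPart
import Cfsg.Agent.FG.H93Cyc
import Cfsg.Agent.GT.PGroupChain

set_option autoImplicit false
set_option linter.unusedSectionVars false

namespace Cfsg.Agent.ND

open Cfsg Cfsg.Agent.Ch Cfsg.Agent.Deg.Nd Subgroup MulAction
open scoped commutatorElement

variable {G : Type*} [Group G] [Finite G] {F K P : Subgroup G} [F.Normal] [K.Normal] [P.Normal] {p : ℕ}

theorem exists_cen (hd : ND G) (hF : FrobSec F K) (hn : Nab F K P p) (hc : IsCyclic ↥⁅P, P⁆) :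
    ∃ c, c ∉ F ∧ ¬ p ∣ orderOf c ∧ ∀ w ∈ ⁅P, P⁆, c * w = w * c := by
  classical
  have hp := hn.hp
  haveI : Fact p.Prime := ⟨hp⟩
  haveI : Fintype P := Fintype.ofFinite _
  have hDP : ⁅P, P⁆ ≤ P := commutator_le_left P P
  have hD0 : (⁅P, P⁆ : Subgroup G).subgroupOf P ≠ ⊥ := fun e =>
    hn.nab (by rw [subgroupOf_eq_bot, disjoint_iff, inf_eq_left.2 hDP] at e; exact e)
  obtain ⟨z, hzD, hzc, hz1, hzp⟩ := GT.PG.exists_mem_center_of_normal hn.pg _ hD0
  rw [mem_subgroupOf] at hzD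
  have hzo : orderOf (z : G) = p := by
    rw [Subgroup.orderOf_coe]; exact orderOf_eq_prime hzp hz1
  have hΩ : ∀ w ∈ ⁅P, P⁆, orderOf w = p → w ∈ zpowers (z : G) := fun w hw ho =>
    FG.H93.mem_zpowers_of_orderOf_dvd_of_mem hw hzD (by rw [ho, hzo])
  obtain ⟨⟨ψ, hψ⟩, hψz⟩ := exists_irr_apply_ne hz1
  change ψ z ≠ ψ 1 at hψz
  have hψ : IsIrrCharacter P ψ := hψ
  have hPT := le_inertia hψ.isClassFunction
  have hFT : F ≤ inertia P ψ := fun x hx => by
    obtain ⟨u, hu, y, hy, rfl⟩ := hn.split x hx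
    refine mul_mem (hPT hu) (mem_inertia.2 fun n => congrArg ψ (Subtype.ext ?_))
    simp [← mem_center_iff.1 hy n]
  have hcop : (Nat.card P).Coprime P.index := by
    obtain ⟨k, hk⟩ := IsPGroup.iff_card.1 hn.pg
    rw [hk]
    exact (hp.coprime_iff_not_dvd.2 hn.cop).pow_left k
  obtain ⟨c₀, hc₀T, hc₀F⟩ : ∃ c₀ ∈ inertia P ψ, c₀ ∉ F := by
    by_contra hne
    push Not at hne
    have hT : F = inertia P ψ := le_antisymm hFT hne
    obtain ⟨η, hη, he⟩ := deg12_extends_of_coprime hcop hψ le_rfl hPT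
    obtain ⟨χ, h2, -, h3⟩ := deg12_exists_of_extends hψ rfl hPT hη.isCharacter he
      IsIrrCharacter.one (fun _ _ => IsCharacter.one.mem_charKer.2 rfl)
    rw [charDegree_one, one_mul, ← hT] at h3
    have h4 := nil_eq_of_dvd hd hF h2 ⟨_, h3⟩
    rw [h3] at h4
    have h5 : charDegree ψ = 1 :=
      Nat.eq_of_mul_eq_mul_left (Nat.pos_of_ne_zero index_ne_zero_of_finite) (h4.trans (mul_one _).symm)
    have h6 : z ∈ commutator P := by
      rw [← map_subtype_commutator] at hzD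
      obtain ⟨z', hz', e⟩ := hzD
      rwa [← Subtype.ext e]
    exact hψz (hψ.mem_charKer.1 (hψ.isCharacter.commutator_le_charKer_of_apply_one
      (hψ.isCharacter.charDegree_eq_one_iff.1 h5) h6))
  have hcz : c₀ * z = z * c₀ := by
    obtain ⟨lam, hl, hk⟩ := hψ.exists_center_hom
    have h1 : c₀ * z * c₀⁻¹ ∈ zpowers (z : G) :=
      hΩ _ ((inferInstance : (⁅P, P⁆ : Subgroup G).Normal).conj_mem _ hzD c₀)
        (by rw [← hzo, ← MulAut.conj_apply, MulEquiv.orderOf_eq])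
    obtain ⟨k, hk1⟩ := h1
    have hk1 : (z : G) ^ k = c₀ * z * c₀⁻¹ := hk1
    have h2 : ψ (z ^ k) = ψ z := by
      rw [← mem_inertia.1 hc₀T z]
      exact congrArg ψ (Subtype.ext (by simpa using hk1))
    have h0 : ψ 1 ≠ 0 := hψ.apply_one_ne_zero
    have h3 := hl ⟨z, hzc⟩ 1
    have h4 := hl (⟨z, hzc⟩ ^ k) 1
    simp only [mul_one, SubgroupClass.coe_zpow] at h3 h4
    have h5 : lam (⟨z, hzc⟩ ^ k) = lam ⟨z, hzc⟩ :=
      Units.ext (mul_right_cancel₀ h0 (h4.symm.trans (h2.trans h3)))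
    have h6 : lam ⟨z, hzc⟩ ≠ 1 := fun e => hψz (by rw [h3, e, Units.val_one, one_mul])
    have h7 : orderOf (lam ⟨z, hzc⟩) = p := orderOf_eq_prime (by
      rw [← map_pow, show (⟨z, hzc⟩ : center P) ^ p = 1 from Subtype.ext hzp, map_one]) h6
    rw [map_zpow] at h5
    have h8 : (z : G) ^ k = z ^ (1 : ℤ) := by
      rw [zpow_eq_zpow_iff_modEq, hzo, ← h7, ← zpow_eq_zpow_iff_modEq, h5, zpow_one]
    rw [hk1, zpow_one] at h8
    exact mul_inv_eq_iff_eq_mul.1 h8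
  obtain ⟨u, c, -, hcm, e, -, ⟨k, hk⟩, hco⟩ := exists_p_parts hp c₀
  have huP : u ∈ P := by
    rw [← QuotientGroup.eq_one_iff]
    have a1 : (u : G ⧸ P) ^ p ^ k = 1 := by
      rw [← QuotientGroup.mk_pow, ← hk, pow_orderOf_eq_one, QuotientGroup.mk_one]
    have a2 : (u : G ⧸ P) ^ P.index = 1 := pow_card_eq_one'
    have a3 := pow_gcd_eq_one.2 ⟨a1, a2⟩
    rwa [((hp.coprime_iff_not_dvd.2 hn.cop).pow_left k).gcd_eq_one, pow_one] at a3
  refine ⟨c, fun h => hc₀F (e ▸ mul_mem (hn.le huP) h), hco, fun w hw => ?_⟩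
  have hcz' : Commute c (z : G) := by
    obtain ⟨j, rfl⟩ := hcm
    exact (show Commute c₀ (z : G) from hcz).zpow_left j
  have hDp : IsPGroup p (⁅P, P⁆ : Subgroup G) := hn.pg.to_le hDP
  obtain ⟨m, hm⟩ := IsPGroup.iff_card.1 hDp
  haveI : IsMulCommutative (⁅P, P⁆ : Subgroup G) := inferInstance
  have key := S0056.result (zpowers c) ⁅P, P⁆ (by rw [normalizer_eq_top]; exact le_top)
    (by rw [Nat.card_zpowers, hm]; exact ((hp.coprime_iff_not_dvd.2 hco).symm).pow_right m)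
    (fun v hv ho a ha => by
      have h1 : orderOf v ∣ p ^ m := by
        rw [← hm, ← Subgroup.orderOf_mk v hv]; exact orderOf_dvd_natCard _
      have h2 : orderOf v = p := (Nat.prime_dvd_prime_iff_eq ho hp).1 (ho.dvd_of_dvd_pow h1)
      obtain ⟨i, rfl⟩ := hΩ v hv h2
      obtain ⟨j, rfl⟩ := ha
      exact (hcz'.zpow_zpow j i).eq)
  exact (key (mem_zpowers c) w hw).symm

end Cfsg.Agent.ND
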