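import Mathlib
import Cfsg.Agent.ND.Defs
import Cfsg.Agent.Ch.PiPart

set_option autoImplicit false
set_option linter.unusedSectionVars false

namespace Cfsg.Agent.ND

open Cfsg Cfsg.Agent.Ch Cfsg.Agent.Deg.Nd Subgroup MulAction
open scoped commutatorElement

variable {G : Type*} [Group G] [Finite G]

theorem inv_core {P : Subgroup G} [P.Normal] {y z : G} (hgen : P ⊔ zpowers y = ⊤)
    (hz : z ∈ commutator G)
    (hall : ∀ ψ : P → ℂ, IsIrrCharacter P ψ → y ∈ inertia P ψ → charDegree ψ = 1) :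
    ∃ u, u * y * u⁻¹ = z * y := by
  have := Fintype.ofFinite G
  have := Fintype.ofFinite P
  have hcyc : IsCyclic (G ⧸ P) := ⟨⟨(y : G ⧸ P), fun q => by
    obtain ⟨g, rfl⟩ := QuotientGroup.mk_surjective q
    have hg : g ∈ ((P ⊔ zpowers y : Subgroup G) : Set G) := hgen ▸ mem_top g
    rw [normal_mul] at hg
    obtain ⟨a, ha, _, ⟨k, rfl⟩, rfl⟩ := hg
    exact ⟨k, by simp [(QuotientGroup.eq_one_iff a).2 ha]⟩⟩⟩
  have hcomm : commutator G ≤ P := by
    rw [commutator_def, commutator_le]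
    intro a _ b _
    rw [← QuotientGroup.eq_one_iff]
    change QuotientGroup.mk' P ⁅a, b⁆ = 1
    let _ := IsCyclic.commGroup (α := G ⧸ P)
    rw [map_commutatorElement, commutatorElement_eq_one_iff_mul_comm, mul_comm]
  have key : ∀ χ, IsIrrCharacter G χ → charDegree χ ≠ 1 → ∀ n ∈ P, χ (n * y) = 0 := by
    intro χ hχ h1 n hn
    obtain ⟨ψ, hψ, hne⟩ := exists_irr_under P hχ
    have hPT := le_inertia hψ.isClassFunction
    by_cases hy : y ∈ inertia P ψ
    · exfalso
      have hT : ⊤ ≤ inertia P ψ := hgen ▸ sup_le hPT (zpowers_le.2 hy)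
      obtain ⟨η, hη, he⟩ := extends_of_isCyclic hψ fun g => mem_inertia.1 (hT (mem_top g))
      have he' : (fun n : P => η n) = ψ := funext he
      obtain ⟨β, -, hβ⟩ := gallagher_surj_of_commutator_le hcomm hη.isCharacter (he' ▸ hψ) hχ
        (he' ▸ hne)
      apply h1
      rw [hχ.isCharacter.charDegree_eq_one_iff, hβ]
      have h2 := hψ.isCharacter.charDegree_eq_one_iff.1 (hall ψ hψ hy)
      have h3 := he 1
      rw [h2] at h3
      simpa using h3
    · have := Fintype.ofFinite (inertia P ψ)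
      obtain ⟨φ, -, -, rfl, -⟩ := clifford_corr_surj hψ rfl hPT hχ hne
      refine indFun_eq_zero_of_forall_not_mem _ _ fun x hx => hy ?_
      have e : x * (n * y) * x⁻¹ = (x * n * x⁻¹ * ⁅x, y⁆) * y := by
        rw [commutatorElement_def]; group
      rw [e] at hx
      exact (Subgroup.mul_mem_cancel_left _ (hPT (P.mul_mem (Normal.conj_mem inferInstance n hn x)
        (hcomm (commutator_mem_commutator (mem_top x) (mem_top y)))))).1 hx
  refine isConj_of_vanish hz fun χ hχ h1 => ⟨?_, key χ hχ h1 z (hcomm hz)⟩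
  simpa using key χ hχ h1 1 P.one_mem

theorem exists_inv {p : ℕ} (hp : p.Prime) {P : Subgroup G} [P.Normal] (hP : IsPGroup p P)
    (hc : ¬ p ∣ P.index) {y z : G} (hz : z ∈ ⁅P, P⁆) (h1 : z ≠ 1) (h : y * z = z * y) :
    ∃ ψ : P → ℂ, IsIrrCharacter P ψ ∧ charDegree ψ ≠ 1 ∧ y ∈ inertia P ψ := by
  by_contra hn
  push Not at hn
  obtain ⟨u, v, -, hv, rfl, -, ⟨k, hk⟩, hv'⟩ := exists_p_parts hp y
  have hu : u ∈ P := by
    rw [← QuotientGroup.eq_one_iff, ← orderOf_eq_one_iff]
    have a1 : orderOf (u : G ⧸ P) ∣ p ^ k := hk ▸ orderOf_map_dvd (QuotientGroup.mk' P) u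
    have a2 : orderOf (u : G ⧸ P) ∣ P.index := orderOf_dvd_natCard _
    exact Nat.eq_one_of_dvd_coprimes ((hp.coprime_iff_not_dvd.2 hc).pow_left k) a1 a2
  set H := P ⊔ zpowers v with hH
  have hPH : P ≤ H := le_sup_left
  have hvH : v ∈ H := mem_sup_right (mem_zpowers v)
  have hzP : z ∈ P := commutator_le_left P P hz
  have hgen : P.subgroupOf H ⊔ zpowers (⟨v, hvH⟩ : H) = ⊤ := by
    apply map_injective H.subtype_injective
    rw [Subgroup.map_sup, map_subgroupOf_eq_of_le hPH, MonoidHom.map_zpowers, ← MonoidHom.range_eq_map,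
      range_subtype]
    rfl
  have hz' : (⟨z, hPH hzP⟩ : H) ∈ commutator H := by
    have : z ∈ (commutator H).map H.subtype := by
      rw [map_subtype_commutator]; exact commutator_mono hPH hPH hz
    obtain ⟨w, hw, rfl⟩ := this
    exact hw
  obtain ⟨w, hw⟩ := inv_core hgen hz' fun ψ hψ hy => by
    have h2 := hψ.comp_mulEquiv (subgroupOfEquivOfLe hPH).symm
    by_contra h3
    refine hn _ h2 (fun e => h3 ?_) (mul_mem (le_inertia h2.isClassFunction hu) ?_)
    · exact (charDegree_comp ψ (subgroupOfEquivOfLe hPH).symm.toMonoidHom).symm.trans e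
    · exact mem_inertia.2 fun n => mem_inertia.1 hy ((subgroupOfEquivOfLe hPH).symm n)
  have hw' : (w : G) * v * (w : G)⁻¹ = z * v := congrArg Subtype.val hw
  have hzv : Commute z v := by
    obtain ⟨j, hj⟩ := hv
    rw [← hj]
    exact (Commute.symm h).zpow_right j
  have h4 : z ^ orderOf v = 1 := by
    have := congrArg (· ^ orderOf v) hw'
    simp only [conj_pow, hzv.mul_pow, pow_orderOf_eq_one, mul_one, mul_inv_cancel] at this
    exact this.symm
  obtain ⟨l, hl⟩ := hP ⟨z, hzP⟩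
  have h5 : z ^ p ^ l = 1 := congrArg Subtype.val hl
  exact h1 (orderOf_eq_one_iff.1 (Nat.eq_one_of_dvd_coprimes
    ((hp.coprime_iff_not_dvd.2 hv').pow_left l) (orderOf_dvd_of_pow_eq_one h5)
    (orderOf_dvd_of_pow_eq_one h4)))

end Cfsg.Agent.ND
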