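import Mathlib
import Cfsg.Agent.ND.Defs
import Cfsg.Agent.Ch.Integrality

set_option autoImplicit false
set_option linter.unusedSectionVars false

namespace Cfsg.Agent.ND

open Cfsg Cfsg.Agent.Ch Cfsg.Agent.Deg.Nd Subgroup MulAction
open scoped commutatorElement

variable {G : Type*} [Group G] [Finite G]

theorem mul_deg_dvd {p : ℕ} (hp : p.Prime) (hG : IsPGroup p G) {B : Subgroup G}
    (hB : ∀ a ∈ B, ∀ b ∈ B, a * b = b * a) (hZ : ¬ center G ≤ B) {ψ : G → ℂ}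
    (hψ : IsIrrCharacter G ψ) : p * charDegree ψ ∣ B.index := by
  haveI : Fact p.Prime := ⟨hp⟩
  have hB' : ∀ a ∈ B ⊔ center G, ∀ b ∈ B ⊔ center G, a * b = b * a := by
    intro a ha b hb
    obtain ⟨a1, h1, z1, k1, rfl⟩ := Subgroup.mem_sup_of_normal_right.mp ha
    obtain ⟨a2, h2, z2, k2, rfl⟩ := Subgroup.mem_sup_of_normal_right.mp hb
    have e1 := fun g => Subgroup.mem_center_iff.mp k1 g
    have e2 := fun g => Subgroup.mem_center_iff.mp k2 g
    calc a1 * z1 * (a2 * z2) = a1 * (z1 * a2) * z2 := by group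
      _ = a1 * a2 * (z1 * z2) := by rw [← e1 a2]; group
      _ = a2 * a1 * (z2 * z1) := by rw [hB a1 h1 a2 h2, e2 z1]
      _ = a2 * (a1 * z2) * z1 := by group
      _ = a2 * z2 * (a1 * z1) := by rw [e2 a1]; group
  have hle := hψ.charDegree_le_index_of_comm _ hB'
  obtain ⟨n, hn⟩ := IsPGroup.iff_card.mp hG
  obtain ⟨a, -, ha⟩ := (Nat.dvd_prime_pow hp).mp (hn ▸ hψ.charDegree_dvd_card)
  obtain ⟨b, -, hb⟩ := (Nat.dvd_prime_pow hp).mp (hn ▸ (B ⊔ center G).index_dvd_card)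
  obtain ⟨c, -, hc⟩ := (Nat.dvd_prime_pow hp).mp (hn ▸ B.index_dvd_card)
  have hlt : (B ⊔ center G).index < B.index :=
    Subgroup.index_strictAnti (lt_of_le_of_ne le_sup_left fun h => hZ (h ▸ le_sup_right))
  rw [ha, hb] at hle
  rw [hb, hc] at hlt
  have h1 := (Nat.pow_le_pow_iff_right hp.one_lt).mp hle
  have h2 := (Nat.pow_lt_pow_iff_right hp.one_lt).mp hlt
  rw [ha, hc, ← pow_succ']
  exact pow_dvd_pow _ (by omega)


end Cfsg.Agent.ND
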