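import Mathlib
import Cfsg.Agent.ND.Defs
import Cfsg.Agent.ND.Bas
import Cfsg.Agent.ND.Inv
import Cfsg.Agent.ND.PDeg

set_option autoImplicit false
set_option linter.unusedSectionVars false

namespace Cfsg.Agent.ND

open Cfsg Cfsg.Agent.Ch Cfsg.Agent.Deg.Nd Subgroup MulAction
open scoped commutatorElement

variable {V : Type*} [CommGroup V] [Finite V] {Y : Type*} [Group Y] [Finite Y] [MulDistribMulAction Y V]
  {F K : Subgroup Y} [F.Normal] [K.Normal] {P : Subgroup Y} [P.Normal] {p : ℕ}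

theorem fpf_relIndex_dvd (S P : Subgroup Y) [P.Normal] : S.relIndex P ∣ S.index := by
  have h1 : (S ⊓ P).relIndex P * P.relIndex (S ⊔ P) = (S ⊓ P).relIndex (S ⊔ P) :=
    relIndex_mul_relIndex _ _ _ inf_le_right le_sup_right
  have h2 : (S ⊓ P).relIndex S * S.relIndex (S ⊔ P) = (S ⊓ P).relIndex (S ⊔ P) :=
    relIndex_mul_relIndex _ _ _ inf_le_left le_sup_left
  rw [inf_relIndex_right, relIndex_sup_right] at h1
  rw [inf_relIndex_left, ← h1, mul_comm] at h2
  have h3 : P.relIndex S ≠ 0 := index_ne_zero_of_finite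
  have h4 := Nat.eq_of_mul_eq_mul_right (Nat.pos_of_ne_zero h3) h2
  rw [← h4]
  exact relIndex_dvd_index_of_le le_sup_left

theorem Hyp.fpf (h : Hyp V F K) (hn : Nab F K P p) {v : V} (hv : v ≠ 1) :
    ∃ y, y ∉ F ∧ y • v = v ∧ ∀ z ∈ ⁅P, P⁆, y * z = z * y → z = 1 := by
  obtain ⟨y, y1, y2, y3⟩ := h.gen hv
  refine ⟨y, y1, y2, fun z hz e => ?_⟩
  by_contra z1
  have := Fact.mk hn.hp
  have := Fintype.ofFinite P
  obtain ⟨θ, hθ, hθ1, hy⟩ := exists_inv hn.hp hn.pg hn.cop hz z1 e
  have hcop : (Nat.card P).Coprime P.index := by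
    obtain ⟨k, hk⟩ := IsPGroup.iff_card.1 hn.pg
    rw [hk]
    exact ((Nat.Prime.coprime_iff_not_dvd hn.hp).2 hn.cop).pow_left k
  have hMT := le_inertia hθ.isClassFunction
  have hFT : F ≤ inertia P θ := by
    intro x hx
    obtain ⟨u, hu, c, hc, rfl⟩ := hn.split x hx
    refine mul_mem (hMT hu) (mem_inertia.2 fun n => congrArg θ (Subtype.ext ?_))
    simp [← mem_center_iff.1 hc n]
  have hST : stabilizer Y v ≤ inertia P θ := y3.trans (sup_le hFT ((zpowers_le).2 hy))
  obtain ⟨η, hη, he⟩ := deg12_extends_of_coprime hcop hθ le_rfl hMT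
  obtain ⟨χ, h2, -, h3⟩ := deg12_exists_of_extends hθ rfl hMT hη.isCharacter he IsIrrCharacter.one
    (fun _ _ => IsCharacter.one.mem_charKer.2 rfl)
  rw [charDegree_one, one_mul] at h3
  have hd1 : charDegree χ ≠ 1 := fun e => hθ1 (Nat.eq_one_of_mul_eq_one_left (h3.symm.trans e))
  have hB : ∀ a ∈ (stabilizer Y v).subgroupOf P, ∀ b ∈ (stabilizer Y v).subgroupOf P, a * b = b * a :=
    fun a ha b hb => Subtype.ext (h.ab v hv a b ha hb)
  have hZ : ¬ center P ≤ (stabilizer Y v).subgroupOf P := by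
    intro hle
    have hnt : Nontrivial P := by
      refine (nontrivial_iff_ne_bot P).2 fun e => hn.nab ?_
      rw [e]; exact commutator_bot_left _
    have hc : Nontrivial (center P) := hn.pg.center_nontrivial
    refine hv (h.fix ((center P).map P.subtype) inferInstance ((map_subtype_le _).trans hn.le) ?_ v ?_)
    · intro e
      rw [map_eq_bot_iff_of_injective _ P.subtype_injective] at e
      exact (nontrivial_iff_ne_bot _).1 hc e
    · rintro _ ⟨c, hc, rfl⟩
      exact hle hc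
  have h4 : p * charDegree θ ∣ (stabilizer Y v).relIndex P := mul_deg_dvd hn.hp hn.pg hB hZ hθ
  have h5 : (p * charDegree θ).Coprime (inertia P θ).index :=
    (hcop.coprime_dvd_left (h4.trans (index_dvd_card _))).coprime_dvd_right (index_dvd_of_le hMT)
  have h6 : p * charDegree θ * (inertia P θ).index ∣ (stabilizer Y v).index :=
    h5.mul_dvd_of_dvd_of_dvd (h4.trans (fpf_relIndex_dvd _ _)) (index_dvd_of_le hST)
  have h7 : p * charDegree χ ∣ (stabilizer Y v).index := by
    rw [h3, mul_comm (inertia P θ).index, ← mul_assoc]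
    exact h6
  have h8 := h.deg v hv χ h2 hd1 ((Dvd.intro_left p rfl).trans h7)
  rw [← h8] at h7
  have h9 := Nat.le_of_dvd h2.charDegree_pos h7
  have h10 := hn.hp.two_le
  have h11 := h2.charDegree_pos
  nlinarith

end Cfsg.Agent.ND
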