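import Mathlib
import Cfsg.Agent.ND.CaseA
import Cfsg.Agent.S4781
import Cfsg.Agent.Ch.Deg12D

/-! No divisibility among the degrees: Frobenius section with prime index or abelian `N`. -/

set_option autoImplicit false
open Cfsg

namespace Cfsg.Agent.ND

open Cfsg.Agent.Ch Cfsg.Agent.Deg Cfsg.Agent.Deg.Gr Cfsg.Agent.Deg.Nd Subgroup

theorem tail {G : Type*} [Group G] [Finite G] [Group.IsSolvable G] (hd : Deg.Nd.ND G)
    {N K : Subgroup G} [N.Normal] [K.Normal] (hF : FrobSec N K)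
    (h : N.index.Prime ∨ commutator N = ⊥) :
    Nat.card (charDegrees G) ≤ 4 ∧ derivedSeries G 3 = ⊥ := by
  have := Fintype.ofFinite N
  have := Fintype.ofFinite G
  have hf1 : N.index ≠ 1 := mt Subgroup.index_eq_one.1 hF.ne_top
  have hk1 : K.relIndex N ≠ 1 := fun h => hF.lt.not_ge (Subgroup.relIndex_eq_one.1 h)
  obtain ⟨r, hr, hrN⟩ := Nat.exists_prime_and_dvd hf1
  obtain ⟨p, hp, hpK⟩ := Nat.exists_prime_and_dvd hk1
  obtain ⟨ξ, hξ, hξ1⟩ := hF.exists_charDegree_eq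
  have a1 : ∀ ψ, IsIrrCharacter N ψ → charDegree ψ ≠ 1 → p ∣ charDegree ψ := fun ψ hψ h3 => by
    rcases hF.exists_or_dvd hψ with ⟨χ, hχ, h4⟩ | h4
    · have h5 := hd ξ χ hξ hχ (hξ1 ▸ hf1) (by rw [hξ1, h4]; exact Dvd.intro _ rfl)
      rw [hξ1, h4] at h5
      exact absurd ((Nat.mul_eq_left index_ne_zero_of_finite).1 h5.symm) h3
    · exact hp.dvd_of_dvd_pow (hpK.trans h4)
  have a2 : ∀ χ, IsIrrCharacter G χ → charDegree χ ≠ 1 → charDegree χ = N.index ∨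
      ∃ ψ, IsIrrCharacter N ψ ∧ charDegree ψ ≠ 1 ∧ classInner (fun n : N => χ n) ψ ≠ 0 := fun χ hχ h3 => by
    obtain ⟨ψ, hψ, hne⟩ := exists_irr_under N hχ
    by_cases h4 : charDegree ψ = 1
    · obtain ⟨e, he, h5⟩ := exists_deg_eq hχ hψ hne
      rw [h4, mul_one] at h5
      exact Or.inl (hξ1 ▸ hd χ ξ hχ hξ h3 (by rw [h5, hξ1]; exact he))
    · exact Or.inr ⟨ψ, hψ, h4, hne⟩
  by_cases H : ∃ ψ, IsIrrCharacter N ψ ∧ charDegree ψ ≠ 1
  swap
  · refine fin_of_two (a := N.index) fun χ hχ h3 => ?_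
    rcases a2 χ hχ h3 with h4 | ⟨φ, hφ, h4, -⟩
    · exact h4
    · exact absurd ⟨φ, hφ, h4⟩ H
  obtain ⟨ψ₀, h0, h0'⟩ := H
  have hfp : N.index.Prime := h.resolve_right fun e =>
    h0' ((charDegree_eq_one_iff_commutator_le h0).2 (e ▸ bot_le))
  have a3 : ∀ ψ, IsIrrCharacter N ψ → charDegree ψ ≠ 1 → ∀ χ, IsIrrCharacter G χ →
      classInner (fun n : N => χ n) ψ ≠ 0 → N.index.Coprime (charDegree χ) := fun ψ hψ h3 χ hχ hne => by
    refine hfp.coprime_iff_not_dvd.2 fun hc => ?_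
    have h5 := hd ξ χ hξ hχ (hξ1 ▸ hf1) (hξ1 ▸ hc)
    have h6 : p ∣ N.index := by
      rw [← hξ1, h5]
      exact (a1 ψ hψ h3).trans (charDegree_dvd_of_under hχ hψ hne)
    exact hp.ne_one (Nat.eq_one_of_dvd_coprimes hF.coprime hpK h6)
  have a4 : ∀ ψ, IsIrrCharacter N ψ → charDegree ψ ≠ 1 → ∀ χ, IsIrrCharacter G χ →
      classInner (fun n : N => χ n) ψ ≠ 0 → (fun n : N => χ n) = ψ := fun ψ hψ h3 χ hχ hne =>
    (res_irr_dgr N hχ (a3 ψ hψ h3 χ hχ hne)).eq_of_classInner_ne_zero hψ hne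
  have a5 : ∀ ψ, IsIrrCharacter N ψ → charDegree ψ ≠ 1 → ∃ χ, IsIrrCharacter G χ ∧
      (fun n : N => χ n) = ψ ∧ charDegree χ = charDegree ψ ∧ N.index.Coprime (charDegree ψ) := fun ψ hψ h3 => by
    obtain ⟨χ, hχ, hne⟩ := exists_irr_over N hψ
    have h4 := a4 ψ hψ h3 χ hχ hne
    have h5 : charDegree χ = charDegree ψ := charDegree_congr (congrFun h4 1)
    exact ⟨χ, hχ, h4, h5, h5 ▸ a3 ψ hψ h3 χ hχ hne⟩
  obtain ⟨g, hg, k, hk⟩ := S4781.exists_elt hr hrN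
  have hy : Hy (MulAut.conjNormal g : MulAut N) r :=
    { nd := fun φ ψ hφ hψ h3 h4 => by
        have h5 : charDegree ψ ≠ 1 := fun e => h3 (Nat.dvd_one.1 (e ▸ h4))
        obtain ⟨χ, hχ, -, e1, -⟩ := a5 φ hφ h3
        obtain ⟨η, hη, -, e2, -⟩ := a5 ψ hψ h5
        rw [← e1, ← e2]
        exact hd χ η hχ hη (e1 ▸ h3) (e1 ▸ e2 ▸ h4)
      prime := hr
      pow := ⟨k, by rw [← map_pow, hk, map_one]⟩
      inv := fun ψ hψ h3 x => by
        obtain ⟨χ, hχ, rfl, -⟩ := a5 ψ hψ h3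
        exact hχ.isClassFunction x g
      cop := fun ψ hψ h3 e => by
        obtain ⟨χ, -, -, -, h4⟩ := a5 ψ hψ h3
        exact hr.ne_one (Nat.eq_one_of_dvd_coprimes h4 hrN e)
      ne := fun e => h0' ((charDegree_eq_one_iff_commutator_le h0).2 (e ▸ bot_le)) }
  obtain ⟨a, ha⟩ := hy.two fun e => by
    obtain ⟨n, hn, hn'⟩ := SetLike.exists_of_lt hF.lt
    obtain ⟨f, f1, f2⟩ := hF.exists_hom (n := ⟨n, hn⟩) hn'
    refine f2 (by
      rw [hF.eq_one hg f1 (MonoidHom.ext fun x => ?_)]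
      · rfl
      · have h3 : f _ = 1 := Abelianization.commutator_subset_ker f (mem_CC.1 (e.ge (mem_top x)))
        rw [map_mul, map_inv, mul_inv_eq_one] at h3
        exact h3)
  obtain ⟨χ₀, b1, -, b2, b3⟩ := a5 ψ₀ h0 h0'
  rw [ha ψ₀ h0 h0'] at b3
  have h3 : ∀ χ, IsIrrCharacter G χ → charDegree χ ≠ 1 → charDegree χ = N.index ∨ charDegree χ = a :=
    fun χ hχ h3 => by
      rcases a2 χ hχ h3 with h4 | ⟨ψ, hψ, h4, h5⟩
      · exact Or.inl h4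
      · exact Or.inr ((charDegree_congr (congrFun (a4 ψ hψ h4 χ hχ h5) 1)).trans (ha ψ hψ h4))
  refine ⟨card_le_four (a := N.index) (b := a) (c := a) fun χ hχ e => ?_,
    deg12_coprime_frob b3 (fun χ hχ => ?_) hF rfl⟩
  · exact (h3 χ hχ e).imp_right Or.inl
  · by_cases e : charDegree χ = 1
    · exact Or.inl e
    · exact Or.inr (h3 χ hχ e)

end Cfsg.Agent.ND
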