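import Mathlib
import Cfsg.Agent.ND.Nil
import Cfsg.Agent.ND.Tail

/-! No divisibility among the degrees: the case division. -/

set_option autoImplicit false
set_option linter.unusedSectionVars false

namespace Cfsg.Agent.ND

open Cfsg Cfsg.Agent.Ch Cfsg.Agent.Deg Cfsg.Agent.Deg.Nd Subgroup

variable {G : Type*} [Group G] [Finite G]

theorem glue_nd
    (hnd : ∀ a ∈ Cfsg.charDegrees G, ∀ b ∈ Cfsg.charDegrees G, 1 < a → a < b → ¬ a ∣ b) : ND G :=
  fun χ ψ hχ hψ h1 h2 => by_contra fun h3 => hnd _ (mem_charDegrees.2 ⟨χ, hχ, rfl⟩) _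
    (mem_charDegrees.2 ⟨ψ, hψ, rfl⟩) (by have := hχ.charDegree_pos; omega)
    (lt_of_le_of_ne (Nat.le_of_dvd hψ.charDegree_pos h2) h3) h2

theorem glue [Group.IsSolvable G] (hd : ND G)
    (main : ∀ (p : ℕ) (P C : Subgroup G), p.Prime → P.Normal → IsPGroup p P → ¬ p ∣ Nat.card C →
      (∀ a ∈ C, ∀ b ∈ C, a * b = b * a) → P ⊔ C = ⊤ →
      Nat.card (charDegrees G) ≤ 4 ∧ derivedSeries G 3 = ⊥)
    (prime : ∀ (N K : Subgroup G) [N.Normal] [K.Normal], FrobSec N K → ¬ Group.IsNilpotent N →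
      N.index.Prime) : Nat.card (charDegrees G) ≤ 4 ∧ derivedSeries G 3 = ⊥ := by
  by_cases h1 : commutator G ≤ ⁅commutator G, ⊤⁆
  swap
  · exact hd.caseA_fin h1
  by_cases h2 : commutator G ≤ ⁅commutator G, commutator G⁆
  · have h3 : commutator G = ⊥ := by
      by_contra h3
      exact (Group.IsSolvable.commutator_lt_of_ne_bot h3).not_ge h2
    exact fin_of_two (a := 1) fun χ hχ _ => (Deg.charDegree_eq_one_iff_commutator_le hχ).2 (h3 ▸ bot_le)
  obtain ⟨N, K, hN, hK, -, hF⟩ := deg12_exists_frobSec h1 h2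
  by_cases hn : Group.IsNilpotent N
  · rcases nil_red hd hF with h | ⟨p, P, C, a1, a2, a3, a4, a5, a6⟩
    · exact fin_of_two h
    · exact main p P C a1 a2 a3 a4 a5 a6
  · exact tail hd hF (.inl (prime N K hF hn))

end Cfsg.Agent.ND
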