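import Mathlib
import Cfsg.Agent.ND.Defs
import Cfsg.Agent.ND.Str

set_option autoImplicit false
set_option linter.unusedSectionVars false

namespace Cfsg.Agent.ND

open Cfsg Cfsg.Agent.Ch Cfsg.Agent.Deg.Nd Subgroup MulAction
open scoped commutatorElement

variable {G : Type*} [Group G] [Finite G] {N K : Subgroup G} [N.Normal] [K.Normal]

theorem exists_nab (hd : ND G) (hF : FrobSec N K) [Group.IsNilpotent N] (hn : ⁅N, N⁆ ≠ ⊥) :
    ∃ (p : ℕ) (P : Subgroup G) (_ : P.Normal), Nab N K P p := by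
  have hk1 : K.relIndex N ≠ 1 := fun h => hF.lt.not_ge (Subgroup.relIndex_eq_one.1 h)
  obtain ⟨p, hp, hpK⟩ := Nat.exists_prime_and_dvd hk1
  obtain ⟨P, Q, h1, h2, h3, -, h5, h6, h7, h8⟩ := nil_struct hd hF (fun H => hn
    (commutator_eq_bot_iff_le_centralizer.2 fun a ha b hb => H b hb a ha)) hp hpK
  have hP : P ≤ N := h7 ▸ le_sup_left
  have hder : ⁅N, N⁆ = ⁅P, P⁆ := le_antisymm (commutator_le.2 fun x hx y hy => by
    obtain ⟨a, ha, b, hb, rfl⟩ := h8 x hx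
    obtain ⟨c, hc, d, hd', rfl⟩ := h8 y hy
    have e1 := mem_center_iff.1 (h5 hb)
    have e2 := mem_center_iff.1 (h5 hd')
    have e : ⁅a * b, c * d⁆ = ⁅a, c⁆ := by
      rw [commutatorElement_def, commutatorElement_def, mul_inv_rev, mul_inv_rev]
      calc a * b * (c * d) * (b⁻¹ * a⁻¹) * (d⁻¹ * c⁻¹)
          = a * (b * (c * d)) * b⁻¹ * a⁻¹ * d⁻¹ * c⁻¹ := by group
        _ = a * c * (d * a⁻¹) * d⁻¹ * c⁻¹ := by rw [← e1]; group
        _ = _ := by rw [← e2]; group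
    rw [e]
    exact commutator_mem_commutator ha hc) (commutator_mono hP hP)
  refine ⟨p, P, h1, hp, h2, hP, fun hPK => h6 ?_, h3, fun x hx => ?_, hder, hder ▸ hn⟩
  · have h9 : Q ⊔ K = N := le_antisymm (sup_le (h7 ▸ le_sup_right) hF.lt.le)
      (h7 ▸ sup_le (hPK.trans le_sup_right) le_sup_left)
    rw [← h9, relIndex_sup_right] at hpK
    exact hpK.trans (relIndex_dvd_card _ _)
  · obtain ⟨a, ha, b, hb, rfl⟩ := h8 x hx
    exact ⟨a, ha, b, h5 hb, rfl⟩


end Cfsg.Agent.ND
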