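import Mathlib
import Cfsg.Agent.ND.Defs

set_option autoImplicit false
set_option linter.unusedSectionVars false

namespace Cfsg.Agent.ND

open Cfsg Cfsg.Agent.Ch Cfsg.Agent.Deg.Nd Subgroup MulAction
open scoped commutatorElement

theorem Ordp_swap {G : Type*} [Group G] {a b z : G} (h : b * a = a * b * z) (hb : Commute z b)
    (n : ℕ) : b ^ n * a = a * b ^ n * z ^ n := by
  induction n with
  | zero => simp
  | succ n ih =>
    rw [pow_succ' b, mul_assoc, ih, ← mul_assoc, ← mul_assoc, h, pow_succ' z, mul_assoc (a * b),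
      (hb.pow_right n).eq]
    group

theorem Ordp_pow {G : Type*} [Group G] {a b z : G} (h : b * a = a * b * z) (ha : Commute z a)
    (hb : Commute z b) (n : ℕ) : (a * b) ^ n = a ^ n * b ^ n * z ^ (n.choose 2) := by
  induction n with
  | zero => simp
  | succ n ih =>
    have e : (n + 1).choose 2 = n + n.choose 2 := by
      rw [Nat.choose_succ_succ' n 1, Nat.choose_one_right]
    rw [pow_succ, ih, e, mul_assoc (a ^ n * b ^ n), ((ha.mul_right hb).pow_left _).eq, pow_add]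
    have : a ^ n * b ^ n * (a * b * z ^ n.choose 2) = a ^ n * (b ^ n * a) * b * z ^ n.choose 2 := by
      group
    rw [this, Ordp_swap h hb n, mul_assoc (a ^ n), mul_assoc (a * b ^ n), (hb.pow_left n).eq]
    group

theorem Ordp_key {Q : Type*} [Group Q] {a c : Q} {m o : ℕ} (hm : m.Coprime o) (hc : c ^ o = 1)
    (hb : ⁅a, c⁆ ^ m = 1) (h : ⁅⁅a, c⁆, c⁆ = 1) : ⁅a, c⁆ = 1 := by
  have h1 : Commute ⁅a, c⁆ c := commutatorElement_eq_one_iff_commute.1 h
  have h2 : ⁅a, c⁆ * c = a * c * a⁻¹ := by rw [commutatorElement_def]; group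
  have h3 : ⁅a, c⁆ ^ o = 1 := by
    have := h1.mul_pow o
    rw [h2, conj_pow, hc] at this
    simpa using this.symm
  exact (pow_eq_one_iff_of_coprime hm).1 ⟨hb, h3⟩

theorem Ordp_hom {Q : Type*} [Group Q] {a c : Q} (h : Commute a (c * a⁻¹ * c⁻¹)) (n : ℕ) :
    ⁅a ^ n, c⁆ = ⁅a, c⁆ ^ n := by
  have e : ∀ x : Q, ⁅x, c⁆ = x * (c * x⁻¹ * c⁻¹) := fun x => by rw [commutatorElement_def]; group
  rw [e, e, h.mul_pow, conj_pow, inv_pow]

variable {G : Type*} [Group G] [Finite G]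

theorem exists_ordp {p : ℕ} (hp : p.Prime) (h2 : p ≠ 2) {P : Subgroup G} [P.Normal]
    (hP : IsPGroup p P) {c u : G} (hc : ¬ p ∣ orderOf c) (hw : ∀ w ∈ ⁅P, P⁆, c * w = w * c)
    (hu : u ∈ P) (h : ⁅u, c⁆ ∉ ⁅P, P⁆) :
    ∃ x ∈ P, x ^ p = 1 ∧ (∀ w ∈ ⁅P, P⁆, x * w = w * x) ∧
      ∀ i : ℕ, ¬ p ∣ i → ⁅x ^ i, c⁆ ∉ ⁅P, P⁆ := by
  classical
  set D : Subgroup G := ⁅P, P⁆ with hD
  haveI hDn : D.Normal := Subgroup.commutator_normal P P
  have hPn : P.Normal := inferInstance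
  let π : G →* G ⧸ D := QuotientGroup.mk' D
  have hπ : ∀ x, π x = 1 ↔ x ∈ D := fun x => QuotientGroup.eq_one_iff x
  have mem : ∀ a ∈ P, ⁅a, c⁆ ∈ P := fun a ha => by
    rw [commutatorElement_def, mul_assoc, mul_assoc, ← mul_assoc c]
    exact P.mul_mem ha (hPn.conj_mem _ (P.inv_mem ha) c)
  have pw : ∀ a ∈ P, ∃ k, a ^ p ^ k = 1 := fun a ha => by
    obtain ⟨k, hk⟩ := hP ⟨a, ha⟩
    exact ⟨k, congrArg Subtype.val hk⟩
  have key : ∀ a ∈ P, ⁅⁅a, c⁆, c⁆ ∈ D → ⁅a, c⁆ ∈ D := fun a ha h1 => by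
    obtain ⟨k, hk⟩ := pw _ (mem a ha)
    rw [← hπ, map_commutatorElement]
    refine Ordp_key (m := p ^ k) (o := orderOf c)
      (((Nat.Prime.coprime_iff_not_dvd hp).2 hc).pow_left k)
      (by rw [← map_pow, pow_orderOf_eq_one, map_one])
      (by rw [← map_commutatorElement, ← map_pow, hk, map_one]) ?_
    rw [← map_commutatorElement, ← map_commutatorElement, hπ]; exact h1
  have hom : ∀ a ∈ P, ∀ n : ℕ, π ⁅a ^ n, c⁆ = π ⁅a, c⁆ ^ n := fun a ha n => by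
    rw [map_commutatorElement, map_commutatorElement, map_pow]
    refine Ordp_hom ?_ n
    rw [← commutatorElement_eq_one_iff_commute, ← map_inv, ← map_inv, ← map_mul, ← map_mul,
      ← map_commutatorElement, hπ]
    exact commutator_mem_commutator ha (hPn.conj_mem _ (P.inv_mem ha) c)
  have hcC : c ∈ centralizer (D : Set G) := fun w hw' => (hw w hw').symm
  have hCn : (centralizer (D : Set G)).Normal := inferInstance
  have cen : ∀ a : G, ⁅a, c⁆ ∈ centralizer (D : Set G) := fun a => by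
    rw [commutatorElement_def]
    exact mul_mem (hCn.conj_mem c hcC a) (inv_mem hcC)
  have ex : ∃ k, ⁅u, c⁆ ^ p ^ k ∈ D := by
    obtain ⟨k, hk⟩ := pw _ (mem u hu)
    exact ⟨k, hk ▸ D.one_mem⟩
  have hk0 : Nat.find ex ≠ 0 := fun e => h (by simpa [e] using Nat.find_spec ex)
  obtain ⟨k, hk⟩ := Nat.exists_eq_succ_of_ne_zero hk0
  set a : G := ⁅u, c⁆ ^ p ^ k with ha
  have a1 : a ∉ D := Nat.find_min ex (by omega)
  have a2 : a ^ p ∈ D := by
    have := Nat.find_spec ex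
    rwa [hk, pow_succ, pow_mul] at this
  have aP : a ∈ P := P.pow_mem (mem u hu) _
  have aC : a ∈ centralizer (D : Set G) := pow_mem (cen u) _
  have cong : ∀ x y : G, π x = π y → π ⁅x, c⁆ = π ⁅y, c⁆ := fun x y e => by
    rw [map_commutatorElement, map_commutatorElement, e]
  have a3 : ⁅a, c⁆ ∉ D := fun h1 => by
    have e : π ⁅u ^ p ^ k, c⁆ = π a := by rw [hom u hu, ha, map_pow]
    have := key _ (P.pow_mem hu (p ^ k)) ((hπ _).1 ((cong _ _ e).trans ((hπ _).2 h1)))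
    exact a1 ((hπ _).1 (e.symm.trans ((hπ _).2 this)))
  have xp : ⁅a, c⁆ ^ p = 1 := by
    set b : G := c * a⁻¹ * c⁻¹ with hb
    have bP : b ∈ P := hPn.conj_mem _ (P.inv_mem aP) c
    have bC : b ∈ centralizer (D : Set G) := hCn.conj_mem _ (inv_mem aC) c
    have zD : ⁅b⁻¹, a⁻¹⁆ ∈ D := commutator_mem_commutator (P.inv_mem bP) (P.inv_mem aP)
    have e0 : b * a = a * b * ⁅b⁻¹, a⁻¹⁆ := by rw [commutatorElement_def]; group
    have za : Commute ⁅b⁻¹, a⁻¹⁆ a := aC _ zD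
    have zb : Commute ⁅b⁻¹, a⁻¹⁆ b := bC _ zD
    have bp : b ^ p = (a ^ p)⁻¹ := by
      rw [hb, conj_pow, inv_pow, hw _ (D.inv_mem a2)]; group
    have zp : ⁅b⁻¹, a⁻¹⁆ ^ p = 1 := by
      have e1 := Ordp_swap e0 zb p
      rw [bp] at e1
      have e2 : (a ^ p)⁻¹ * a = a * (a ^ p)⁻¹ := by group
      rw [e2] at e1
      simpa using e1
    have e3 : ⁅a, c⁆ = a * b := by rw [commutatorElement_def, hb]; group
    obtain ⟨j, hj⟩ : p ∣ p.choose 2 := hp.dvd_choose_self two_ne_zero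
      (lt_of_le_of_ne hp.two_le (Ne.symm h2))
    rw [e3, Ordp_pow e0 za zb, bp, hj, pow_mul, zp]; simp
  refine ⟨⁅a, c⁆, mem a aP, xp, fun w hw' => (cen a w hw').symm, fun i hi h1 => a3 ?_⟩
  have e : π ⁅a ^ i, c⁆ = π (⁅a, c⁆ ^ i) := by rw [hom a aP, map_pow]
  have h3 := key _ (P.pow_mem aP i) ((hπ _).1 ((cong _ _ e).trans ((hπ _).2 h1)))
  rw [← hπ] at h3 ⊢
  rw [hom a aP] at h3
  exact (pow_eq_one_iff_of_coprime ((Nat.Prime.coprime_iff_not_dvd hp).2 hi)).1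
    ⟨by rw [← map_pow, xp, map_one], h3⟩

end Cfsg.Agent.ND
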