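import Mathlib
import Cfsg.Agent.ND.Defs

set_option autoImplicit false
set_option linter.unusedSectionVars false

namespace Cfsg.Agent.ND

open Cfsg Cfsg.Agent.Ch Cfsg.Agent.Deg.Nd Subgroup MulAction
open scoped commutatorElement

theorem Semi_aux {E V : Type*} [CommGroup E] [Finite E] [CommGroup V] [Finite V] [Nontrivial V]
    [MulDistribMulAction E V] (h : ∀ (e : E) (v : V), v ≠ 1 → e • v = v → e = 1) : IsCyclic E := by
  let ρ := Representation.ofMulDistribMulAction E V
  have : Finite ρ.asModule := inferInstanceAs (Finite (Additive V))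
  have : Nontrivial ρ.asModule := inferInstanceAs (Nontrivial (Additive V))
  have : Finite (Submodule (MonoidAlgebra ℤ E) ρ.asModule) :=
    Finite.of_injective _ (SetLike.coe_injective (A := Submodule (MonoidAlgebra ℤ E) ρ.asModule))
  obtain ⟨W, hW, -⟩ := (eq_bot_or_exists_atom_le (⊤ : Submodule (MonoidAlgebra ℤ E) ρ.asModule)).resolve_left
    top_ne_bot
  obtain ⟨I, hI, ⟨φ⟩⟩ := isSimpleModule_iff_quot_maximal.1 (isSimpleModule_iff_isAtom.2 hW)
  have : I.IsPrime := hI.isPrime
  refine isCyclic_of_injective_ringHom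
    ((Ideal.Quotient.mk I).toMonoidHom.comp (MonoidAlgebra.of ℤ E)) ((injective_iff_map_eq_one _).2 fun e he => ?_)
  have k : MonoidAlgebra.of ℤ E e • φ.symm 1 = φ.symm 1 := by
    rw [← map_smul]
    congr 1
    exact (mul_one (Ideal.Quotient.mk I (MonoidAlgebra.of ℤ E e))).trans he
  have k2 := congrArg (fun w : W => ρ.asModuleEquiv w.1) k
  simp only [Submodule.coe_smul, Representation.asModuleEquiv_map_smul, Representation.asAlgebraHom_of] at k2
  refine h e (ρ.asModuleEquiv (φ.symm 1).1).toMul (fun z => ?_) (congrArg Additive.toMul k2)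
  have z' : (φ.symm 1).1 = 0 := ρ.asModuleEquiv.map_eq_zero_iff.1 z
  exact one_ne_zero (φ.symm.map_eq_zero_iff.1 (Subtype.ext z'))

variable {G : Type*} [Group G] [Finite G]

theorem exists_fix_of_not_cyclic {V : Type*} [CommGroup V] [Finite V] [Nontrivial V]
    [MulDistribMulAction G V] {E : Subgroup G} (hE : ∀ a ∈ E, ∀ b ∈ E, a * b = b * a)
    (hc : ¬ IsCyclic E) : ∃ e ∈ E, e ≠ 1 ∧ ∃ v : V, v ≠ 1 ∧ e • v = v := by
  by_contra k
  let _ : CommGroup E := { (inferInstance : Group E) with
    mul_comm := fun a b => Subtype.ext (hE a a.2 b b.2) }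
  exact hc (Semi_aux (V := V) fun e v v1 h => by
    by_contra e1
    exact k ⟨e, e.2, fun q => e1 (Subtype.ext q), v, v1, h⟩)

end Cfsg.Agent.ND
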