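import Mathlib
import Cfsg.Agent.ND.Defs
import Cfsg.Agent.ND.Fpf
import Cfsg.Agent.ND.Semi
import Cfsg.Agent.GT.PGroupCyclicNormal

set_option autoImplicit false
set_option linter.unusedSectionVars false

namespace Cfsg.Agent.ND

open Cfsg Cfsg.Agent.Ch Cfsg.Agent.Deg.Nd Subgroup MulAction
open scoped commutatorElement

variable {V : Type*} [CommGroup V] [Finite V] {Y : Type*} [Group Y] [Finite Y] [MulDistribMulAction Y V]
  {F K : Subgroup Y} [F.Normal] [K.Normal] {P : Subgroup Y} [P.Normal] {p : ℕ}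

theorem Hyp.semi (h : Hyp V F K) (hn : Nab F K P p) {z : Y} (hz : z ∈ ⁅P, P⁆) {v : V} (hv : v ≠ 1)
    (e : z • v = v) : z = 1 := by
  obtain ⟨y, -, hy, k⟩ := h.fpf hn hv
  exact k z hz (h.ab v hv y z hy e)

theorem pcyc_two {C : Type*} [Group C] [Finite C] [IsCyclic C] {a b : C} (ha : a ^ 2 = 1) (hb : b ^ 2 = 1)
    (a1 : a ≠ 1) (b1 : b ≠ 1) : a = b := by
  classical
  have := Fintype.ofFinite C
  by_contra n
  have k := IsCyclic.card_pow_eq_one_le (α := C) two_pos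
  have s : ({1, a, b} : Finset C) ⊆ Finset.univ.filter fun x : C => x ^ 2 = 1 := by
    intro x hx
    simp only [Finset.mem_insert, Finset.mem_singleton] at hx
    rcases hx with rfl | rfl | rfl <;> simp [*]
  have c := Finset.card_le_card s
  rw [Finset.card_eq_three.2 ⟨1, a, b, a1.symm, b1.symm, n, rfl⟩] at c
  omega

theorem Hyp.pcyc_ab (h : Hyp V F K) (hn : Nab F K P p) {E : Subgroup Y} (hE : E ≤ ⁅P, P⁆)
    (hc : ∀ a ∈ E, ∀ b ∈ E, a * b = b * a) : IsCyclic E := by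
  have := h.ntr
  by_contra n
  obtain ⟨e, he, e1, v, hv, ev⟩ := exists_fix_of_not_cyclic (V := V) hc n
  exact e1 (h.semi hn (hE he) hv ev)

theorem Hyp.pcyc (h : Hyp V F K) (hn : Nab F K P p) : p ≠ 2 ∧ IsCyclic ↥⁅P, P⁆ := by
  have := Fact.mk hn.hp
  have hD : IsPGroup p ↥⁅P, P⁆ := hn.pg.to_le (commutator_le_left P P)
  have p2 : p ≠ 2 := by
    rintro rfl
    have := h.ntr
    obtain ⟨v, hv⟩ := exists_ne (1 : V)
    obtain ⟨y, -, -, k⟩ := h.fpf hn hv
    have := (nontrivial_iff_ne_bot _).2 hn.nab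
    have := hD.center_nontrivial
    obtain ⟨n, n0, hc⟩ := (hD.to_subgroup (center ↥⁅P, P⁆)).nontrivial_iff_card.1 inferInstance
    obtain ⟨z, hz⟩ := exists_prime_orderOf_dvd_card' (G := center ↥⁅P, P⁆) 2 (hc ▸ dvd_pow_self 2 n0.ne')
    have z2 : (z.1.1 : Y) ^ 2 = 1 := by
      have := congrArg (fun x : center ↥⁅P, P⁆ => (x.1.1 : Y)) (hz ▸ pow_orderOf_eq_one z)
      simpa using this
    have z1 : (z.1.1 : Y) ≠ 1 := fun e => by
      rw [show z = 1 from Subtype.ext (Subtype.ext e), orderOf_one] at hz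
      exact absurd hz (by decide)
    let E : Subgroup Y := ⁅P, P⁆ ⊓ centralizer (⁅P, P⁆ : Subgroup Y)
    have nE : E.Normal := inferInstance
    have zE : (z.1.1 : Y) ∈ E := ⟨z.1.2, mem_centralizer_iff.2 fun g hg =>
      congrArg Subtype.val (mem_center_iff.1 z.2 ⟨g, hg⟩)⟩
    have := h.pcyc_ab hn (E := E) inf_le_left fun a ha b hb => mem_centralizer_iff.1 hb.2 a ha.1
    have e := pcyc_two (a := (⟨_, nE.conj_mem _ zE y⟩ : E)) (b := ⟨_, zE⟩)
      (Subtype.ext (by simp [conj_pow, z2])) (Subtype.ext z2)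
      (fun e => z1 (by simpa using congrArg Subtype.val e)) fun e => z1 (congrArg Subtype.val e)
    exact z1 (k _ z.1.2 (mul_inv_eq_iff_eq_mul.1 (congrArg Subtype.val e)))
  refine ⟨p2, (GT.PG.isCyclic_or_maxTwo_of_normal_abelian_isCyclic hD fun A _ hA => ?_).resolve_right
    fun e => p2 e.1⟩
  have := h.pcyc_ab hn (E := A.map (⁅P, P⁆ : Subgroup Y).subtype) (map_subtype_le A) (by
    rintro _ ⟨a, ha, rfl⟩ _ ⟨b, hb, rfl⟩
    rw [← map_mul, ← map_mul]
    exact congrArg _ (congrArg Subtype.val (hA.is_comm.comm (⟨a, ha⟩ : A) ⟨b, hb⟩)))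
  exact (A.equivMapOfInjective _ (subtype_injective _)).isCyclic.2 this


end Cfsg.Agent.ND
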