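import Mathlib
import Cfsg.Agent.ND.Defs
import Cfsg.Agent.ND.PCyc
import Cfsg.Agent.ND.Cen
import Cfsg.Agent.ND.Ordp
import Cfsg.Agent.ND.Cyc

set_option autoImplicit false
set_option linter.unusedSectionVars false

namespace Cfsg.Agent.ND

open Cfsg Cfsg.Agent.Ch Cfsg.Agent.Deg.Nd Subgroup MulAction
open scoped commutatorElement

variable {V : Type*} [CommGroup V] [Finite V] {Y : Type*} [Group Y] [Finite Y] [MulDistribMulAction Y V]
  {F K : Subgroup Y} [F.Normal] [K.Normal] {P : Subgroup Y} [P.Normal] {p : ℕ}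

theorem Hyp.not_nab (h : Hyp V F K) (hn : Nab F K P p) : False := by
  have := Fact.mk hn.hp
  have := h.ntr
  obtain ⟨h2, hc⟩ := h.pcyc hn
  obtain ⟨c, cF, cp, cw⟩ := exists_cen h.nd h.frob hn hc
  obtain ⟨u, uP, uK⟩ := SetLike.not_le_iff_exists.1 hn.nK
  have DK : ⁅P, P⁆ ≤ K := by
    rw [← hn.der]
    exact h.frob.comm
  obtain ⟨x, xP, xp, xw, xi⟩ := exists_ordp hn.hp h2 hn.pg cp cw uP
    fun e => uK (frob_mem h.frob cF (hn.le uP) (DK e))
  have DP : ⁅P, P⁆ ≤ P := commutator_le_left _ _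
  obtain ⟨z, zD, zo⟩ : ∃ z ∈ ⁅P, P⁆, orderOf z = p := by
    have pg : IsPGroup p ↥⁅P, P⁆ := hn.pg.to_le DP
    have : Nontrivial ↥⁅P, P⁆ := (nontrivial_iff_ne_bot _).2 hn.nab
    obtain ⟨n, n0, e⟩ := pg.nontrivial_iff_card.1 this
    obtain ⟨z, hz⟩ := exists_prime_orderOf_dvd_card' (G := ↥⁅P, P⁆) p (e ▸ dvd_pow_self p n0.ne')
    exact ⟨z, z.2, by rw [Subgroup.orderOf_coe, hz]⟩
  have zle : zpowers z ≤ ⁅P, P⁆ := (zpowers_le_of_mem zD)
  have cm : ∀ a ∈ zpowers x, ∀ b ∈ zpowers z, Commute a b := by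
    rintro _ ⟨i, rfl⟩ b hb
    exact Commute.zpow_left (xw b (zle hb)) i
  have cx : ∀ (t : Y), ∀ a ∈ zpowers t, ∀ b ∈ zpowers t, Commute a b := by
    rintro t _ ⟨i, rfl⟩ _ ⟨j, rfl⟩
    exact (Commute.refl t).zpow_zpow i j
  have px : ∀ (t : Y), t ^ p = 1 → ∀ a ∈ zpowers t, a ^ p = 1 := by
    rintro t ht _ ⟨i, rfl⟩
    show (t ^ i) ^ p = 1
    rw [← zpow_natCast, ← zpow_mul, mul_comm, zpow_mul, zpow_natCast, ht, one_zpow]
  let E : Subgroup Y :=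
    { carrier := {g | ∃ a ∈ zpowers x, ∃ b ∈ zpowers z, g = a * b}
      one_mem' := ⟨1, one_mem _, 1, one_mem _, (mul_one 1).symm⟩
      mul_mem' := by
        rintro _ _ ⟨a, ha, b, hb, rfl⟩ ⟨a', ha', b', hb', rfl⟩
        exact ⟨_, mul_mem ha ha', _, mul_mem hb hb', (cm a' ha' b hb).symm.mul_mul_mul_comm a b'⟩
      inv_mem' := by
        rintro _ ⟨a, ha, b, hb, rfl⟩
        exact ⟨_, inv_mem ha, _, inv_mem hb, by rw [(cm a ha b hb).eq, mul_inv_rev]⟩ }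
  have hE : ∀ a ∈ E, ∀ b ∈ E, a * b = b * a := by
    rintro _ ⟨a, ha, b, hb, rfl⟩ _ ⟨a', ha', b', hb', rfl⟩
    exact (((cx x a ha a' ha').mul_right (cm a ha b' hb')).mul_left
      ((cm a' ha' b hb).symm.mul_right (cx z b hb b' hb'))).eq
  have nc : ¬ IsCyclic E := fun k => by
    have e1 : Nat.card E ∣ p := by
      rw [← IsCyclic.exponent_eq_card]
      refine Monoid.exponent_dvd_of_forall_pow_eq_one ?_
      rintro ⟨_, a, ha, b, hb, rfl⟩
      apply Subtype.ext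
      show (a * b) ^ p = 1
      rw [(cm a ha b hb).mul_pow, px x xp a ha, px z (zo ▸ pow_orderOf_eq_one z) b hb, mul_one]
    have e2 : zpowers z = E := eq_of_le_of_card_ge (fun b hb => ⟨1, one_mem _, b, hb, (one_mul b).symm⟩)
      (by rw [Nat.card_zpowers, zo]; exact Nat.le_of_dvd hn.hp.pos e1)
    have e3 : x ∈ ⁅P, P⁆ := zle (e2 ▸ ⟨x, mem_zpowers x, 1, one_mem _, (mul_one x).symm⟩)
    refine xi 1 hn.hp.not_dvd_one ?_
    rw [pow_one, commutatorElement_eq_one_iff_mul_comm.2 (cw x e3).symm]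
    exact one_mem _
  obtain ⟨_, ⟨a, ha, b, hb, rfl⟩, e1, v, hv, ev⟩ := exists_fix_of_not_cyclic (V := V) hE nc
  obtain ⟨y, yF, yv⟩ := h.out hv
  have eF : a * b ∈ F := hn.le (mul_mem (zpowers_le_of_mem xP ha) (DP (zle hb)))
  have k := dich h.nd h.frob yF eF (by
    rw [commutatorElement_eq_one_iff_mul_comm.2 (h.ab v hv _ _ ev yv)]; exact one_mem _) c
  have e : ⁅a * b, c⁆ = ⁅a, c⁆ := by
    rw [commutatorElement_def, commutatorElement_def, mul_assoc a b c, ← cw b (zle hb)]; group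
  obtain ⟨i, rfl⟩ := (Submonoid.mem_powers_iff _ _).1 (mem_powers_iff_mem_zpowers.2 ha)
  rw [e, hn.der] at k
  obtain ⟨j, rfl⟩ : p ∣ i := by
    by_contra hi
    exact xi i hi k
  rw [pow_mul, xp, one_pow, one_mul] at e1 ev
  exact e1 (h.semi hn (zle hb) hv ev)

end Cfsg.Agent.ND
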