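import Mathlib
import Cfsg.Agent.ND.Nil
import Cfsg.Agent.FG.H93NilRes
import Cfsg.Agent.GT.Frattini
import Cfsg.Agent.GT.MinNormal

/-! No divisibility among the degrees: the reduction to the minimal non-nilpotent case. -/

set_option autoImplicit false
set_option linter.unusedSectionVars false

namespace Cfsg.Agent.ND

open Cfsg Cfsg.Agent.Ch Cfsg.Agent.Deg Cfsg.Agent.Deg.Nd Subgroup Cfsg.Agent.FG.H93

universe u

theorem nd_surj {G H : Type*} [Group G] [Group H] (hd : ND G) (f : G →* H)
    (hf : Function.Surjective f) : ND H := fun χ ψ hχ hψ h1 h2 => by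
  have := hd _ _ (hχ.comp_surjective f hf) (hψ.comp_surjective f hf)
  simp only [charDegree_comp] at this
  exact this h1 h2

section
variable {G : Type*} [Group G] {H : Type*} [Group H] {N K : Subgroup G}

theorem index_map_of_ker {f : G →* H} (hf : Function.Surjective f) (h : f.ker ≤ N) :
    (N.map f).index = N.index := by
  rw [← index_comap_of_surjective _ hf, comap_map_eq, sup_of_le_left h]

theorem frob_map [Finite G] (hF : FrobSec N K) {f : G →* H} (hf : Function.Surjective f)
    (h : f.ker ≤ K) : FrobSec (N.map f) (K.map f) := by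
  have hN : f.ker ≤ N := h.trans hF.lt.le
  have e1 : (N.map f).comap f = N := by rw [comap_map_eq, sup_of_le_left hN]
  have e2 : (K.map f).comap f = K := by rw [comap_map_eq, sup_of_le_left h]
  refine ⟨lt_of_le_of_ne (map_mono hF.lt.le) fun e => hF.lt.ne (by rw [← e2, e, e1]),
    fun e => hF.ne_top (by rw [← e1, e, comap_top]), ?_, ?_, ?_, ?_⟩
  · rw [commutator_def, ← map_top_of_surjective f hf, ← map_commutator]
    exact map_mono hF.commutator_le
  · rw [← map_commutator]
    exact map_mono hF.comm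
  · rw [index_map_of_ker hf hN, ← relIndex_comap, e2]
    exact hF.coprime
  · intro g hg n hn
    obtain ⟨g, rfl⟩ := hf g
    obtain ⟨n, hn, rfl⟩ := hn
    obtain ⟨v, hv, h1⟩ := hF.surj g (fun e => hg (mem_map_of_mem f e)) n hn
    exact ⟨f v, mem_map_of_mem f hv, by simpa using mem_map_of_mem f h1⟩

end

/-- Reduction to the case where `N` becomes nilpotent modulo every nontrivial normal `M ≤ K`. -/
theorem prime_of_min
    (H : ∀ (G : Type u) [Group G] [Finite G] [Group.IsSolvable G] (N K : Subgroup G) [N.Normal]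
      [K.Normal], ND G → FrobSec N K → ¬ Group.IsNilpotent N →
      (∀ (M : Subgroup G) [M.Normal], M ≤ K → M ≠ ⊥ →
        Group.IsNilpotent (N.map (QuotientGroup.mk' M))) → N.index.Prime)
    {G : Type u} [Group G] [Finite G] [Group.IsSolvable G] (hd : ND G) {N K : Subgroup G} [N.Normal]
    [K.Normal] (hF : FrobSec N K) (hn : ¬ Group.IsNilpotent N) : N.index.Prime := by
  induction hc : Nat.card G using Nat.strong_induction_on generalizing G with
  | _ n ih =>
    by_cases h : ∀ (M : Subgroup G) [M.Normal], M ≤ K → M ≠ ⊥ →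
        Group.IsNilpotent (N.map (QuotientGroup.mk' M))
    · exact H G N K hd hF hn h
    push Not at h
    obtain ⟨M, hM, h1, h2, h3⟩ := h
    have hs := QuotientGroup.mk'_surjective M
    have hk : (QuotientGroup.mk' M).ker ≤ K := by rwa [QuotientGroup.ker_mk']
    have := Normal.map ‹N.Normal› _ hs
    have := Normal.map ‹K.Normal› _ hs
    rw [← index_map_of_ker hs (hk.trans hF.lt.le)]
    refine ih _ ?_ (nd_surj hd _ hs) (frob_map hF hs hk) h3 rfl
    rw [← hc, ← index_eq_card, ← M.index_mul_card]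
    exact lt_mul_of_one_lt_right (Nat.pos_of_ne_zero index_ne_zero_of_finite)
      ((one_lt_card_iff_ne_bot M).2 h2)

/-- The structure of the minimal case. -/
theorem min_struct {G : Type*} [Group G] [Finite G] [Group.IsSolvable G] {N K : Subgroup G}
    [N.Normal] (hK : ⁅N, N⁆ ≤ K) (hn : ¬ Group.IsNilpotent N)
    (h : ∀ (M : Subgroup G) [M.Normal], M ≤ K → M ≠ ⊥ →
      Group.IsNilpotent (N.map (QuotientGroup.mk' M))) :
    ∃ (W Y : Subgroup G) (q : ℕ), GT.IsMinNormal W ∧ q.Prime ∧ IsElementaryAbelian q W ∧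
      W ≤ ⁅N, N⁆ ∧ (∀ M : Subgroup G, M.Normal → M ≤ K → M ≠ ⊥ → W ≤ M) ∧ IsComplement' W Y ∧
      Group.IsNilpotent ↥(Y ⊓ N) := by
  have h0 : nilRes N ≠ ⊥ := mt nilRes_eq_bot_iff.1 hn
  have h1 : nilRes N ≤ ⁅N, N⁆ := nilRes_le_lcs N 1
  have h2 : ∀ M : Subgroup G, M.Normal → M ≤ K → M ≠ ⊥ → nilRes N ≤ M := fun M _ a b => by
    have := nilRes_eq_bot_iff.2 (h M a b)
    rwa [← map_nilRes, Subgroup.map_eq_bot_iff, QuotientGroup.ker_mk'] at this
  have hW : GT.IsMinNormal (nilRes N) := ⟨inferInstance, h0, fun M hM a => by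
    by_cases b : M = ⊥
    · exact .inl b
    · exact .inr (le_antisymm a (h2 M hM (a.trans (h1.trans hK)) b))⟩
  obtain ⟨q, hq, he⟩ := hW.elementary
  have := he.1
  have h3 := h _ (h1.trans hK) h0
  obtain ⟨Y, hY⟩ := hW.exists_isComplement'_iff.2 fun e =>
    hn (GT.isNilpotent_of_map_mk'_of_le_frattini (A := N) e)
  refine ⟨_, Y, q, hW, hq, he, h1, h2, hY, nilRes_eq_bot_iff.1 (eq_bot_iff.2 ?_)⟩
  rw [← hY.disjoint.eq_bot]
  exact le_inf (nilRes_mono inf_le_right) ((nilRes_le _).trans inf_le_left)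

end Cfsg.Agent.ND
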