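import Mathlib
import Cfsg.Agent.ND.Defs
import Cfsg.Agent.ND.Red1A
import Cfsg.Agent.GT.Fitting

set_option autoImplicit false
set_option linter.unusedSectionVars false

namespace Cfsg.Agent.ND

open Cfsg Cfsg.Agent.Ch Cfsg.Agent.Deg.Nd Subgroup MulAction
open scoped commutatorElement

variable {G : Type*} [Group G] [Finite G]

theorem red_min [Group.IsSolvable G] (hd : ND G) {N K : Subgroup G} [N.Normal] [K.Normal]
    (hF : FrobSec N K) (hn : ¬ Group.IsNilpotent N)
    (hq : ∀ (L : Subgroup G) [L.Normal], L ≤ K → L ≠ ⊥ →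
      Group.IsNilpotent (N.map (QuotientGroup.mk' L))) :
    ∃ (W Y : Subgroup G) (_ : W.Normal), Min N K W Y := by
  obtain ⟨W, Y, q, hW, hp, he, h1, h2, hY, h3⟩ := min_struct hF.comm hn hq
  have := hW.normal
  have := he.1
  have hWN : W ≤ N := h1.trans (hF.comm.trans hF.lt.le)
  refine ⟨W, Y, ‹_›, hd, hF, h1.trans hF.comm, ⟨q, hp, he.2⟩, fun a ha b hb => setLike_mul_comm ha hb,
    h2, hY, ?_, ?_⟩
  · rw [← inf_subgroupOf_left]
    exact Group.nilpotent_of_mulEquiv (subgroupOfEquivOfLe (inf_le_left : Y ⊓ N ≤ Y)).symm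
  · by_contra h
    push Not at h
    have h4 : W ⊔ Y ⊓ N = N := by
      refine le_antisymm (sup_le hWN inf_le_right) fun n hn' => ?_
      obtain ⟨⟨w, y⟩, e⟩ := hY.2 n
      rw [← e]
      refine mul_mem (mem_sup_left w.2) (mem_sup_right ⟨y.2, ?_⟩)
      exact (N.mul_mem_cancel_left (hWN w.2)).1 ((show (w : G) * y = n from e).symm ▸ hn')
    have : Group.IsNilpotent W := (IsPGroup.isNilpotent (p := q) (hp := ⟨hp⟩)
      fun w => ⟨1, Subtype.ext (by simpa using he.2 w w.2)⟩)
    refine hn (h4 ▸ GT.isNilpotent_sup_of_le_normalizer (H := W) (K := Y ⊓ N) ?_ le_normalizer_of_normal)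
    exact fun w hw => centralizer_le_normalizer _ fun x hx => h x hx.2 w hw

end Cfsg.Agent.ND
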