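import Mathlib
import Cfsg.Agent.Deg.NdA

/-! Linear characters of a complemented normal subgroup: degrees and stabilisers. -/

set_option autoImplicit false
open Cfsg

namespace Cfsg.Agent.ND

open Cfsg.Agent.Ch Cfsg.Agent.Deg Cfsg.Agent.Deg.Nd Subgroup
open scoped commutatorElement

variable {G : Type*} [Group G] {W Y : Subgroup G} [hW : W.Normal]

/-- the stabiliser of a linear character of `W` -/
def red2St (f : W →* ℂˣ) : Subgroup G := inertia W fun n => (f n : ℂ)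

theorem mem_red2St {f : W →* ℂˣ} {g : G} : g ∈ red2St f ↔ linConj g f = f := mem_inertia_lin

theorem le_red2St (f : W →* ℂˣ) : W ≤ red2St f := fun _ hg => mem_red2St.2 (linConj_of_mem hg f)

theorem red2_dec (hs : W ⊔ Y = ⊤) (g : G) : ∃ w : W, (w : G)⁻¹ * g ∈ Y := by
  have hg : g ∈ ((W ⊔ Y : Subgroup G) : Set G) := by rw [hs]; trivial
  rw [Subgroup.normal_mul] at hg
  obtain ⟨w, hw, y, hy, rfl⟩ := hg
  exact ⟨⟨w, hw⟩, by simpa using hy⟩

omit hW in
theorem red2_uniq (hi : W ⊓ Y = ⊥) {g : G} {w w' : W} (h : (w : G)⁻¹ * g ∈ Y)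
    (h' : (w' : G)⁻¹ * g ∈ Y) : w = w' := by
  have h1 : ((w'⁻¹ * w : W) : G) ∈ W ⊓ Y := ⟨(w'⁻¹ * w).2, by
    have := Y.mul_mem h' (Y.inv_mem h)
    simpa [mul_assoc] using this⟩
  rw [hi, mem_bot] at h1
  exact (inv_mul_eq_one.1 (Subtype.ext h1)).symm

/-- a linear character of a complemented normal subgroup extends to its stabiliser -/
theorem red2_extend (hi : W ⊓ Y = ⊥) (hs : W ⊔ Y = ⊤) (f : W →* ℂˣ) :
    ∃ η : red2St f →* ℂˣ, ∀ n : W, η ⟨n, le_red2St f n.2⟩ = f n := by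
  choose π hπ using red2_dec hs
  refine ⟨MonoidHom.mk' (fun t => f (π t)) fun a b => ?_, fun n => ?_⟩
  · have hy : ((π a : G)⁻¹ * a) ∈ red2St f := (red2St f).mul_mem ((red2St f).inv_mem (le_red2St f (π a).2)) a.2
    have h1 := DFunLike.congr_fun (mem_red2St.1 hy) (π b)
    rw [linConj_apply] at h1
    rw [← h1, ← map_mul]
    refine congrArg f (red2_uniq hi (hπ _) ?_)
    have := Y.mul_mem (hπ a) (hπ b)
    convert this using 1
    simp only [Subgroup.coe_mul]
    group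
  · exact congrArg f (red2_uniq hi (hπ _) (by simp))

theorem red2_index [Finite G] (hs : W ⊔ Y = ⊤) {T : Subgroup G} (hT : W ≤ T) :
    T.relIndex Y = T.index := by
  refine Nat.card_congr (Equiv.ofBijective
    (Quotient.map' (fun y : Y => (y : G)) fun a b h => ?_) ⟨fun a b h => ?_, fun c => ?_⟩)
  · rw [QuotientGroup.leftRel_apply] at h ⊢
    exact h
  · induction a using Quotient.inductionOn' with | _ a
    induction b using Quotient.inductionOn' with | _ b
    have h' : ((a : G) : G ⧸ T) = ((b : G) : G ⧸ T) := h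
    have h'' : (a : G)⁻¹ * b ∈ T := QuotientGroup.eq.1 h'
    exact QuotientGroup.eq.2 h''
  · induction c using Quotient.inductionOn' with | _ c
    obtain ⟨w, hw⟩ := red2_dec hs c
    refine ⟨Quotient.mk'' ⟨_, hw⟩, QuotientGroup.eq.2 (hT ?_)⟩
    have := hW.conj_mem _ w.2 c⁻¹
    simpa [mul_assoc] using this

variable [Finite G]

theorem red2_deg (hi : W ⊓ Y = ⊥) (hs : W ⊔ Y = ⊤) (f : W →* ℂˣ) {β : red2St f → ℂ}
    (hβ : IsIrrCharacter (red2St f) β) (hk : W.subgroupOf (red2St f) ≤ charKer β) :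
    ∃ χ, IsIrrCharacter G χ ∧ charDegree χ = (red2St f).index * charDegree β := by
  have := Fintype.ofFinite W
  obtain ⟨η, hη⟩ := red2_extend hi hs f
  obtain ⟨χ, h1, -, h2⟩ := deg12_exists_of_extends (isIrrCharacter_monoidHom_units f) rfl
    (le_red2St f) (isCharacter_monoidHom_units η) (fun n => congrArg Units.val (hη n)) hβ hk
  refine ⟨χ, h1, h2.trans ?_⟩
  rw [show charDegree (fun n => (f n : ℂ)) = 1 from
    (charDegree_congr (by simp)).trans (charDegree_one (G := W)), mul_one]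
  rfl

/-- the orbit lengths are degrees -/
theorem red2_exists (hi : W ⊓ Y = ⊥) (hs : W ⊔ Y = ⊤) (f : W →* ℂˣ) :
    ∃ χ, IsIrrCharacter G χ ∧ charDegree χ = (red2St f).index := by
  obtain ⟨χ, h1, h2⟩ := red2_deg hi hs f IsIrrCharacter.one
    (fun _ _ => IsCharacter.one.mem_charKer.2 rfl)
  exact ⟨χ, h1, by rw [h2, charDegree_one, mul_one]⟩

/-- proper stabilisers are abelian modulo `W` -/
theorem red2_comm (hd : Deg.Nd.ND G) (hi : W ⊓ Y = ⊥) (hs : W ⊔ Y = ⊤) (f : W →* ℂˣ)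
    (hf : red2St f ≠ ⊤) {a b : G} (ha : a ∈ Y) (hb : b ∈ Y) (ha' : linConj a f = f)
    (hb' : linConj b f = f) : a * b = b * a := by
  have hc : commutator (red2St f) ≤ W.subgroupOf (red2St f) := by
    by_contra hn
    obtain ⟨β, h0, hk0, h1⟩ := exists_nonlinear_le_charKer _ hn
    obtain ⟨χ, c1, c2⟩ := red2_exists hi hs f
    obtain ⟨ψ, d1, d2⟩ := red2_deg hi hs f h0 hk0
    have h5 := hd χ ψ c1 d1 (c2 ▸ mt index_eq_one.1 hf) (by rw [c2, d2]; exact Dvd.intro _ rfl)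
    rw [c2, d2] at h5
    exact h1 ((Nat.mul_eq_left index_ne_zero_of_finite).1 h5.symm)
  have h1 : ⁅a, b⁆ ∈ W := hc (Subgroup.commutator_mem_commutator
    (mem_top (⟨a, mem_red2St.2 ha'⟩ : red2St f)) (mem_top (⟨b, mem_red2St.2 hb'⟩ : red2St f)))
  have h2 : ⁅a, b⁆ ∈ W ⊓ Y := ⟨h1, by
    rw [commutatorElement_def]
    exact Y.mul_mem (Y.mul_mem (Y.mul_mem ha hb) (Y.inv_mem ha)) (Y.inv_mem hb)⟩
  rw [hi, mem_bot] at h2
  exact commutatorElement_eq_one_iff_mul_comm.1 h2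

end Cfsg.Agent.ND
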