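import Mathlib
import Cfsg.Agent.ND.Defs
import Cfsg.Agent.ND.Red1A

set_option autoImplicit false
set_option linter.unusedSectionVars false

namespace Cfsg.Agent.ND

open Cfsg Cfsg.Agent.Ch Cfsg.Agent.Deg.Nd Subgroup MulAction
open scoped commutatorElement

variable {G : Type*} [Group G] [Finite G] {N K W Y : Subgroup G} [N.Normal] [K.Normal] [W.Normal]

theorem Red4_dec (h : W.IsComplement' Y) (g : G) : ∃ w ∈ W, ∃ y : Y, g = w * y := by
  obtain ⟨⟨w, y⟩, e⟩ := (h.existsUnique g).exists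
  exact ⟨w, w.2, y, e.symm⟩

theorem Red4_proj (h : W.IsComplement' Y) : ∃ π : G →* Y, π.ker = W ∧ ∀ y : Y, π y = y := by
  let e := h.symm.QuotientMulEquiv
  refine ⟨e.toMonoidHom.comp (QuotientGroup.mk' W), ?_, fun y => ?_⟩
  · ext g
    simp [MonoidHom.mem_ker]
  · have : e.symm y = (y : G) := rfl
    show e ((y : G) : G ⧸ W) = y
    rw [← this, e.apply_symm_apply]

theorem Red4_map (h : W.IsComplement' Y) {π : G →* Y} (h1 : π.ker = W) (h2 : ∀ y : Y, π y = y) {M : Subgroup G}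
    (hM : W ≤ M) : M.map π = M.subgroupOf Y := by
  refine le_antisymm ?_ fun y hy => ⟨y, hy, h2 y⟩
  rintro _ ⟨g, hg, rfl⟩
  obtain ⟨w, hw, y, rfl⟩ := Red4_dec h g
  rw [map_mul, (MonoidHom.mem_ker.1 (h1.ge hw)), one_mul, h2]
  exact (M.mul_mem_cancel_left (hM hw)).1 hg

/-- A subgroup normalized by `W` and `Y` is normal. -/
theorem Red4_normal (h : W.IsComplement' Y) {M : Subgroup G} (h1 : W ≤ normalizer (M : Set G))
    (h2 : Y ≤ normalizer (M : Set G)) : M.Normal :=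
  normalizer_eq_top_iff.1 (eq_top_iff.2 (h.sup_eq_top ▸ sup_le h1 h2))

omit [Finite G] in
theorem Red4_norm {Z : Subgroup Y} [Z.Normal] : Y ≤ normalizer ((Z.map Y.subtype : Subgroup G) : Set G) := by
  have := Subgroup.le_normalizer_map (H := Z) Y.subtype
  rwa [normalizer_eq_top, ← MonoidHom.range_eq_map, range_subtype] at this

theorem Min.index_eq (h : Min N K W Y) : (N.subgroupOf Y).index = N.index := by
  obtain ⟨π, h1, h2⟩ := Red4_proj h.compl
  have hN := h.WK.trans h.frob.lt.le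
  rw [← Red4_map h.compl h1 h2 hN, index_map_eq N (f := π) (fun y => ⟨y, h2 y⟩) (h1.le.trans hN)]

theorem Min.frobY (h : Min N K W Y) : FrobSec (N.subgroupOf Y) (K.subgroupOf Y) := by
  obtain ⟨π, h1, h2⟩ := Red4_proj h.compl
  rw [← Red4_map h.compl h1 h2 (h.WK.trans h.frob.lt.le), ← Red4_map h.compl h1 h2 h.WK]
  exact frob_map h.frob (fun y => ⟨y, h2 y⟩) (h1 ▸ h.WK)

/-- A normal subgroup of `Y` fixing a nontrivial linear character of `W` centralizes `W`. -/
theorem Min.cent (h : Min N K W Y) {Z : Subgroup Y} [Z.Normal] {f : W →* ℂˣ} (hf : f ≠ 1)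
    (hZ : Z ≤ linStab W Y f) : ∀ z ∈ Z, ∀ w ∈ W, (z : G) * w = w * z := by
  have hle : ⁅W, Z.map Y.subtype⁆ ≤ W := commutator_le_left _ _
  have hn : (⁅W, Z.map Y.subtype⁆ : Subgroup G).Normal := by
    refine Red4_normal h.compl (fun w hw => centralizer_le_normalizer _
      (mem_centralizer_iff.2 fun v hv => h.comm v (hle hv) w hw)) fun y hy => ?_
    have e1 : W.map (MulAut.conj y).toMonoidHom = W :=
      mem_normalizer_iff_map_conj_eq.1 (by rw [normalizer_eq_top]; exact mem_top y)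
    have e2 := mem_normalizer_iff_map_conj_eq.1 (Red4_norm (Z := Z) hy)
    rw [mem_normalizer_iff_map_conj_eq, map_commutator]
    exact congrArg₂ _ e1 e2
  by_cases hb : ⁅W, Z.map Y.subtype⁆ = ⊥
  · intro z hz w hw
    exact (mem_centralizer_iff.1 (commutator_eq_bot_iff_le_centralizer.1 hb hw) z ⟨z, hz, rfl⟩)
  refine absurd (MonoidHom.ext fun w => ?_) hf
  have k : ⁅W, Z.map Y.subtype⁆ ≤ f.ker.map W.subtype := commutator_le.2 (by
    rintro v hv _ ⟨z, hz, rfl⟩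
    have e := DFunLike.congr_fun (mem_linStab.1 (hZ (inv_mem hz))) ⟨v, hv⟩⁻¹
    rw [linConj_apply] at e
    refine ⟨⟨v, hv⟩ * ⟨_, ‹W.Normal›.conj_mem _ (⟨v, hv⟩⁻¹ : W).2 ((z⁻¹ : Y) : G)⁻¹⟩, ?_, ?_⟩
    · rw [SetLike.mem_coe, MonoidHom.mem_ker, map_mul, e, ← map_mul, mul_inv_cancel, map_one]
    · simp [commutatorElement_def, mul_assoc])
  obtain ⟨v, hv, e⟩ := k (h.min _ hn (hle.trans h.WK) hb w.2)
  exact (Subtype.ext e : v = w) ▸ hv

theorem Min.eq_bot (h : Min N K W Y) {Z : Subgroup Y} [Z.Normal] (hK : Z ≤ K.subgroupOf Y)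
    (hZ : ∀ z ∈ Z, ∀ w ∈ W, (z : G) * w = w * z) : Z = ⊥ := by
  by_contra hb
  have hn : (Z.map Y.subtype).Normal := Red4_normal h.compl (fun w hw => centralizer_le_normalizer _
    (mem_centralizer_iff.2 (by rintro _ ⟨z, hz, rfl⟩; exact hZ z hz w hw))) Red4_norm
  have := h.min _ hn (map_le_iff_le_comap.2 hK) (mt (map_eq_bot_iff_of_injective _ Y.subtype_injective).1 hb)
  obtain ⟨x, -, w, hw, e⟩ := h.nc
  have k : w = 1 := disjoint_def.1 h.compl.disjoint hw (map_subtype_le _ (this hw))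
  exact e (by rw [k, mul_one, one_mul])

theorem Min.not_le (h : Min N K W Y) {f : W →* ℂˣ} (hf : f ≠ 1) :
    ¬ N.subgroupOf Y ≤ linStab W Y f := by
  intro k
  obtain ⟨x, hx, w, hw, e⟩ := h.nc
  obtain ⟨v, hv, y, rfl⟩ := Red4_dec h.compl x
  have hy : y ∈ N.subgroupOf Y := (N.mul_mem_cancel_left (h.frob.lt.le (h.WK hv))).1 hx
  exact e (by rw [mul_assoc, h.cent hf k y hy w hw, ← mul_assoc, h.comm v hv w hw, mul_assoc])


end Cfsg.Agent.ND
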