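import Mathlib
import Cfsg.Agent.ND.Defs
import Cfsg.Agent.ND.Red2a
import Cfsg.Agent.ND.Red1A
import Cfsg.Agent.ND.Red4
import Cfsg.Agent.ND.Cyc

set_option autoImplicit false
set_option linter.unusedSectionVars false

namespace Cfsg.Agent.ND

open Cfsg Cfsg.Agent.Ch Cfsg.Agent.Deg.Nd Subgroup MulAction
open scoped commutatorElement

variable {G : Type*} [Group G] [Finite G] {N K W Y : Subgroup G} [N.Normal] [K.Normal] [W.Normal]

theorem red5_mem {f : W →* ℂˣ} {g : Y} : g ∈ linStab W Y f ↔ linConj (g : G) f = f := by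
  rw [mem_linStab, ← mem_red2St, inv_mem_iff, mem_red2St]

theorem red5_stab (f : W →* ℂˣ) : linStab W Y f = (red2St f).subgroupOf Y :=
  Subgroup.ext fun _ => red5_mem.trans mem_red2St.symm

theorem red5_index (h : Min N K W Y) (f : W →* ℂˣ) :
    (linStab W Y f).index = (red2St f).index := by
  rw [red5_stab]
  exact red2_index h.compl.sup_eq_top (le_red2St f)

theorem red5_deg (h : Min N K W Y) (f : W →* ℂˣ) :
    ∃ χ, IsIrrCharacter G χ ∧ charDegree χ = (linStab W Y f).index := by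
  rw [red5_index h]
  exact red2_exists h.compl.disjoint.eq_bot h.compl.sup_eq_top f

theorem red5_ne_top (h : Min N K W Y) {f : W →* ℂˣ} (hf : f ≠ 1) : linStab W Y f ≠ ⊤ :=
  fun e => h.not_le hf (e ▸ le_top)

theorem red5_ab (h : Min N K W Y) {f : W →* ℂˣ} (hf : f ≠ 1) {a b : Y} (ha : a ∈ linStab W Y f)
    (hb : b ∈ linStab W Y f) : a * b = b * a :=
  Subtype.ext (red2_comm h.nd h.compl.disjoint.eq_bot h.compl.sup_eq_top f
    (fun e => red5_ne_top h hf (by rw [red5_stab, e, top_subgroupOf])) a.2 b.2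
    (red5_mem.1 ha) (red5_mem.1 hb))

theorem red5_out (h : Min N K W Y) {f : W →* ℂˣ} (hf : f ≠ 1) :
    ¬ linStab W Y f ≤ N.subgroupOf Y := fun hle => by
  obtain ⟨χ, hχ, e⟩ := red5_deg h f
  have h1 := nil_eq_of_dvd h.nd h.frob hχ (by rw [e, ← h.index_eq]; exact index_dvd_of_le hle)
  have h2 := relIndex_mul_index hle
  rw [← e, h1, h.index_eq] at h2
  exact h.not_le hf (relIndex_eq_one.1 ((Nat.mul_eq_right index_ne_zero_of_finite).1 h2))

/-- the projection onto the complement -/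
theorem red5_proj (h : Min N K W Y) : ∃ π : G →* Y, Function.Surjective π :=
  ⟨h.compl.symm.QuotientMulEquiv.toMonoidHom.comp (QuotientGroup.mk' W),
    h.compl.symm.QuotientMulEquiv.surjective.comp (QuotientGroup.mk'_surjective W)⟩

theorem deg_compl (h : Min N K W Y) {χ : Y → ℂ} (hχ : IsIrrCharacter Y χ) :
    ∃ ψ, IsIrrCharacter G ψ ∧ charDegree ψ = charDegree χ := by
  obtain ⟨π, hπ⟩ := red5_proj h
  exact ⟨_, hχ.comp_surjective π hπ, charDegree_comp _ _⟩

theorem Min.hyp (h : Min N K W Y) :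
    @Hyp (W →* ℂˣ) _ Y _ (linAct W Y) (N.subgroupOf Y) (K.subgroupOf Y) := by
  letI := linAct W Y
  obtain ⟨π, hπ⟩ := red5_proj h
  refine ⟨nd_surj h.nd π hπ, h.frobY, h.nil, ?_, ?_, ?_, ?_, ?_, ?_⟩
  · obtain ⟨x, -, w, hw, hne⟩ := h.nc
    obtain ⟨f, hf⟩ := exists_monoidHom_units_ne_one_of_comm (G := W)
      (fun a b => Subtype.ext (h.comm a a.2 b b.2)) (g := ⟨w, hw⟩) (fun e => hne (by
        have : w = 1 := congrArg Subtype.val e
        rw [this, mul_one, one_mul]))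
    exact ⟨f, 1, fun e => hf (by rw [e]; rfl)⟩
  · obtain ⟨r, hr, hW⟩ := h.elem
    refine ⟨r, hr, fun v => MonoidHom.ext fun w => ?_⟩
    have : w ^ r = 1 := Subtype.ext (hW w w.2)
    rw [MonoidHom.pow_apply, ← map_pow, this, map_one, MonoidHom.one_apply]
  · intro Z hZ hZF hne v hv
    by_contra hv1
    have hle : Z ≤ linStab W Y v := fun z hz => hv z hz
    obtain ⟨y, hy, hyF⟩ := SetLike.not_le_iff_exists.1 (red5_out h hv1)
    refine hne (h.eq_bot (fun z hz => frob_mem h.frobY hyF (hZF hz) ?_) (h.cent hv1 hle))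
    rw [commutatorElement_eq_one_iff_mul_comm.2 (red5_ab h hv1 (hle hz) hy)]
    exact one_mem _
  · intro v hv a b ha hb
    exact red5_ab h hv ha hb
  · intro v w hv _ hd
    obtain ⟨χ, hχ, e⟩ := red5_deg h v
    obtain ⟨ψ, hψ, e'⟩ := red5_deg h w
    have := h.nd χ ψ hχ hψ (e ▸ mt index_eq_one.1 (red5_ne_top h hv)) (by rw [e, e']; exact hd)
    rwa [e, e'] at this
  · intro v _ χ hχ h1 hd
    obtain ⟨ξ, hξ, e⟩ := deg_compl h hχ
    obtain ⟨ψ, hψ, e'⟩ := red5_deg h v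
    have := h.nd ξ ψ hξ hψ (e ▸ h1) (by rw [e, e']; exact hd)
    rwa [e, e'] at this

end Cfsg.Agent.ND
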