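import Mathlib
import Cfsg.Agent.ND.Defs
import Cfsg.Agent.ND.Red2
import Cfsg.Agent.ND.Red5
import Cfsg.Agent.ND.Nab0
import Cfsg.Agent.ND.NabF
import Cfsg.Agent.ND.AbB
import Cfsg.Agent.ND.AbF

/-! No divisibility among the degrees: a non-nilpotent top forces a prime index. -/

set_option autoImplicit false
set_option linter.unusedSectionVars false

namespace Cfsg.Agent.ND

open Cfsg Cfsg.Agent.Ch Cfsg.Agent.Deg.Nd Subgroup MulAction
open scoped commutatorElement

theorem Hyp.prime {V : Type*} [CommGroup V] [Finite V] {Y : Type*} [Group Y] [Finite Y]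
    [MulDistribMulAction Y V] {F K : Subgroup Y} [F.Normal] [K.Normal] (h : Hyp V F K) :
    F.index.Prime := by
  by_contra hp
  by_cases hc : ⁅F, F⁆ = ⊥
  · obtain ⟨J, A, Z, y₀, ha⟩ := h.exists_ab hc hp
    exact hp ha.prime
  · have := h.nil
    obtain ⟨p, P, _, hn⟩ := exists_nab h.nd h.frob hc
    exact h.not_nab hn

variable {G : Type*} [Group G] [Finite G]

theorem prime [Group.IsSolvable G] (hd : ND G) {N K : Subgroup G} [N.Normal] [K.Normal]
    (hF : FrobSec N K) (hn : ¬ Group.IsNilpotent N) : N.index.Prime := by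
  refine prime_of_min (fun G _ _ _ N K _ _ hd hF hn hq => ?_) hd hF hn
  obtain ⟨W, Y, _, h⟩ := red_min hd hF hn hq
  let _ := linAct W Y
  have : Finite (W →* ℂˣ) := inferInstance
  rw [← h.index_eq]
  exact h.hyp.prime

end Cfsg.Agent.ND
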